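import Mathlib
import Cfsg.Agent.H4.GLa

/-! Affine maps determined by triples. -/

namespace Cfsg.Agent.H7

variable {F V : Type*} [Field F] [AddCommGroup V] [Module F V]

theorem affine_of_triples (h2 : (2 : F) ≠ 0) (σ : Equiv.Perm V)
    (h : ∀ t : Fin 3 → V, ∃ (A : V ≃ₗ[F] V) (b : V), ∀ i, σ (t i) = A (t i) + b) :
    ∃ (A : V ≃ₗ[F] V) (b : V), ∀ x, σ x = A x + b := by
  have h1 : ∀ (c : F) x y, σ ((1 - c) • x + c • y) = (1 - c) • σ x + c • σ y := fun c x y => by
    obtain ⟨A, b, e⟩ := h ![x, y, (1 - c) • x + c • y]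
    have e0 : σ x = A x + b := e 0
    have e1 : σ y = A y + b := e 1
    rw [show σ ((1 - c) • x + c • y) = A ((1 - c) • x + c • y) + b from e 2, e0, e1, map_add, map_smul, map_smul]
    module
  have h3 : ∀ (c : F) x, σ (c • x) - σ 0 = c • (σ x - σ 0) := fun c x => by
    have := h1 c 0 x
    rw [smul_zero, zero_add] at this
    rw [this]; module
  refine ⟨{ σ.trans (Equiv.subRight (σ 0)) with map_add' := fun x y => ?_, map_smul' := h3 }, σ 0, fun x =>
    (sub_add_cancel _ _).symm⟩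
  have h4 : (1 : F) - 2⁻¹ = 2⁻¹ := by field_simp; norm_num
  have h5 := h3 2 ((2⁻¹ : F) • x + (2⁻¹ : F) • y)
  have h6 := h1 2⁻¹ x y
  rw [h4] at h6
  rw [h6, ← smul_add, smul_inv_smul₀ h2, ← smul_add, smul_sub, smul_inv_smul₀ h2] at h5
  change σ (x + y) - σ 0 = σ x - σ 0 + (σ y - σ 0)
  rw [h5]; module

theorem exists_equiv_of_ker [FiniteDimensional F V] {W : Type*} [AddCommGroup W] [Module F W] {i j : W →ₗ[F] V}
    (h : LinearMap.ker i = LinearMap.ker j) : ∃ g : V ≃ₗ[F] V, ∀ x, g (i x) = j x := by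
  obtain ⟨g, hg⟩ := H4.exists_ext_equiv (i.quotKerEquivRange.symm.trans
    ((Submodule.quotEquivOfEq _ _ h).trans j.quotKerEquivRange))
  refine ⟨g, fun x => (hg ⟨_, LinearMap.mem_range_self i x⟩).trans ?_⟩
  rw [LinearEquiv.trans_apply, LinearMap.quotKerEquivRange_symm_apply_image]
  rfl

end Cfsg.Agent.H7
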