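import Mathlib
import Cfsg.Agent.H3.Cover
import Cfsg.Agent.H3.Misc
import Cfsg.Agent.H3.Mackey
import Cfsg.Agent.H3.Prim
import Cfsg.Agent.S4456
import Cfsg.Agent.S0178

/-! Groups with few character degrees. -/

namespace Cfsg.Agent.H7
open Cfsg H3
open scoped ComplexConjugate commutatorElement

universe u
variable {G : Type u} [Group G] [Finite G]

theorem deg_eq_one_iff {χ : G → ℂ} (h : IsIrrCharacter G χ) : charDegree χ = 1 ↔ χ 1 = 1 := by
  rw [← h.cast_charDegree]; exact_mod_cast Iff.rfl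

theorem deg_le_index {χ : G → ℂ} (h : IsIrrCharacter G χ) (A : Subgroup G)
    (hA : ∀ a ∈ A, ∀ b ∈ A, a * b = b * a) : charDegree χ ≤ A.index := by
  obtain ⟨n, ρ, hρ, rfl⟩ := h
  have := Cfsg.Agent.S0178.result ρ A hA
  rw [charDegree_eq (n := n) (by simp)]
  simpa using this

theorem commutator_le_of_deg {N : Subgroup G} [N.Normal]
    (h : ∀ χ, IsIrrCharacter G χ → N ≤ charKer χ → charDegree χ = 1) : commutator G ≤ N := by
  intro x hx
  refine mem_of_forall_irr N fun χ hχ hk => ?_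
  exact apply_of_mem_charKer (hχ.degree_eq_one_iff.1 ((deg_eq_one_iff hχ).1 (h χ hχ hk)) hx)

theorem comm_of_deg (h : ∀ χ, IsIrrCharacter G χ → charDegree χ = 1) (a b : G) :
    a * b = b * a := by
  have h1 : commutator G ≤ ⊥ := commutator_le_of_deg fun χ hχ _ => h χ hχ
  have : ⁅a, b⁆ ∈ commutator G := Subgroup.commutator_mem_commutator trivial trivial
  exact commutatorElement_eq_one_iff_mul_comm.1 (h1 this)

theorem deg_dvd_index_of_le_ker {N : Subgroup G} [N.Normal] {χ : G → ℂ} (h : IsIrrCharacter G χ)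
    (hk : N ≤ charKer χ) : charDegree χ ∣ N.index := by
  obtain ⟨χ', h1, h2⟩ := h.exists_quotient N hk
  have : charDegree χ = charDegree χ' := by
    unfold charDegree; rw [← h2]; rfl
  rw [this]; exact h1.degree_dvd_card

theorem deg_res_dvd {N : Subgroup G} [N.Normal] {θ : N → ℂ} (hθ : IsIrrCharacter N θ) :
    ∃ χ, IsIrrCharacter G χ ∧ ∃ e, e ∣ N.index ∧ charDegree χ = e * charDegree θ := by
  classical
  haveI := Fintype.ofFinite G
  obtain ⟨χ, hχ, hc⟩ := hθ.exists_over
  obtain ⟨e, h1, h2⟩ := hχ.exists_degree_eq hθ hc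
  refine ⟨χ, hχ, e, h2, ?_⟩
  rw [← hχ.cast_charDegree, ← hθ.cast_charDegree] at h1
  exact_mod_cast h1

theorem exists_compl {g : ℕ} (hg : g ≠ 0)
    (h : ∀ χ, IsIrrCharacter G χ → charDegree χ ≠ 1 → g ∣ charDegree χ) :
    ∃ L : Subgroup G, ∃ _ : L.Normal, (Nat.card L).Coprime g ∧ Group.IsNilpotent (G ⧸ L) ∧
      ∀ q : ℕ, q.Prime → q ∣ L.index → q ∣ g := by
  classical
  have h1 : ∀ p : g.primeFactors, ∃ N : Subgroup G, N.Normal ∧ (Nat.card N).Coprime p ∧
      ∃ k : ℕ, N.index = (p : ℕ) ^ k := fun p =>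
    Cfsg.Agent.S4456.result p (Nat.prime_of_mem_primeFactors p.2) fun χ h1 =>
      (Nat.dvd_of_mem_primeFactors p.2).trans (h χ χ.2 h1)
  choose N hN hc k hk using h1
  let f : G →* (∀ p : g.primeFactors, G ⧸ N p) := Pi.monoidHom fun p => QuotientGroup.mk' (N p)
  have hle : ∀ p, f.ker ≤ N p := by
    intro p x hx
    have := congrFun (MonoidHom.mem_ker.1 hx) p
    exact (QuotientGroup.eq_one_iff x).1 this
  haveI : ∀ p : g.primeFactors, Group.IsNilpotent (G ⧸ N p) := fun p => by
    haveI : Fact (p : ℕ).Prime := ⟨Nat.prime_of_mem_primeFactors p.2⟩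
    exact (IsPGroup.of_card (p := p) (n := k p) (hk p)).isNilpotent
  refine ⟨f.ker, inferInstance, ?_, ?_, ?_⟩
  · apply Nat.coprime_of_dvd
    intro q hq h1 h2
    have hm : q ∈ g.primeFactors := Nat.mem_primeFactors.2 ⟨hq, h2, hg⟩
    have h3 := h1.trans (Subgroup.card_dvd_of_le (hle ⟨q, hm⟩))
    exact hq.one_lt.ne' (Nat.eq_one_of_dvd_coprimes (hc ⟨q, hm⟩) h3 dvd_rfl)
  · exact Group.nilpotent_of_mulEquiv (QuotientGroup.quotientKerEquivRange f).symm
  · intro q hq h1
    rw [Subgroup.index_ker] at h1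
    have h2 := h1.trans (Subgroup.card_subgroup_dvd_card f.range)
    rw [Nat.card_pi] at h2
    obtain ⟨p, -, hp⟩ := (Nat.Prime.prime hq).exists_mem_finset_dvd h2
    have h3 : q ∣ (p : ℕ) ^ k p := by rw [← hk p]; exact hp
    have h4 := (Nat.prime_dvd_prime_iff_eq hq (Nat.prime_of_mem_primeFactors p.2)).1
      (hq.dvd_of_dvd_pow h3)
    rw [h4]; exact Nat.dvd_of_mem_primeFactors p.2

/-- stabiliser for an action given by a homomorphism into `MulAut` -/
def stab {B : Type*} [CommGroup B] (f : G →* MulAut B) (b : B) : Subgroup G where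
  carrier := {g | f g b = b}
  mul_mem' {x y} hx hy := by
    simp only [Set.mem_setOf_eq] at hx hy ⊢
    rw [map_mul, MulAut.mul_apply, hy, hx]
  one_mem' := by simp
  inv_mem' {x} hx := by
    simp only [Set.mem_setOf_eq] at hx ⊢
    rw [map_inv]
    exact (MulEquiv.symm_apply_eq _).2 hx.symm

omit [Finite G] in
theorem mem_stab {B : Type*} [CommGroup B] {f : G →* MulAut B} {b : B} {g : G} :
    g ∈ stab f b ↔ f g b = b := Iff.rfl

/-- abstract action lemma -/
theorem act_lemma {B : Type*} [CommGroup B] (f : G →* MulAut B) {n k m : ℕ} (hnk : n.Coprime k)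
    (hn : ∀ g, f g ^ n = 1) (hk : ∀ b : B, b ^ k = 1)
    (hT : ∀ b, stab f b ≠ ⊤ →
      (stab f b).index = m)
    {z : G} (hz : ∀ g, f z * f g = f g * f z) {μ : B}
    (hμ : stab f μ ≠ ⊤) (hzμ : f z μ = μ) : f z = 1 := by
  have key : ∀ ν : B, f z (f z ν * ν⁻¹) = f z ν * ν⁻¹ → f z ν = ν := by
    intro ν h
    set c := f z ν * ν⁻¹ with hc
    have h1 : ∀ j : ℕ, (f z ^ j) ν = c ^ j * ν := by
      intro j
      induction j with
      | zero => simp
      | succ j ih =>
        rw [pow_succ', MulAut.mul_apply, ih, map_mul, map_pow, h, pow_succ, mul_assoc]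
        congr 1; rw [hc]; group
    have h2 := h1 n
    rw [hn] at h2
    have h3 : c ^ n = 1 := by simpa using h2
    have h4 : c = 1 := (pow_eq_one_iff_of_coprime hnk).1 ⟨h3, hk c⟩
    exact mul_inv_eq_one.1 h4
  ext ν
  apply key
  obtain ⟨ν₁, hν₁⟩ : ∃ ν₁, ν₁ = f z ν * ν⁻¹ := ⟨_, rfl⟩
  rw [← hν₁]
  have hmem : ∀ (g : G) (b : B), g ∈ stab f b ↔ f g b = b :=
    fun g b => Iff.rfl
  have hzg : ∀ g b, f z (f g b) = f g (f z b) := fun g b => by
    rw [← MulAut.mul_apply, hz, MulAut.mul_apply]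
  have hle : ∀ g, f g (μ * ν₁) = μ * ν₁ → f g ν₁ = ν₁ := by
    intro g hg
    have h1 : f g (f z ν₁ * ν₁⁻¹) = f z ν₁ * ν₁⁻¹ := by
      have e : f z ν₁ * ν₁⁻¹ = f z (μ * ν₁) * (μ * ν₁)⁻¹ := by
        rw [map_mul, hzμ, mul_inv, mul_mul_mul_comm, mul_inv_cancel, one_mul]
      rw [e, map_mul, map_inv, ← hzg, hg]
    have h2 := key (f g ν * ν⁻¹) (by
      have e : f z (f g ν * ν⁻¹) * (f g ν * ν⁻¹)⁻¹ = f g ν₁ * ν₁⁻¹ := by
        rw [hν₁]; simp only [map_mul, map_inv, hzg, mul_inv, inv_inv]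
        simp only [mul_comm, mul_left_comm, mul_assoc]
      rw [e, map_mul, map_inv, hzg]
      rw [map_mul, map_inv] at h1
      calc f g (f z ν₁) * (f z ν₁)⁻¹ = (f g (f z ν₁) * (f g ν₁)⁻¹) * (f g ν₁ * (f z ν₁)⁻¹) := by
            group
        _ = (f z ν₁ * ν₁⁻¹) * (f g ν₁ * (f z ν₁)⁻¹) := by rw [h1]
        _ = _ := by
            rw [mul_comm (f g ν₁), mul_comm (f z ν₁), ← mul_assoc, mul_inv_cancel_right, mul_comm])
    rw [map_mul, map_inv, hzg] at h2
    rw [hν₁, map_mul, map_inv]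
    calc f g (f z ν) * (f g ν)⁻¹ = (f g (f z ν) * (f z ν)⁻¹) * (f z ν * (f g ν)⁻¹) := by group
      _ = (f g ν * ν⁻¹) * (f z ν * (f g ν)⁻¹) := by rw [h2]
      _ = _ := by
          rw [mul_comm (f g ν), mul_comm (f z ν) (f g ν)⁻¹, ← mul_assoc, mul_inv_cancel_right, mul_comm]
  have hle' : stab f (μ * ν₁) ≤
      stab f μ := by
    intro g hg
    rw [hmem] at hg ⊢
    have h1 := hle g hg
    rw [map_mul, h1] at hg
    exact mul_right_cancel hg
  have hne : stab f (μ * ν₁) ≠ ⊤ := fun h =>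
    hμ (top_le_iff.1 (h ▸ hle'))
  have heq : stab f (μ * ν₁) =
      stab f μ :=
    Subgroup.eq_of_le_of_card_ge hle' (by
      have h1 := Subgroup.card_mul_index (stab f (μ * ν₁))
      have h2 := Subgroup.card_mul_index (stab f μ)
      have h3 := Subgroup.index_ne_zero_of_finite (H := stab f μ)
      rw [hT _ hne] at h1
      rw [hT _ hμ] at h2 h3
      exact (Nat.eq_of_mul_eq_mul_right (Nat.pos_of_ne_zero h3) (h2.trans h1.symm)).le)
  have : z ∈ stab f (μ * ν₁) := by
    rw [heq]; exact hzμ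
  exact hle z this

/-- conjugation action on linear characters of a normal subgroup -/
def dualAct (A : Subgroup G) [A.Normal] : G →* MulAut (A →* ℂˣ) where
  toFun g :=
    { toFun := fun l => l.comp (MulAut.conjNormal g⁻¹).toMonoidHom
      invFun := fun l => l.comp (MulAut.conjNormal g).toMonoidHom
      left_inv := fun l => by ext a; simp
      right_inv := fun l => by ext a; simp
      map_mul' := fun a b => by ext; simp }
  map_one' := by ext; simp
  map_mul' a b := by ext; simp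

omit [Finite G] in
theorem dualAct_apply (A : Subgroup G) [hA : A.Normal] (g : G) (l : A →* ℂˣ) (a : A) :
    dualAct A g l a = l ⟨g⁻¹ * a * g, hA.conj_mem' a a.2 g⟩ := by
  show l _ = l _
  congr 1; ext; simp

omit [Finite G] in
theorem inertia_eq_stab (A : Subgroup G) [hA : A.Normal] (l : A →* ℂˣ) :
    inertia (fun a => (l a : ℂ)) = stab (dualAct A) l := by
  ext g
  rw [← inv_mem_iff, mem_inertia']
  show _ ↔ dualAct A g l = l
  rw [MonoidHom.ext_iff]
  refine forall_congr' fun a => ?_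
  rw [dualAct_apply, Units.ext_iff]
  simp only [inv_inv]

theorem eq_of_forall_linear {A : Type*} [Group A] [Finite A] (hA : ∀ a b : A, a * b = b * a)
    {a b : A} (h : ∀ l : A →* ℂˣ, l a = l b) : a = b := by
  haveI : IsMulCommutative A := ⟨⟨hA⟩⟩
  rw [← mul_inv_eq_one]
  refine eq_one_of_forall_irr fun χ hχ => ?_
  obtain ⟨l, rfl⟩ := hχ.exists_linear_of_comm
  simp [h l]

theorem dualAct_eq_one_iff (A : Subgroup G) [hA : A.Normal] (hab : ∀ a ∈ A, ∀ b ∈ A, a * b = b * a)
    (g : G) : dualAct A g = 1 ↔ g ∈ Subgroup.centralizer (A : Set G) := by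
  rw [Subgroup.mem_centralizer_iff]
  constructor
  · intro h a ha
    have := eq_of_forall_linear (A := A) (fun a b => Subtype.ext (hab a a.2 b b.2))
      (a := ⟨g⁻¹ * a * g, hA.conj_mem' a ha g⟩) (b := ⟨a, ha⟩) fun l => by
        rw [← dualAct_apply A g l ⟨a, ha⟩, h]; rfl
    have h2 : g⁻¹ * a * g = a := congrArg Subtype.val this
    calc a * g = g * (g⁻¹ * a * g) := by group
      _ = g * a := by rw [h2]
  · intro h
    ext l a
    rw [dualAct_apply]
    have : (⟨g⁻¹ * a * g, hA.conj_mem' a a.2 g⟩ : A) = a := by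
      ext; show g⁻¹ * a * g = a
      rw [mul_assoc, h a a.2]; group
    rw [this]; rfl

/-- characters over an irreducible character of a normal Hall subgroup -/
theorem exists_deg_over {N : Subgroup G} [N.Normal] (hc : (Nat.card N).Coprime N.index)
    {θ : N → ℂ} (hθ : IsIrrCharacter N θ) {β : inertia θ → ℂ} (hβ : IsIrrCharacter _ β)
    (hk : N.subgroupOf (inertia θ) ≤ charKer β) :
    ∃ χ, IsIrrCharacter G χ ∧ charDegree χ = (inertia θ).index * charDegree β * charDegree θ := by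
  classical
  haveI := Fintype.ofFinite G
  have hNT : N ≤ inertia θ := hθ.isClassFunction.le_inertia
  have hθ' := hθ.toSubOf hNT
  obtain ⟨η, hη, he⟩ := exists_ext_of_coprime hθ' (by
    rw [← inertia_eq_top_iff, inertia_toSubOf hNT]; simp) (by
    rw [Nat.card_congr (Subgroup.subgroupOfEquivOfLe hNT).toEquiv]
    exact hc.coprime_dvd_right (Subgroup.relIndex_dvd_index_of_le hNT))
  have hr : (fun n : N.subgroupOf (inertia θ) => η n) = toSubOf _ θ := funext he
  have h1 := hβ.gallagher_irr hk hη.isCharacter (by rw [hr]; exact hθ')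
  have h2 : resLe hNT (β * η) = β 1 • θ := by
    funext n
    have e1 : β ⟨n, hNT n.2⟩ = β 1 := apply_of_mem_charKer (hk (by simpa [Subgroup.mem_subgroupOf] using n.2))
    have e2 : η ⟨n, hNT n.2⟩ = θ n := he ⟨⟨n, hNT n.2⟩, n.2⟩
    simp only [resLe, Pi.mul_apply, e1, e2, Pi.smul_apply, smul_eq_mul]
  refine ⟨_, h1.ind_inertia_irr hθ rfl hNT (by
    rw [h2, classInner_smul_left, hθ.inner_self, mul_one]; exact hβ.apply_one_ne_zero), ?_⟩
  apply charDegree_eq
  have e3 : η 1 = θ 1 := he 1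
  rw [indFun_one, Pi.mul_apply, e3, ← hβ.cast_charDegree, ← hθ.cast_charDegree]
  push_cast; ring

theorem stab_facts {A : Subgroup G} [A.Normal] (hc : (Nat.card A).Coprime A.index) {m : ℕ}
    (hcd : ∀ χ, IsIrrCharacter G χ → charDegree χ = 1 ∨ charDegree χ = m) (l : A →* ℂˣ)
    (hl : stab (dualAct A) l ≠ ⊤) : (stab (dualAct A) l).index = m ∧
      ∀ x ∈ stab (dualAct A) l, ∀ y ∈ stab (dualAct A) l, ⁅x, y⁆ ∈ A := by
  rw [← inertia_eq_stab] at hl ⊢
  have hθ := isIrrCharacter_linear l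
  have hd : charDegree (fun a => (l a : ℂ)) = 1 := charDegree_eq (by simp)
  have h1 : ∀ β, IsIrrCharacter _ β → A.subgroupOf (inertia fun a => (l a : ℂ)) ≤ charKer β →
      (inertia fun a => (l a : ℂ)).index * charDegree β = m := by
    intro β hβ hk
    obtain ⟨χ, hχ, h⟩ := exists_deg_over hc hθ hβ hk
    rw [hd, mul_one] at h
    rcases hcd χ hχ with h2 | h2
    · rw [h2] at h
      exact absurd (Subgroup.index_eq_one.1 (Nat.eq_one_of_mul_eq_one_right h.symm)) hl
    · rw [← h, h2]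
  have h2 := h1 _ isIrrCharacter_one (fun x _ y => rfl)
  rw [charDegree_eq (n := 1) (by simp), mul_one] at h2
  refine ⟨h2, fun x hx y hy => ?_⟩
  have h3 : commutator (inertia fun a => (l a : ℂ)) ≤ A.subgroupOf _ :=
    commutator_le_of_deg fun β hβ hk => by
      have := h1 β hβ hk
      rw [← h2] at this
      exact Nat.eq_of_mul_eq_mul_left (Nat.pos_of_ne_zero Subgroup.index_ne_zero_of_finite)
        (this.trans (mul_one _).symm)
  exact h3 (Subgroup.commutator_mem_commutator (g₁ := ⟨x, hx⟩) (g₂ := ⟨y, hy⟩) trivial trivial)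

omit [Finite G] in
theorem commutator_pow_left {x y : G} (h : Commute ⁅x, y⁆ x) (j : ℕ) : ⁅x ^ j, y⁆ = ⁅x, y⁆ ^ j := by
  induction j with
  | zero => simp
  | succ j ih =>
    have e : ⁅x ^ (j + 1), y⁆ = x * ⁅x ^ j, y⁆ * x⁻¹ * ⁅x, y⁆ := by
      simp only [commutatorElement_def, pow_succ']; group
    rw [e, ih, ← (h.pow_left j).eq, mul_inv_cancel_right, pow_succ]

theorem dual_pow_card (A : Type*) [Group A] [Finite A] (b : A →* ℂˣ) : b ^ Nat.card A = 1 := by
  ext a
  simp only [MonoidHom.pow_apply, MonoidHom.one_apply]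
  rw [← map_pow, pow_card_eq_one', map_one]

theorem dual_lemma {A : Subgroup G} [A.Normal] (hc : (Nat.card A).Coprime A.index)
    (hab : ∀ a ∈ A, ∀ b ∈ A, a * b = b * a) {m : ℕ}
    (hT : ∀ b : A →* ℂˣ, stab (dualAct A) b ≠ ⊤ → (stab (dualAct A) b).index = m) {z : G}
    (hz : ∀ g, ⁅z, g⁆ ∈ Subgroup.centralizer (A : Set G)) {l : A →* ℂˣ}
    (hl : stab (dualAct A) l ≠ ⊤) (hzT : z ∈ stab (dualAct A) l) :
    z ∈ Subgroup.centralizer (A : Set G) := by
  have hker := dualAct_eq_one_iff A hab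
  have h1 : ∀ g, dualAct A g ^ A.index = 1 := fun g => by
    rw [← map_pow, hker]
    exact Subgroup.mem_centralizer_iff.2 fun b hb => hab b hb _ (A.pow_index_mem g)
  have h2 : ∀ g, dualAct A z * dualAct A g = dualAct A g * dualAct A z := fun g => by
    have := (hker _).2 (hz g)
    rw [map_commutatorElement] at this
    exact commutatorElement_eq_one_iff_mul_comm.1 this
  exact (hker z).1 (act_lemma (B := A →* ℂˣ) (dualAct A) hc.symm h1 (dual_pow_card A) hT h2 hl (mem_stab.1 hzT))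

/-- Two character degrees: abelian normal subgroup of index `m`, or nilpotent. -/
theorem two_degrees {m : ℕ} (hcd : ∀ χ, IsIrrCharacter G χ → charDegree χ = 1 ∨ charDegree χ = m)
    (hm : m ≠ 0) :
    (∃ A : Subgroup G, A.Normal ∧ (∀ a ∈ A, ∀ b ∈ A, a * b = b * a) ∧ A.index = m) ∨
      Group.IsNilpotent G := by
  classical
  obtain ⟨A, hA, hco, hnil, hidx⟩ := exists_compl (G := G) hm fun χ hχ h1 => by
    rw [(hcd χ hχ).resolve_left h1]
  have hc : (Nat.card A).Coprime A.index := Nat.coprime_of_dvd fun q hq h1 h2 =>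
    hq.one_lt.ne' (Nat.eq_one_of_dvd_coprimes hco h1 (hidx q hq h2))
  have hab' : ∀ a b : A, a * b = b * a := comm_of_deg fun θ hθ => by
    obtain ⟨χ, hχ, e, -, he⟩ := deg_res_dvd hθ
    have h1 : charDegree θ ∣ m := by
      rcases hcd χ hχ with h | h
      · rw [h] at he; rw [Nat.eq_one_of_mul_eq_one_left he.symm]; exact one_dvd _
      · rw [← h, he]; exact dvd_mul_left _ _
    exact Nat.eq_one_of_dvd_coprimes hco hθ.degree_dvd_card h1
  have hab : ∀ a ∈ A, ∀ b ∈ A, a * b = b * a := fun a ha b hb =>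
    congrArg Subtype.val (hab' ⟨a, ha⟩ ⟨b, hb⟩)
  set C := Subgroup.centralizer (A : Set G) with hC
  have hAC : A ≤ C := fun a ha => Subgroup.mem_centralizer_iff.2 fun b hb => hab b hb a ha
  by_cases hCt : C = ⊤
  · right
    refine Subgroup.isNilpotent_of_ker_le_center (QuotientGroup.mk' A) ?_
    rw [QuotientGroup.ker_mk']
    intro a ha
    exact Subgroup.mem_center_iff.2 fun g =>
      (Subgroup.mem_centralizer_iff.1 (hCt ▸ Subgroup.mem_top g : g ∈ C) a ha).symm
  left
  haveI hCn : C.Normal := inferInstance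
  have hker : ∀ g, dualAct A g = 1 ↔ g ∈ C := dualAct_eq_one_iff A hab
  obtain ⟨l, hl⟩ : ∃ l : A →* ℂˣ, stab (dualAct A) l ≠ ⊤ := by
    refine not_forall.1 fun h => ?_
    apply hCt
    rw [eq_top_iff]
    intro g _
    rw [← hker]
    ext1 l
    exact mem_stab.1 (h l ▸ Subgroup.mem_top g)
  obtain ⟨hT1, hT2⟩ := stab_facts hc hcd l hl
  set T := stab (dualAct A) l with hT
  have hCT : C ≤ T := fun g hg => mem_stab.2 (by rw [(hker g).2 hg]; rfl)
  have hK : ∀ z, (∀ g, ⁅z, g⁆ ∈ C) → z ∈ T → z ∈ C := by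
    intro z hz hzT
    exact dual_lemma hc hab (fun b hb => (stab_facts hc hcd b hb).1) hz hl hzT
  haveI : Group.IsNilpotent (G ⧸ C) := Group.nilpotent_of_surjective
    (QuotientGroup.map A C (MonoidHom.id G) (by simpa using hAC)) (fun q => by
      obtain ⟨g, rfl⟩ := QuotientGroup.mk_surjective q
      exact ⟨g, rfl⟩)
  haveI : Nontrivial (G ⧸ C) := QuotientGroup.nontrivial_iff.2 hCt
  have hcomm : ∀ a b : G, ((a : G ⧸ C) * b = b * a) ↔ ⁅a, b⁆ ∈ C := fun a b => by
    rw [← commutatorElement_eq_one_iff_mul_comm, ← QuotientGroup.eq_one_iff]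
    rfl
  have hTbar : ∀ a ∈ T.map (QuotientGroup.mk' C), ∀ b ∈ T.map (QuotientGroup.mk' C),
      a * b = b * a := by
    rintro _ ⟨x, hx, rfl⟩ _ ⟨y, hy, rfl⟩
    exact (hcomm x y).2 (hAC (hT2 x hx y hy))
  have hidxT : (T.map (QuotientGroup.mk' C)).index = m := by
    rw [Subgroup.index_map_eq _ (QuotientGroup.mk'_surjective C) (by simpa using hCT), hT1]
  have hQ : ∀ a b : G ⧸ C, a * b = b * a := by
    apply comm_of_deg
    intro χ hχ
    let U := T.map (QuotientGroup.mk' C) ⊔ Subgroup.center (G ⧸ C)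
    have hU : ∀ a ∈ U, ∀ b ∈ U, a * b = b * a := by
      intro a ha b hb
      obtain ⟨a1, ha1, a2, ha2, rfl⟩ := Subgroup.mem_sup_of_normal_right.1 ha
      obtain ⟨b1, hb1, b2, hb2, rfl⟩ := Subgroup.mem_sup_of_normal_right.1 hb
      have h1 := Subgroup.mem_center_iff.1 ha2
      have h2 := Subgroup.mem_center_iff.1 hb2
      have c1 : Commute a1 b1 := hTbar a1 ha1 b1 hb1
      have c2 : Commute a1 b2 := h2 a1
      have c3 : Commute a2 b1 := (h1 b1).symm
      have c4 : Commute a2 b2 := h2 a2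
      exact ((c1.mul_right c2).mul_left (c3.mul_right c4)).eq
    have hlt : T.map (QuotientGroup.mk' C) < U := by
      refine lt_of_le_of_ne le_sup_left fun h => ?_
      obtain ⟨⟨z, hz⟩, hz1⟩ := Subgroup.ne_bot_iff_exists_ne_one.1
        (Group.IsNilpotent.center_ne_bot (G ⧸ C))
      have hzU : z ∈ U := (le_sup_right : _ ≤ U) hz
      rw [← h] at hzU
      obtain ⟨x, hx, rfl⟩ := hzU
      apply hz1
      ext
      exact (QuotientGroup.eq_one_iff x).2 (hK x (fun g => (hcomm x g).1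
        (Subgroup.mem_center_iff.1 hz g).symm) hx)
    have h1 := deg_le_index hχ U hU
    have h2 := Subgroup.index_strictAnti hlt
    rw [hidxT] at h2
    rcases hcd _ hχ.inflate with h | h
    · exact h
    · have : charDegree χ = m := h
      omega
  have hTC : T = C := le_antisymm (fun z hz => hK z (fun g => (hcomm z g).1 (hQ _ _)) hz) hCT
  refine ⟨C, hCn, fun x hx y hy => ?_, by rw [← hTC, hT1]⟩
  have h1 : ⁅x, y⁆ ∈ A := hT2 x (hCT hx) y (hCT hy)
  have h2 := commutator_pow_left (x := x) (y := y) (Subgroup.mem_centralizer_iff.1 hx _ h1) A.index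
  rw [commutatorElement_eq_one_iff_mul_comm.2
    (Subgroup.mem_centralizer_iff.1 hy _ (A.pow_index_mem x))] at h2
  have h3 : ⁅x, y⁆ ^ Nat.card A = 1 :=
    orderOf_dvd_iff_pow_eq_one.1 (Subgroup.orderOf_dvd_natCard A h1)
  exact commutatorElement_eq_one_iff_mul_comm.1 ((pow_eq_one_iff_of_coprime hc).1 ⟨h3, h2.symm⟩)

theorem nilp_struct [Group.IsNilpotent G] {m : ℕ}
    (hcd : ∀ χ, IsIrrCharacter G χ → charDegree χ = 1 ∨ charDegree χ = m) {p : ℕ} (hp : p.Prime)
    (hpm : p ∣ m) : ∃ P A : Subgroup G, P.Normal ∧ A.Normal ∧ IsPGroup p P ∧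
      (∀ a ∈ A, ∀ b ∈ A, a * b = b * a) ∧ P ⊓ A = ⊥ ∧ P ⊔ A = ⊤ ∧ ∃ k, A.index = p ^ k := by
  haveI : Fact p.Prime := ⟨hp⟩
  obtain ⟨K, hK, hKc, k, hk⟩ := Cfsg.Agent.S4456.result (G := G) p hp fun χ h1 => by
    rw [(hcd χ χ.2).resolve_left h1]; exact hpm
  obtain ⟨P⟩ : Nonempty (Sylow p G) := inferInstance
  have hPn : (P : Subgroup G).Normal := inferInstance
  have hinf : (P : Subgroup G) ⊓ K = ⊥ := by
    apply Subgroup.inf_eq_bot_of_coprime
    rw [P.card_eq_multiplicity]
    exact hKc.symm.pow_left _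
  have hle : commutator G ≤ P := commutator_le_of_deg fun χ hχ hk => by
    refine (hcd χ hχ).resolve_right fun h => ?_
    exact P.not_dvd_index (hpm.trans (h ▸ deg_dvd_index_of_le_ker hχ hk))
  refine ⟨P, K, hPn, hK, P.isPGroup', fun a ha b hb => ?_, hinf, ?_, k, hk⟩
  · have h1 : ⁅a, b⁆ ∈ (P : Subgroup G) ⊓ K :=
      ⟨hle (Subgroup.commutator_mem_commutator trivial trivial),
        K.mul_mem (K.mul_mem (K.mul_mem ha hb) (K.inv_mem ha)) (K.inv_mem hb)⟩
    rw [hinf] at h1
    exact commutatorElement_eq_one_iff_mul_comm.1 h1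
  · rw [← Subgroup.index_eq_one]
    have h1 : ((P : Subgroup G) ⊔ K).index ∣ p ^ k := hk ▸ Subgroup.index_dvd_of_le le_sup_right
    have h2 : ((P : Subgroup G) ⊔ K).index ∣ (P : Subgroup G).index :=
      Subgroup.index_dvd_of_le le_sup_left
    exact Nat.eq_one_of_dvd_coprimes (((Nat.Prime.coprime_iff_not_dvd hp).2 P.not_dvd_index).pow_left k)
      h1 h2

/-- Taketa step: a normal subgroup in the kernel of all irreducible characters of degree smaller
than that of a monomial character `χ` has derived subgroup in the kernel of `χ`. -/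
theorem taketa_step [Fintype G] {N : Subgroup G} [N.Normal] {H : Subgroup G} (lam : H →* ℂˣ)
    (h : ∀ ξ, IsIrrCharacter G ξ → charDegree ξ < H.index → N ≤ charKer ξ) :
    ⁅N, N⁆ ≤ charKer (indFun H fun h => (lam h : ℂ)) := by
  classical
  have hπ : IsCharacter G (indFun H fun _ => (1 : ℂ)) := isCharacter_one.ind
  have hNH : N ≤ H := by
    refine le_trans ?_ (charKer_indFun_le (θ := fun _ => (1 : ℂ)) isCharacter_one one_ne_zero)
    intro x hx
    refine hπ.isClassFunction.mem_charKer_of_forall fun ξ hξ h0 => ?_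
    by_cases h1 : charDegree ξ < H.index
    · exact h ξ hξ h1 hx
    · have hd : charDegree (indFun H fun _ => (1 : ℂ)) = H.index :=
        charDegree_eq (by rw [indFun_one, mul_one])
      have h2 := hπ.degree_le_of_inner_ne_zero hξ h0
      have h3 := hπ.eq_of_inner_ne_zero_of_degree hξ h0 (by
        rw [← hπ.cast_charDegree, ← hξ.cast_charDegree]; congr 1; omega)
      have h4 : classInner ξ (fun _ => 1) ≠ 0 := by
        rw [← h3, classInner_indFun_left _ isIrrCharacter_one.isClassFunction]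
        rw [(isIrrCharacter_one (G := H)).inner_self]; exact one_ne_zero
      have h5 := hξ.eq_of_inner_ne_zero isIrrCharacter_one h4
      rw [h5]; exact fun y => rfl
  have hle : ⁅N, N⁆ ≤ H := (Subgroup.commutator_le_left N N).trans hNH
  rw [le_charKer_ind_iff hle (isCharacter_linear lam), charKer_linear]
  intro x hx
  have h1 : ⁅N, N⁆ ≤ (commutator H).map H.subtype := by
    rw [Subgroup.map_subtype_commutator]; exact Subgroup.commutator_mono hNH hNH
  obtain ⟨y, hy, hxy⟩ := h1 (Subgroup.mem_subgroupOf.1 hx)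
  have : y = x := Subtype.ext hxy
  subst this
  exact Abelianization.commutator_subset_ker lam hy

theorem eq_bot_of_le_charKer {N : Subgroup G} (h : ∀ χ, IsIrrCharacter G χ → N ≤ charKer χ) :
    N = ⊥ := by
  rw [eq_bot_iff]
  intro x hx
  exact eq_one_of_forall_irr fun χ hχ => apply_of_mem_charKer (h χ hχ hx)

theorem commutator_le_ker_of_deg {χ : G → ℂ} (hχ : IsIrrCharacter G χ) (h : charDegree χ = 1) :
    commutator G ≤ charKer χ := hχ.degree_eq_one_iff.1 ((deg_eq_one_iff hχ).1 h)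

/-- Two character degrees: the group is metabelian. -/
theorem metabelian_of_two {m : ℕ}
    (hcd : ∀ χ, IsIrrCharacter G χ → charDegree χ = 1 ∨ charDegree χ = m) :
    ⁅commutator G, commutator G⁆ = ⊥ := by
  classical
  haveI := Fintype.ofFinite G
  by_cases hm : m ≤ 1
  · apply eq_bot_of_le_charKer fun χ hχ => ?_
    refine (Subgroup.commutator_le_left _ _).trans (commutator_le_ker_of_deg hχ ?_)
    have := hχ.charDegree_pos
    rcases hcd χ hχ with h | h <;> omega
  rcases two_degrees hcd (by omega) with ⟨A, hA, hab, hidx⟩ | hnil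
  · have h1 : commutator G ≤ A := commutator_le_of_deg fun χ hχ hk => by
      refine (hcd χ hχ).resolve_right fun h => ?_
      have := hχ.degree_sq_le_index (hk.trans charKer_le_charCenter)
      rw [h, hidx] at this
      nlinarith
    rw [Subgroup.commutator_eq_bot_iff_le_centralizer]
    intro x hx
    exact Subgroup.mem_centralizer_iff.2 fun y hy => hab y (h1 hy) x (h1 hx)
  · apply eq_bot_of_le_charKer fun χ hχ => ?_
    obtain ⟨H, lam, rfl⟩ := hχ.exists_eq_ind_linear
    refine taketa_step lam fun ξ hξ hlt => commutator_le_ker_of_deg hξ ?_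
    have hd : charDegree (indFun H fun h => (lam h : ℂ)) = H.index :=
      charDegree_eq (by rw [indFun_one]; simp)
    have := hξ.charDegree_pos
    rcases hcd _ hχ with h | h <;> rcases hcd _ hξ with h' | h' <;> omega

end Cfsg.Agent.H7
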