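import Mathlib
import Cfsg.Agent.H7.CD1
import Cfsg.Agent.L.Fitting

/-! Groups with few character degrees, II. -/

namespace Cfsg.Agent.H7
open Cfsg H3
open scoped ComplexConjugate commutatorElement

universe u
variable {G : Type u} [Group G] [Finite G]

theorem mul_irr_of_sq {χ₀ χ : G → ℂ} (h₀ : IsIrrCharacter G χ₀) {Z : Subgroup G} [Z.Normal]
    (hZ : Z ≤ charCenter χ₀) (hsq : charDegree χ₀ ^ 2 = Z.index) (hχ : IsCharacter G χ)
    (hr : IsIrrCharacter Z (fun z : Z => χ z)) : IsIrrCharacter G (χ * χ₀) := by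
  classical
  haveI := Fintype.ofFinite G
  have hv := (h₀.degree_sq_eq_index_iff hZ).1 hsq
  obtain ⟨lam, hlam⟩ := exists_linear_of_le_charCenter h₀.apply_one_ne_zero hZ
  obtain ⟨r, -, h1, h2⟩ := exists_inner_res_self (N := Z) (χ * χ₀)
  have hr0 : r = 0 := h2.2 fun g hg => by simp [hv g hg]
  have e : (fun n : Z => (χ * χ₀) n) = (charDegree χ₀ : ℂ) • fun n : Z => χ n * lam n := by
    funext n
    have := hlam n 1
    rw [one_mul] at this
    simp only [Pi.mul_apply, this, Pi.smul_apply, smul_eq_mul, h₀.cast_charDegree]; ring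
  rw [e, classInner_smul_smul_self (hr.mul_linear lam), hr0, ← hsq] at h1
  refine (hχ.mul h₀.isCharacter).irr_of_inner_self ?_
  have h3 : ((charDegree χ₀ : ℂ)) ^ 2 ≠ 0 := pow_ne_zero _ (by exact_mod_cast h₀.charDegree_pos.ne')
  push_cast at h1
  rw [add_zero] at h1
  exact mul_left_cancel₀ h3 (h1.symm.trans (mul_one _).symm)

theorem exists_class_two (h : ¬ commutator G ≤ ⁅commutator G, ⊤⁆) :
    ∃ χ, IsIrrCharacter G χ ∧ charDegree χ ≠ 1 ∧ commutator G ≤ charCenter χ := by
  by_contra h1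
  apply h
  refine commutator_le_of_deg fun χ hχ hk => ?_
  by_contra h2
  refine h1 ⟨χ, hχ, h2, fun z hz => hχ.mem_charCenter_of_commutator fun g => hk ?_⟩
  rw [Subgroup.commutator_comm]
  exact Subgroup.commutator_mem_commutator (g₁ := g) (g₂ := z) trivial hz

theorem charDegree_mul {χ ψ : G → ℂ} (hχ : IsCharacter G χ) (hψ : IsCharacter G ψ) :
    charDegree (χ * ψ) = charDegree χ * charDegree ψ :=
  charDegree_eq (by rw [Pi.mul_apply, ← hχ.cast_charDegree, ← hψ.cast_charDegree]; push_cast; rfl)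

/-- If the degree of `χ` is that of a constituent of its restriction, the restriction is
irreducible. -/
theorem exists_over_res {N : Subgroup G} [N.Normal] {θ : N → ℂ} (hθ : IsIrrCharacter N θ) :
    ∃ χ, IsIrrCharacter G χ ∧ ∃ e, e ∣ N.index ∧ charDegree χ = e * charDegree θ ∧
      (e = 1 → (fun n : N => χ n) = θ) := by
  classical
  haveI := Fintype.ofFinite G
  obtain ⟨χ, hχ, hc⟩ := hθ.exists_over
  obtain ⟨e, h1, h2⟩ := hχ.exists_degree_eq hθ hc
  refine ⟨χ, hχ, e, h2, ?_, fun he => ?_⟩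
  · rw [← hχ.cast_charDegree, ← hθ.cast_charDegree] at h1
    exact_mod_cast h1
  · refine (hχ.isCharacter.res N).eq_of_inner_ne_zero_of_degree hθ hc ?_
    simpa [he] using h1

theorem res_irr_of_coprime {N : Subgroup G} [N.Normal] {χ : G → ℂ} (hχ : IsIrrCharacter G χ)
    (hc : (charDegree χ).Coprime N.index) : IsIrrCharacter N (fun n : N => χ n) := by
  classical
  haveI := Fintype.ofFinite G
  obtain ⟨θ, hθ, h⟩ := hχ.exists_under N
  obtain ⟨e, h1, h2⟩ := hχ.exists_degree_eq hθ h
  have h3 : charDegree χ = e * charDegree θ := by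
    rw [← hχ.cast_charDegree, ← hθ.cast_charDegree] at h1
    exact_mod_cast h1
  have he : e = 1 := Nat.eq_one_of_dvd_coprimes hc (h3 ▸ dvd_mul_right _ _) h2
  rw [(hχ.isCharacter.res N).eq_of_inner_ne_zero_of_degree hθ h (by simpa [he] using h1)]
  exact hθ

theorem cover_lemma {B : Type*} [Group B] [Finite B] {p : ℕ} (C : Subgroup B) (hC : C ≠ ⊤)
    (D : Fin p → Subgroup B) (hD : ∀ i, p ≤ (D i).index) (h : ∀ b, b ∉ C → ∃ i, b ∈ D i) (i : Fin p) :
    (D i).index = p := by
  classical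
  haveI := Fintype.ofFinite B
  by_contra hne
  have hlt : p < (D i).index := lt_of_le_of_ne (hD i) (Ne.symm hne)
  have hd : 1 < C.index := Subgroup.one_lt_index_of_ne_top hC
  have h1 : (Finset.univ.filter fun b => b ∉ C).card ≤
      ∑ j, (Finset.univ.filter fun b => b ∈ D j ∧ b ∉ C).card := by
    refine le_trans (Finset.card_le_card fun b hb => ?_) Finset.card_biUnion_le
    simp only [Finset.mem_filter, Finset.mem_univ, true_and, Finset.mem_biUnion] at hb ⊢
    obtain ⟨j, hj⟩ := h b hb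
    exact ⟨j, hj, hb⟩
  have hcard : ∀ X : Subgroup B, Nat.card X = (Finset.univ.filter fun b => b ∈ X).card := fun X => by
    rw [Nat.card_eq_fintype_card, Fintype.card_subtype]
  have h2 : (Finset.univ.filter fun b => b ∉ C).card + Nat.card C = Nat.card B := by
    rw [hcard, add_comm, Finset.card_filter_add_card_filter_not, Nat.card_eq_fintype_card]; rfl
  have h3 : ∀ j, (Finset.univ.filter fun b => b ∈ D j ∧ b ∉ C).card + Nat.card ↥(C ⊓ D j) =
      Nat.card (D j) := fun j => by
    rw [hcard, hcard, ← Finset.card_filter_add_card_filter_not (s := Finset.univ.filter fun b => b ∈ D j)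
      (fun b => b ∈ C), add_comm]
    simp only [Finset.filter_filter, Subgroup.mem_inf, and_comm]
  have h4 : ∀ j, Nat.card (D j) ≤ Nat.card ↥(C ⊓ D j) * C.index := fun j => by
    have e1 := Subgroup.card_mul_index (C.subgroupOf (D j))
    have e2 : Nat.card (C.subgroupOf (D j)) = Nat.card ↥(C ⊓ D j) := by
      rw [← Subgroup.inf_subgroupOf_right]
      exact Nat.card_congr (Subgroup.subgroupOfEquivOfLe inf_le_right).toEquiv
    have e3 : (C.subgroupOf (D j)).index ≤ C.index := by
      have := Subgroup.relIndex_le_of_le_right (H := C) (K := D j) (L := ⊤) le_top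
        (by rw [Subgroup.relIndex_top_right]; omega)
      rwa [Subgroup.relIndex_top_right] at this
    rw [← e1, e2]; exact Nat.mul_le_mul_left _ e3
  have h5 := Subgroup.card_mul_index C
  have h6 : ∀ j, Nat.card (D j) * p ≤ Nat.card B := fun j => by
    rw [← Subgroup.card_mul_index (D j)]; exact Nat.mul_le_mul_left _ (hD j)
  have h7 : Nat.card (D i) * p < Nat.card B := by
    rw [← Subgroup.card_mul_index (D i)]; exact Nat.mul_lt_mul_of_pos_left hlt Nat.card_pos
  have h8 : ∑ j, Nat.card (D j) * p < ∑ _j : Fin p, Nat.card B :=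
    Finset.sum_lt_sum (fun j _ => h6 j) ⟨i, Finset.mem_univ _, h7⟩
  rw [← Finset.sum_mul, Finset.sum_const, Finset.card_univ, Fintype.card_fin, smul_eq_mul,
    mul_comm p] at h8
  have h9 : ∑ j, Nat.card (D j) < Nat.card B := lt_of_mul_lt_mul_right h8 (Nat.zero_le _)
  obtain ⟨d, hd'⟩ : ∃ d, C.index = d + 1 := ⟨C.index - 1, by omega⟩
  have h10 : ∑ j, (Finset.univ.filter fun b => b ∈ D j ∧ b ∉ C).card * (d + 1) ≤
      ∑ j, Nat.card (D j) * d := Finset.sum_le_sum fun j _ => by
    have a := h3 j; have b := h4 j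
    rw [hd'] at b
    nlinarith
  rw [← Finset.sum_mul, ← Finset.sum_mul] at h10
  rw [hd'] at h5 hd
  have h11 := Nat.mul_le_mul_right (d + 1) h1
  have h12 := Nat.mul_lt_mul_of_pos_right h9 (show 0 < d by omega)
  nlinarith

/-- the commutator map on an abelian normal subgroup -/
def cmap (A : Subgroup G) [hA : A.Normal] (hab : ∀ a ∈ A, ∀ b ∈ A, a * b = b * a) (g : G) :
    A →* A := MonoidHom.mk' (fun a => ⟨g⁻¹ * a * g * (a : G)⁻¹,
      A.mul_mem (hA.conj_mem' a a.2 g) (A.inv_mem a.2)⟩) (fun a b => by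
    ext
    have h1 := hab _ (A.inv_mem a.2) _ (A.mul_mem (hA.conj_mem' b b.2 g) (A.inv_mem b.2))
    simp only [Subgroup.coe_mul, mul_inv_rev]
    calc g⁻¹ * (a * b) * g * ((b : G)⁻¹ * (a : G)⁻¹)
        = g⁻¹ * a * g * ((g⁻¹ * b * g * (b : G)⁻¹) * (a : G)⁻¹) := by group
      _ = g⁻¹ * a * g * ((a : G)⁻¹ * (g⁻¹ * b * g * (b : G)⁻¹)) := by rw [h1]
      _ = _ := by group)

omit [Finite G] in
theorem coe_cmap (A : Subgroup G) [hA : A.Normal] (hab : ∀ a ∈ A, ∀ b ∈ A, a * b = b * a) (g : G)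
    (a : A) : (cmap A hab g a : G) = g⁻¹ * a * g * (a : G)⁻¹ := rfl

omit [Finite G] in
theorem cmap_eq_one_iff (A : Subgroup G) [hA : A.Normal] (hab : ∀ a ∈ A, ∀ b ∈ A, a * b = b * a)
    (g : G) (a : A) : cmap A hab g a = 1 ↔ a * g = g * a := by
  rw [Subtype.ext_iff, coe_cmap, OneMemClass.coe_one, mul_inv_eq_one, mul_assoc,
    inv_mul_eq_iff_eq_mul]

omit [Finite G] in
theorem mem_stab_iff_cmap (A : Subgroup G) [hA : A.Normal] (hab : ∀ a ∈ A, ∀ b ∈ A, a * b = b * a)
    (g : G) (l : A →* ℂˣ) : g ∈ stab (dualAct A) l ↔ (cmap A hab g).range ≤ l.ker := by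
  rw [mem_stab, MonoidHom.ext_iff]
  have : ∀ a : A, l (cmap A hab g a) = dualAct A g l a * (l a)⁻¹ := fun a => by
    rw [dualAct_apply, ← map_inv, ← map_mul]; rfl
  constructor
  · rintro h _ ⟨a, rfl⟩
    rw [MonoidHom.mem_ker, this, h, mul_inv_cancel]
  · intro h a
    have h1 := h ⟨a, rfl⟩
    rw [MonoidHom.mem_ker, this] at h1
    exact mul_inv_eq_one.1 h1

/-- annihilator of a subgroup in the dual group -/
def annS {A : Type*} [Group A] (W : Subgroup A) : Subgroup (A →* ℂˣ) where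
  carrier := {l | W ≤ l.ker}
  mul_mem' {x y} hx hy a ha := by
    have h1 : x a = 1 := hx ha
    have h2 : y a = 1 := hy ha
    simp [MonoidHom.mem_ker, h1, h2]
  one_mem' a _ := rfl
  inv_mem' {x} hx a ha := by
    have h1 : x a = 1 := hx ha
    simp [MonoidHom.mem_ker, h1]

theorem index_annS {A : Type*} [Group A] [Finite A] (hA : ∀ a b : A, a * b = b * a)
    (W : Subgroup A) : (annS W).index = Nat.card W := by
  have hc : commutator A ≤ ⊥ := Subgroup.commutator_le.2 fun a _ b _ =>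
    commutatorElement_eq_one_iff_mul_comm.2 (hA a b)
  haveI : W.Normal := ⟨fun n hn g => by rw [hA g n, mul_inv_cancel_right]; exact hn⟩
  have h1 : Nat.card (annS W) = W.index := card_linear_le_ker (hc.trans bot_le)
  have h2 : Nat.card (A →* ℂˣ) = Nat.card A := by
    rw [← Subgroup.index_bot (G := A), ← card_linear_le_ker hc]
    exact Nat.card_congr (Equiv.subtypeUnivEquiv fun _ => bot_le).symm
  have h3 := Subgroup.card_mul_index (annS W)
  have h4 := Subgroup.card_mul_index W
  rw [h1, h2, ← h4, mul_comm (Nat.card W)] at h3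
  exact Nat.eq_of_mul_eq_mul_left (Nat.pos_of_ne_zero Subgroup.index_ne_zero_of_finite) h3

theorem finite_dual (A : Type*) [Group A] [Finite A] : Finite (A →* ℂˣ) :=
  Finite.of_injective (fun l => (⟨_, isIrrCharacter_linear l⟩ : IrrCharacter A))
    fun _ _ h => linear_injective (congrArg Subtype.val h)

end Cfsg.Agent.H7
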