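import Mathlib
import Cfsg.Agent.H7.CD2
import Cfsg.Agent.S0168

/-! Groups with few character degrees, III. -/

namespace Cfsg.Agent.H7
open Cfsg H3
open scoped ComplexConjugate commutatorElement

universe u
variable {G : Type u} [Group G] [Finite G]

theorem second_le {N : Subgroup G} [N.Normal] {m : ℕ}
    (h : ∀ χ, IsIrrCharacter G χ → N ≤ charKer χ → charDegree χ = 1 ∨ charDegree χ = m) :
    ⁅commutator G, commutator G⁆ ≤ N := by
  have h1 := metabelian_of_two (G := G ⧸ N) (m := m) fun χ hχ =>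
    h _ hχ.inflate (le_charKer_inflate χ)
  have h2 : (commutator G).map (QuotientGroup.mk' N) = commutator (G ⧸ N) :=
    map_derivedSeries_eq (QuotientGroup.mk'_surjective N) 1
  rw [← h2, ← Subgroup.map_commutator, Subgroup.map_eq_bot_iff, QuotientGroup.ker_mk'] at h1
  exact h1

theorem sub_second {N : Subgroup G} {m : ℕ}
    (h : ∀ χ, IsIrrCharacter N χ → charDegree χ = 1 ∨ charDegree χ = m) :
    ⁅⁅N, N⁆, ⁅N, N⁆⁆ = ⊥ := by
  have h1 := metabelian_of_two h
  rw [← Subgroup.map_subtype_commutator N, ← Subgroup.map_commutator, h1, Subgroup.map_bot]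

omit [Finite G] in
theorem derived_three : derivedSeries G 3 =
    ⁅⁅commutator G, commutator G⁆, ⁅commutator G, commutator G⁆⁆ := rfl

theorem homog_of_comp {Γ : Type u} [Group Γ] [Finite Γ] {π : Γ →* G} (hπ : Function.Surjective π)
    {M : Subgroup G} {χ : G → ℂ} (h1 : χ 1 ≠ 0) (h : Homog (M.comap π) (fun x => χ (π x))) :
    Homog M χ := by
  obtain ⟨θ, e, hθ, he⟩ := h
  have he' : ∀ x : M.comap π, χ (π x) = e * θ x := fun x => congrFun he x
  have e0 : (e : ℂ) ≠ 0 := fun h => h1 (by simpa [h] using he' 1)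
  obtain ⟨θ', h2, h3⟩ := hθ.exists_of_surjective (π.subgroupComap M)
    (π.subgroupComap_surjective_of_surjective M hπ) (fun z hz x => by
      have hz' : π z = 1 := congrArg Subtype.val (MonoidHom.mem_ker.1 hz)
      apply mul_left_cancel₀ e0
      rw [← he', ← he']
      simp [hz'])
  refine ⟨θ', e, h2, funext fun m => ?_⟩
  obtain ⟨x, rfl⟩ := π.subgroupComap_surjective_of_surjective M hπ m
  rw [Pi.smul_apply, h3, smul_eq_mul, ← he']; rfl

theorem monomial_of_hall [Fintype G] {L : Subgroup G} [L.Normal] (hc : (Nat.card L).Coprime L.index)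
    (hab : ∀ a ∈ L, ∀ b ∈ L, a * b = b * a) [Group.IsNilpotent (G ⧸ L)] {χ : G → ℂ}
    (hχ : IsIrrCharacter G χ) :
    ∃ (H : Subgroup G) (lam : H →* ℂˣ), χ = indFun H (fun h => (lam h : ℂ)) := by
  classical
  obtain ⟨H, ψ, hLH, hψ, rfl, hh⟩ := exists_rel_primitive hχ L
  obtain ⟨θ, e, hθ, he⟩ := hh _ inferInstance le_rfl
  have e0 : (e : ℂ) ≠ 0 := fun h => hψ.apply_one_ne_zero (by simpa [h] using congrFun he 1)
  obtain ⟨η, hη, hηθ⟩ := exists_ext_of_coprime hθ
    (invariant_of_res_eq_smul hψ.isClassFunction e0 he) (by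
    rw [Nat.card_congr (Subgroup.subgroupOfEquivOfLe hLH).toEquiv]
    exact hc.coprime_dvd_right (Subgroup.relIndex_dvd_index_of_le hLH))
  have hr : (fun n : L.subgroupOf H => η n) = θ := funext hηθ
  obtain ⟨β, hβ, hk, rfl⟩ := hψ.exists_gallagher (N := L.subgroupOf H) hη.isCharacter
    (by rw [hr]; exact hθ) (by
      rw [hr, he, classInner_smul_left, hθ.inner_self, mul_one]; exact e0)
  obtain ⟨β', hβ', hb⟩ := hβ.exists_quotient _ hk
  haveI : Group.IsNilpotent (H ⧸ L.subgroupOf H) := by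
    have e1 : L.subgroupOf H = ((QuotientGroup.mk' L).comp H.subtype).ker := by
      ext x; simp [Subgroup.mem_subgroupOf]
    exact Group.nilpotent_of_mulEquiv ((QuotientGroup.quotientMulEquivOfEq e1).trans
      (QuotientGroup.quotientKerEquivRange _)).symm
  have h1 : β' 1 = 1 := degree_eq_one_of_nilpotent hβ' fun M hM => by
    refine homog_of_comp (QuotientGroup.mk'_surjective _) hβ'.apply_one_ne_zero ?_
    have hle : L.subgroupOf H ≤ M.comap (QuotientGroup.mk' _) := QuotientGroup.le_comap_mk' _ _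
    have := Homog.of_mul hle hβ hk hη.isCharacter (by rw [hr]; exact hθ) (hh _ inferInstance hle)
    have e2 : (fun x => β' (QuotientGroup.mk' (L.subgroupOf H) x)) = β := funext hb
    rw [e2]; exact this
  haveI : IsMulCommutative (L.subgroupOf H) :=
    ⟨⟨fun a b => Subtype.ext (Subtype.ext (hab _ a.2 _ b.2))⟩⟩
  have h2 : (β * η) 1 = 1 := by
    have h3 : η 1 = θ 1 := hηθ 1
    rw [Pi.mul_apply, ← hb, h3, hθ.degree_eq_one_of_comm]; simpa using h1
  obtain ⟨lam, hl⟩ := hψ.isCharacter.exists_linear h2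
  exact ⟨H, lam, by rw [hl]⟩

theorem taketa_three [Fintype G] {a b : ℕ} (hab : a < b)
    (hcd : ∀ χ, IsIrrCharacter G χ → charDegree χ = 1 ∨ charDegree χ = a ∨ charDegree χ = b)
    (hm : ∀ χ, IsIrrCharacter G χ →
      ∃ (H : Subgroup G) (lam : H →* ℂˣ), χ = indFun H (fun h => (lam h : ℂ))) :
    derivedSeries G 3 = ⊥ := by
  have hd : ∀ (H : Subgroup G) (lam : H →* ℂˣ),
      charDegree (indFun H fun h => (lam h : ℂ)) = H.index := fun H lam =>
    charDegree_eq (by rw [indFun_one]; simp)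
  have h1 : ∀ χ, IsIrrCharacter G χ → charDegree χ < b →
      ⁅commutator G, commutator G⁆ ≤ charKer χ := by
    intro χ hχ hlt
    obtain ⟨H, lam, rfl⟩ := hm χ hχ
    refine taketa_step lam fun ξ hξ h => commutator_le_ker_of_deg hξ ?_
    have := hξ.charDegree_pos
    have := hd H lam
    rcases hcd _ hχ with h | h | h <;> rcases hcd _ hξ with h' | h' | h' <;> omega
  rw [derived_three]
  refine eq_bot_of_le_charKer fun χ hχ => ?_
  by_cases h0 : charDegree χ < b
  · exact (Subgroup.commutator_le_left _ _).trans (h1 χ hχ h0)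
  obtain ⟨H, lam, rfl⟩ := hm χ hχ
  refine taketa_step lam fun ξ hξ h => h1 ξ hξ ?_
  have := hξ.charDegree_pos
  have := hd H lam
  rcases hcd _ hχ with h | h | h <;> omega

theorem dvd_deg_of_forall [Fintype G] {φ : G → ℂ} (hφ : IsCharacter G φ) {p : ℕ}
    (h : ∀ ξ, IsIrrCharacter G ξ → classInner φ ξ ≠ 0 → p ∣ charDegree ξ) : p ∣ charDegree φ := by
  obtain ⟨c, h1, h2⟩ := hφ.exists_nat_coeffs
  have h3 : charDegree φ = ∑ ξ : IrrCharacter G, c ξ * charDegree (ξ : G → ℂ) := by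
    apply charDegree_eq
    rw [h2, Finset.sum_apply]; push_cast
    exact Finset.sum_congr rfl fun ξ _ => by rw [ξ.2.cast_charDegree]; rfl
  rw [h3]
  refine Finset.dvd_sum fun ξ _ => ?_
  by_cases h0 : c ξ = 0
  · simp [h0]
  · exact (h ξ ξ.2 (by rw [h1]; exact_mod_cast h0)).mul_left _

theorem not_dvd_of_perfect {M : Subgroup G} [M.Normal] (hM : M ≤ ⁅M, M⁆) {p : ℕ} (hp : p.Prime)
    (h : ∀ χ, IsIrrCharacter G χ → ¬ M ≤ charKer χ → p ∣ charDegree χ) : ¬ p ∣ Nat.card M := by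
  classical
  haveI := Fintype.ofFinite G
  haveI : Fact p.Prime := ⟨hp⟩
  obtain ⟨P⟩ : Nonempty (Sylow p G) := inferInstance
  set H := M ⊔ (P : Subgroup G) with hH
  have hMH : M ≤ H := le_sup_left
  obtain ⟨K, hK, hKc, k, hk⟩ := Cfsg.Agent.S4456.result (G := H) p hp fun η h1 => by
    by_cases hk : M.subgroupOf H ≤ charKer (η : H → ℂ)
    · have h2 : charDegree (η : H → ℂ) ∣ M.relIndex H := deg_dvd_index_of_le_ker η.2 hk
      have h2' : M.relIndex H = M.relIndex P := Subgroup.relIndex_sup_left _ _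
      rw [h2'] at h2
      have h3 := h2.trans (Subgroup.relIndex_dvd_card M P)
      rw [P.card_eq_multiplicity] at h3
      obtain ⟨i, -, hi⟩ := (Nat.dvd_prime_pow hp).1 h3
      rcases i with _ | i
      · exact absurd (by simpa using hi) h1
      · rw [hi]; exact dvd_pow_self p (by omega)
    · have h2 := dvd_deg_of_forall (p := p) η.2.isCharacter.ind fun ξ hξ h0 => h ξ hξ fun hk' => hk (by
        rw [classInner_indFun_left _ hξ.isClassFunction, classInner_eq_zero_comm.ne] at h0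
        refine le_trans (fun x hx => ?_) ((hξ.isCharacter.res H).charKer_le_of_inner η.2 h0)
        exact fun y => hk' (Subgroup.mem_subgroupOf.1 hx) y)
      rw [charDegree_eq (n := H.index * charDegree (η : H → ℂ))
        (by rw [indFun_one, ← η.2.cast_charDegree]; push_cast; rfl)] at h2
      exact ((Nat.Prime.dvd_mul hp).1 h2).resolve_left fun h3 =>
        P.not_dvd_index (h3.trans (Subgroup.index_dvd_of_le le_sup_right))
  haveI : Group.IsNilpotent (H ⧸ K) := (IsPGroup.of_card (p := p) (n := k) hk).isNilpotent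
  have h1 : M.subgroupOf H ≤ ⁅M.subgroupOf H, M.subgroupOf H⁆ := by
    rw [← Subgroup.map_le_map_iff_of_injective H.subtype_injective, Subgroup.map_commutator,
      Subgroup.map_subgroupOf_eq_of_le hMH]
    exact hM
  have h2 : (M.subgroupOf H).map (QuotientGroup.mk' K) = ⊥ := by
    by_contra h0
    have := L.commutator_lt_of_isSolvable h0
    rw [← Subgroup.map_commutator] at this
    exact this.not_ge (Subgroup.map_mono h1)
  rw [Subgroup.map_eq_bot_iff, QuotientGroup.ker_mk'] at h2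
  intro h3
  have h4 := Subgroup.card_dvd_of_le h2
  rw [Nat.card_congr (Subgroup.subgroupOfEquivOfLe hMH).toEquiv] at h4
  exact hp.one_lt.ne' (Nat.eq_one_of_dvd_coprimes hKc (h3.trans h4) dvd_rfl)

section
variable [Fintype G] {a b : ℕ}

theorem charDegree_conj {ψ : G → ℂ} (hψ : IsCharacter G ψ) :
    charDegree (fun g => conj (ψ g)) = charDegree ψ :=
  charDegree_eq (by rw [hψ.conj_apply_one, hψ.cast_charDegree])

theorem no_lin {χ ψ ξ : G → ℂ} (hχ : IsIrrCharacter G χ) (hψ : IsIrrCharacter G ψ)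
    (hξ : IsIrrCharacter G ξ) (h : classInner (χ * ψ) ξ ≠ 0) (h1 : charDegree ξ = 1) :
    charDegree χ = charDegree ψ := by
  obtain ⟨lam, rfl⟩ := hξ.isCharacter.exists_linear ((deg_eq_one_iff hξ).1 h1)
  rw [classInner_mul_left] at h
  have h2 := hψ.conj.mul_linear lam
  have h3 := hχ.eq_of_inner_ne_zero h2 (by simpa only [mul_comm] using h)
  rw [h3]
  exact charDegree_eq (by simp [hψ.isCharacter.conj_apply_one, hψ.cast_charDegree])

theorem not_both (hab : a.Coprime b) (hne : a ≠ b)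
    (hcd : ∀ χ, IsIrrCharacter G χ → charDegree χ = 1 ∨ charDegree χ = a ∨ charDegree χ = b)
    {χ ψ ξ ζ : G → ℂ} (hχ : IsIrrCharacter G χ) (hψ : IsIrrCharacter G ψ)
    (ha : charDegree χ = a) (hb : charDegree ψ = b)
    (hξ : IsIrrCharacter G ξ) (h : classInner (χ * ψ) ξ ≠ 0) (h1 : charDegree ξ = a)
    (hζ : IsIrrCharacter G ζ) (h' : classInner (χ * ψ) ζ ≠ 0) (h2 : charDegree ζ = b) : False := by
  classical
  have hφ := hχ.isCharacter.mul hψ.isCharacter
  obtain ⟨c, c1, c2⟩ := hφ.exists_nat_coeffs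
  have h3 : a * b = ∑ ξ : IrrCharacter G, c ξ * charDegree (ξ : G → ℂ) := by
    rw [← ha, ← hb, ← charDegree_mul hχ.isCharacter hψ.isCharacter]
    apply charDegree_eq
    rw [c2, Finset.sum_apply]; push_cast
    exact Finset.sum_congr rfl fun ξ _ => by rw [ξ.2.cast_charDegree]; rfl
  let x := ∑ ξ : IrrCharacter G, if charDegree (ξ : G → ℂ) = a then c ξ else 0
  let y := ∑ ξ : IrrCharacter G, if charDegree (ξ : G → ℂ) = b then c ξ else 0
  have h4 : a * b = x * a + y * b := by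
    rw [h3, Finset.sum_mul, Finset.sum_mul, ← Finset.sum_add_distrib]
    refine Finset.sum_congr rfl fun ξ _ => ?_
    by_cases h0 : c ξ = 0
    · simp [h0]
    rcases hcd ξ ξ.2 with h | h | h
    · exact absurd (ha.symm.trans ((no_lin hχ hψ ξ.2 (by rw [c1]; exact_mod_cast h0) h).trans hb)) hne
    · simp [h, hne]
    · simp [h, hne.symm]
  have hx : 0 < x := by
    refine lt_of_lt_of_le ?_ (Finset.single_le_sum (f := fun ξ : IrrCharacter G =>
      if charDegree (ξ : G → ℂ) = a then c ξ else 0) (fun _ _ => Nat.zero_le _)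
      (Finset.mem_univ ⟨ξ, hξ⟩))
    simp only [h1, if_true]
    exact Nat.pos_of_ne_zero fun h0 => h (by rw [c1 ⟨ξ, hξ⟩, h0]; simp)
  have hy : 0 < y := by
    refine lt_of_lt_of_le ?_ (Finset.single_le_sum (f := fun ξ : IrrCharacter G =>
      if charDegree (ξ : G → ℂ) = b then c ξ else 0) (fun _ _ => Nat.zero_le _)
      (Finset.mem_univ ⟨ζ, hζ⟩))
    simp only [h2, if_true]
    exact Nat.pos_of_ne_zero fun h0 => h' (by rw [c1 ⟨ζ, hζ⟩, h0]; simp)
  have h5 : b ∣ x := hab.symm.dvd_of_dvd_mul_right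
    ((Nat.dvd_add_left (dvd_mul_left b y)).1 (h4 ▸ dvd_mul_left b a))
  have h6 := Nat.le_of_dvd hx h5
  have hb0 : 0 < b := hb ▸ hψ.charDegree_pos
  nlinarith

theorem exists_const_mul {φ ψ ζ : G → ℂ} (hφ : IsClassFunction G φ)
    (h : classInner (φ * ψ) ζ ≠ 0) :
    ∃ ξ, IsIrrCharacter G ξ ∧ classInner φ ξ ≠ 0 ∧ classInner (ξ * ψ) ζ ≠ 0 := by
  rw [classInner_mul_left] at h
  obtain ⟨ξ, h1, h2, h3⟩ := hφ.exists_irr_of_inner_ne_zero h
  exact ⟨ξ, h1, h2, by rwa [classInner_mul_left]⟩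

theorem inner_mul_swap {ξ ψ ζ : G → ℂ} (h : classInner (ξ * ψ) ζ ≠ 0) :
    classInner (ζ * fun g => conj (ψ g)) ξ ≠ 0 := by
  rw [classInner_mul_left] at h
  exact classInner_eq_zero_comm.ne.1 h

theorem closure_lemma (hab : a.Coprime b) (hne : a ≠ b) (ha1 : a ≠ 1)
    (hcd : ∀ χ, IsIrrCharacter G χ → charDegree χ = 1 ∨ charDegree χ = a ∨ charDegree χ = b)
    {χ ψ ξ : G → ℂ} (hχ : IsIrrCharacter G χ) (hψ : IsIrrCharacter G ψ)
    (ha : charDegree χ = a) (hb : charDegree ψ = b) (hZ : charCenter ψ = ⊥)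
    (hξ : IsIrrCharacter G ξ) (h : classInner (χ * ψ) ξ ≠ 0) (h1 : charDegree ξ = a) : False := by
  have step : ∀ ψ, IsIrrCharacter G ψ → charDegree ψ = b → ∀ α, IsIrrCharacter G α →
      charDegree α = a → (∃ ξ, IsIrrCharacter G ξ ∧ classInner (α * ψ) ξ ≠ 0 ∧ charDegree ξ = a) →
      ∀ ζ, IsIrrCharacter G ζ → classInner (α * ψ) ζ ≠ 0 → charDegree ζ = a ∧
        ∃ ξ, IsIrrCharacter G ξ ∧ classInner (ζ * fun g => conj (ψ g)) ξ ≠ 0 ∧ charDegree ξ = a := by
    rintro ψ hψ hb α hα ha ⟨ξ, hξ, h, h1⟩ ζ hζ h'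
    refine ⟨?_, α, hα, inner_mul_swap h', ha⟩
    rcases hcd ζ hζ with h2 | h2 | h2
    · exact absurd (ha.symm.trans ((no_lin hα hψ hζ h' h2).trans hb)) hne
    · exact h2
    · exact (not_both hab hne hcd hα hψ ha hb hξ h h1 hζ h' h2).elim
  have hρ : IsCharacter G (ψ * fun g => conj (ψ g)) := hψ.isCharacter.mul hψ.isCharacter.conj
  have key : ∀ k : ℕ, ∀ ζ, IsIrrCharacter G ζ →
      classInner (χ * (ψ * fun g => conj (ψ g)) ^ k) ζ ≠ 0 → charDegree ζ = a ∧
        ∃ ξ, IsIrrCharacter G ξ ∧ classInner (ζ * ψ) ξ ≠ 0 ∧ charDegree ξ = a := by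
    intro k
    induction k with
    | zero =>
      intro ζ hζ h0
      rw [pow_zero, mul_one] at h0
      obtain rfl := hχ.eq_of_inner_ne_zero hζ h0
      exact ⟨ha, ξ, hξ, h, h1⟩
    | succ k ih =>
      intro ζ hζ h0
      rw [pow_succ, ← mul_assoc, ← mul_assoc] at h0
      have c1 := hχ.isCharacter.mul (hρ.pow k)
      obtain ⟨α, hα, h2, h3⟩ := exists_const_mul (c1.mul hψ.isCharacter).isClassFunction h0
      obtain ⟨β, hβ, h4, h5⟩ := exists_const_mul c1.isClassFunction h2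
      obtain ⟨i1, i2⟩ := ih β hβ h4
      obtain ⟨j1, j2⟩ := step ψ hψ hb β hβ i1 i2 α hα h5
      have := step _ hψ.conj ((charDegree_conj hψ.isCharacter).trans hb) α hα j1 j2 ζ hζ h3
      simpa using this
  have hker : charKer (ψ * fun g => conj (ψ g)) = ⊥ := by
    rw [eq_bot_iff, ← hZ]
    intro g hg
    have h2 := apply_of_mem_charKer hg
    simp only [Pi.mul_apply, Complex.mul_conj, ← hψ.cast_charDegree, Complex.normSq_natCast] at h2
    rw [hψ.isCharacter.mem_charCenter_iff]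
    have h3 : Complex.normSq (ψ g) = (charDegree ψ : ℝ) * charDegree ψ := by exact_mod_cast h2
    rw [Complex.normSq_eq_norm_sq, ← sq] at h3
    exact (pow_left_inj₀ (norm_nonneg _) (Nat.cast_nonneg _) two_ne_zero).1 h3
  obtain ⟨n, ρ, hρ'⟩ := hρ
  rw [← hρ', charKer_character] at hker
  obtain ⟨i, -, hi⟩ := Cfsg.Agent.S0168.result ρ ((MonoidHom.ker_eq_bot_iff _).1 hker) _ hχ.conj
  have h2 := (key i _ isIrrCharacter_one (by
    rw [mul_comm, classInner_mul_left, ← hρ']
    simp only [one_mul]; exact hi)).1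
  rw [charDegree_eq (n := 1) (by simp)] at h2
  exact ha1 h2.symm

end

/-- Isaacs 12.3, Frobenius case. -/
theorem frob_struct [Group.IsSolvable G] (h0 : commutator G ≠ ⊥)
    (hmin : ∀ R : Subgroup G, R.Normal → R ≠ ⊥ → commutator G ≤ R)
    (hnc : commutator G ≤ ⁅commutator G, ⊤⁆) :
    (∀ a ∈ commutator G, ∀ b ∈ commutator G, a * b = b * a) ∧
      ∀ n ∈ commutator G, n ≠ 1 → Subgroup.centralizer ({n} : Set G) ≤ commutator G := by
  have hmem : ∀ a b : G, ⁅a, b⁆ ∈ commutator G := fun a b =>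
    Subgroup.commutator_mem_commutator trivial trivial
  generalize hE : commutator G = E at *
  haveI : E.Normal := hE ▸ inferInstance
  have hab : ∀ a ∈ E, ∀ b ∈ E, a * b = b * a := by
    have h1 : ⁅E, E⁆ = ⊥ := by
      by_contra h
      exact (L.commutator_lt_of_isSolvable h0).not_ge (hmin _ inferInstance h)
    rw [Subgroup.commutator_eq_bot_iff_le_centralizer] at h1
    exact fun a ha b hb => Subgroup.mem_centralizer_iff.1 (h1 hb) a ha
  refine ⟨hab, ?_⟩
  have hall : ∀ g : G, (∀ n ∈ E, n * g = g * n → n = 1) ∨ ∀ n ∈ E, n * g = g * n := by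
    intro g
    have hn : (E ⊓ Subgroup.centralizer ({g} : Set G)).Normal := ⟨fun n hn x => by
      refine ⟨Subgroup.Normal.conj_mem inferInstance _ hn.1 x, ?_⟩
      have h1 : g * n = n * g := Subgroup.mem_centralizer_iff.1 hn.2 g rfl
      have h2 := hab _ (hmem g⁻¹ x⁻¹) n hn.1
      refine Subgroup.mem_centralizer_iff.2 fun y hy => ?_
      rw [Set.mem_singleton_iff.1 hy]
      calc g * (x * n * x⁻¹) = x * g * (⁅g⁻¹, x⁻¹⁆ * n) * x⁻¹ := by
            simp only [commutatorElement_def]; group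
        _ = x * (g * n) * ⁅g⁻¹, x⁻¹⁆ * x⁻¹ := by rw [h2]; group
        _ = x * (n * g) * ⁅g⁻¹, x⁻¹⁆ * x⁻¹ := by rw [h1]
        _ = _ := by simp only [commutatorElement_def]; group⟩
    by_cases hb : E ⊓ Subgroup.centralizer ({g} : Set G) = ⊥
    · left
      intro n hn h
      have : n ∈ E ⊓ Subgroup.centralizer ({g} : Set G) :=
        ⟨hn, Subgroup.mem_centralizer_iff.2 fun y hy => by rw [Set.mem_singleton_iff.1 hy, h]⟩
      rw [hb] at this; exact this
    · right
      exact fun n hn' => (Subgroup.mem_centralizer_iff.1 (hmin _ hn hb hn').2 g rfl).symm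
  have hZ' : ¬ E ≤ Subgroup.center G := fun h => h0 (le_bot_iff.1 (hnc.trans (by
    rw [le_bot_iff, Subgroup.commutator_eq_bot_iff_le_centralizer, Subgroup.coe_top,
      Subgroup.centralizer_univ]; exact h)))
  have hZ : Subgroup.center G = ⊥ := by
    by_contra h; exact hZ' (hmin _ inferInstance h)
  obtain ⟨g₀, hg₀⟩ : ∃ g : G, ∀ n ∈ E, n * g = g * n → n = 1 := by
    by_contra h
    exact hZ' fun n hn => Subgroup.mem_center_iff.2 fun g =>
      (((hall g).resolve_left fun e => h ⟨g, e⟩) n hn).symm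
  have hdec : ∀ w : G, ∃ x ∈ E, (x⁻¹ * w) * g₀ = g₀ * (x⁻¹ * w) := by
    intro w
    obtain ⟨x, hx, h⟩ := exists_conj_of_fpf hg₀ (hmem w g₀)
    refine ⟨x, hx, ?_⟩
    calc x⁻¹ * w * g₀ = x⁻¹ * (⁅w, g₀⁆ * g₀) * w := by simp only [commutatorElement_def]; group
      _ = _ := by rw [← h]; group
  intro n hn hn1 y hy
  have h1 : ∀ m ∈ E, m * y = y * m := (hall y).resolve_left fun h =>
    hn1 (h n hn (Subgroup.mem_centralizer_iff.1 hy n rfl))
  obtain ⟨x, hx, hd⟩ := hdec y
  have h2 : x⁻¹ * y ∈ Subgroup.center G := Subgroup.mem_center_iff.2 fun w => by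
    obtain ⟨x', hx', hc⟩ := hdec w
    have c1 : Commute (x'⁻¹ * w) (x⁻¹ * y) := by
      apply commutatorElement_eq_one_iff_commute.1
      refine hg₀ _ (hmem _ _) ?_
      have d1 : Commute (x'⁻¹ * w) g₀ := hc
      have d2 : Commute (x⁻¹ * y) g₀ := hd
      exact (((d1.mul_left d2).mul_left d1.inv_left).mul_left d2.inv_left).eq
    have c2 : Commute x' (x⁻¹ * y) :=
      Commute.mul_right (hab _ hx' _ (E.inv_mem hx)) (h1 x' hx')
    simpa using (c2.mul_left c1).eq
  rw [hZ, Subgroup.mem_bot, inv_mul_eq_one] at h2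
  exact h2 ▸ hx

/-- Isaacs 12.4, coprime case. -/
theorem exists_ind_irr [Fintype G] {K N : Subgroup G} [K.Normal] [hN : N.Normal] (hKN : K ≤ N)
    (hab : ⁅N, N⁆ ≤ K) (hlt : N.index ≤ K.relIndex N)
    (hfpf : ∀ g, g ∉ N → ∀ n ∈ N, ∃ x ∈ N, n * (x * g * x⁻¹ * g⁻¹)⁻¹ ∈ K)
    {ψ : N → ℂ} (hψ : IsIrrCharacter N ψ) (hc : (charDegree ψ).Coprime (K.relIndex N)) :
    ∃ χ, IsIrrCharacter G χ ∧ charDegree χ = N.index * charDegree ψ := by
  classical
  have hr := res_irr_of_coprime (N := K.subgroupOf N) hψ hc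
  have hcomm : commutator N ≤ K.subgroupOf N := by
    intro x hx
    exact hab (by rw [← Subgroup.map_subtype_commutator N]; exact ⟨x, hx, rfl⟩)
  suffices h : ∃ lam : N →* ℂˣ, inertia (fun n => ψ n * lam n) ≤ N by
    obtain ⟨lam, hl⟩ := h
    refine ⟨_, (hψ.mul_linear lam).ind_irr_iff.2 hl, charDegree_eq ?_⟩
    rw [indFun_one, ← hψ.cast_charDegree]; simp
  by_contra hcon
  have h1 : ∀ lam : N →* ℂˣ, ∃ g, g ∈ inertia (fun n => ψ n * lam n) ∧ g ∉ N := fun lam =>
    SetLike.not_le_iff_exists.1 fun h => hcon ⟨lam, h⟩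
  choose γ hγ1 hγ2 using h1
  let F : {lam : N →* ℂˣ // K.subgroupOf N ≤ lam.ker} → {q : G ⧸ N // q ≠ 1} := fun lam =>
    ⟨γ lam, fun h => hγ2 lam ((QuotientGroup.eq_one_iff _).1 h)⟩
  have hF : Function.Injective F := by
    rintro ⟨lam, hl⟩ ⟨mu, hm⟩ h
    have h2 : (γ lam)⁻¹ * γ mu ∈ N := QuotientGroup.eq.1 (congrArg Subtype.val h)
    have h3 : γ lam ∈ inertia (fun n => ψ n * mu n) := by
      have := (hψ.mul_linear mu).isClassFunction.le_inertia h2
      have h4 := Subgroup.mul_mem _ (hγ1 mu) (Subgroup.inv_mem _ this)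
      simpa using h4
    set g := γ lam
    let c : N →* N := (MulAut.conjNormal g).toMonoidHom
    have hcK : ∀ nu : N →* ℂˣ, K.subgroupOf N ≤ nu.ker → K.subgroupOf N ≤ (nu.comp c).ker :=
      fun nu hnu x hx => hnu (Subgroup.mem_subgroupOf.2
        (Subgroup.Normal.conj_mem inferInstance _ (Subgroup.mem_subgroupOf.1 hx) g))
    have e1 : ∀ n : N, ψ (c n) * lam (c n) = ψ n * lam n := mem_inertia'.1 (hγ1 lam)
    have e2 : ∀ n : N, ψ (c n) * mu (c n) = ψ n * mu n := mem_inertia'.1 h3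
    have hk1 : K.subgroupOf N ≤ (lam * mu.comp c).ker := fun x hx => by
      have a1 : lam x = 1 := hl hx
      have a2 : mu.comp c x = 1 := hcK mu hm hx
      rw [MonoidHom.mem_ker, MonoidHom.mul_apply, a1, a2, one_mul]
    have hk2 : K.subgroupOf N ≤ (mu * lam.comp c).ker := fun x hx => by
      have a1 : mu x = 1 := hm hx
      have a2 : lam.comp c x = 1 := hcK lam hl hx
      rw [MonoidHom.mem_ker, MonoidHom.mul_apply, a1, a2, one_mul]
    have e3 := gallagher_injective (isIrrCharacter_linear (lam * mu.comp c))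
      (by rw [charKer_linear]; exact hk1) (isIrrCharacter_linear (mu * lam.comp c))
      (by rw [charKer_linear]; exact hk2) hψ.isCharacter hr (by
        funext n
        simp only [Pi.mul_apply, MonoidHom.mul_apply, MonoidHom.comp_apply, Units.val_mul]
        linear_combination (lam (c n) : ℂ) * e2 n - (mu (c n) : ℂ) * e1 n)
    have e4 : ∀ n, lam n * mu (c n) = mu n * lam (c n) := fun n =>
      DFunLike.congr_fun (linear_injective e3) n
    apply Subtype.ext
    ext1 n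
    obtain ⟨x, hx, hxK⟩ := hfpf g (hγ2 lam) n n.2
    have e5 : n = ⟨_, hKN hxK⟩ * (⟨x, hx⟩ * (c ⟨x, hx⟩)⁻¹) := by
      ext; simp [c]; group
    have a1 : lam ⟨_, hKN hxK⟩ = 1 := hl (Subgroup.mem_subgroupOf.2 hxK)
    have a2 : mu ⟨_, hKN hxK⟩ = 1 := hm (Subgroup.mem_subgroupOf.2 hxK)
    show lam n = mu n
    rw [e5]
    simp only [map_mul, map_inv, a1, a2, one_mul]
    rw [mul_inv_eq_iff_eq_mul, mul_assoc, mul_comm (mu (c _))⁻¹, ← mul_assoc, ← e4,
      mul_inv_cancel_right]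
  have h5 := Nat.card_le_card_of_injective F hF
  rw [card_linear_le_ker hcomm] at h5
  have h6 : Nat.card {q : G ⧸ N // q ≠ 1} < Nat.card (G ⧸ N) :=
    Finite.card_subtype_lt (x := 1) (by simp)
  have h7 : Nat.card (G ⧸ N) = N.index := rfl
  have h8 : (K.subgroupOf N).index = K.relIndex N := rfl
  omega

end Cfsg.Agent.H7
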