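import Mathlib
import Cfsg.Agent.H7.Count
import Cfsg.Agent.H7.Normal
import Cfsg.Agent.H7.MultiTrans
import Cfsg.Agent.H3.Misc

/-! The subgroup generated by the derangements. -/

namespace Cfsg.Agent.H7

open MulAction Finset

variable (G Ω : Type*) [Group G] [MulAction G Ω]

/-- the subgroup generated by the derangements -/
abbrev der : Subgroup G := Subgroup.closure {g : G | ∀ ω : Ω, g • ω ≠ ω}

instance der_normal : (der G Ω).Normal := by
  refine ⟨fun n hn g => ?_⟩
  induction hn using Subgroup.closure_induction with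
  | mem x hx => exact Subgroup.subset_closure fun ω e => hx (g⁻¹ • ω) (by rwa [mul_smul, mul_smul, smul_eq_iff_eq_inv_smul] at e)
  | one => simp
  | mul x y _ _ hx hy => simpa [mul_assoc] using mul_mem hx hy
  | inv x _ hx => simpa [mul_assoc] using inv_mem hx

variable {G Ω}

theorem sum_split [Fintype G] (D : Subgroup G) [Fintype D] [DecidablePred (· ∈ D)] (f : G → ℕ) :
    ∑ g, f g = ∑ g : D, f g + ∑ g with g ∉ D, f g := by
  rw [← sum_filter_add_sum_filter_not univ (· ∈ D), sum_subtype (p := (· ∈ D)) _ (by simp)]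

theorem card_not_mem [Fintype G] (D : Subgroup G) [DecidablePred (· ∈ D)] :
    Nat.card D + #{g | g ∉ D} = Nat.card G := by
  have := Fintype.ofFinite D
  simpa using (sum_split D fun _ => 1).symm

theorem der_main [Finite G] [Finite Ω] [IsPretransitive G Ω] :
    IsPretransitive (der G Ω) Ω ∧ ∀ g : G, g ∉ der G Ω → Nat.card (fixedBy Ω g) = 1 := by
  classical
  rcases isEmpty_or_nonempty Ω with h | ⟨⟨a⟩⟩
  · exact ⟨⟨fun a => isEmptyElim a⟩, fun g hg => (hg (Subgroup.subset_closure fun a => isEmptyElim a)).elim⟩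
  have := Fintype.ofFinite G
  have := Fintype.ofFinite (der G Ω)
  have h1 := sum_card_fixedBy (G := G) (Ω := Ω)
  have h2 : ∑ g : der G Ω, Nat.card (fixedBy Ω (g : G)) = _ := sum_card_fixedBy (G := der G Ω) (Ω := Ω)
  have h3 : Nat.card (orbitRel.Quotient G Ω) = 1 :=
    Nat.card_eq_one_iff_unique.2 ⟨(pretransitive_iff_subsingleton_quotient G Ω).1 inferInstance, ⟨Quotient.mk'' a⟩⟩
  have h4 : ∀ g ∈ ({g | g ∉ der G Ω} : Finset G), 1 ≤ Nat.card (fixedBy Ω g) := fun g hg => by
    have : ¬ ∀ ω : Ω, g • ω ≠ ω := fun e => (mem_filter.1 hg).2 (Subgroup.subset_closure e)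
    push Not at this
    obtain ⟨ω, h⟩ := this
    have : Nonempty (fixedBy Ω g) := ⟨⟨ω, h⟩⟩
    exact Nat.card_pos
  have h5 := sum_le_sum h4
  have h6 := card_not_mem (der G Ω)
  have : Nonempty (orbitRel.Quotient (der G Ω) Ω) := ⟨Quotient.mk'' a⟩
  have h7 : 0 < Nat.card (orbitRel.Quotient (der G Ω) Ω) := Nat.card_pos
  have h8 : 0 < Nat.card (der G Ω) := Nat.card_pos
  rw [sum_split (der G Ω), h2, h3] at h1
  rw [sum_const, smul_eq_mul, mul_one] at h5
  have h9 : Nat.card (orbitRel.Quotient (der G Ω) Ω) = 1 := by nlinarith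
  refine ⟨(pretransitive_iff_subsingleton_quotient _ _).2 (Nat.card_eq_one_iff_unique.1 h9).1, fun g hg => ?_⟩
  rw [h9] at h1
  exact ((sum_eq_sum_iff_of_le h4).1 (by rw [sum_const, smul_eq_mul]; omega) g (by simpa)).symm

theorem mem_der [Finite G] [Finite Ω] [IsPretransitive G Ω] {g : G} {a b : Ω} (hab : a ≠ b) (ha : g • a = a)
    (hb : g • b = b) : g ∈ der G Ω := by
  by_contra h
  exact hab (congrArg Subtype.val ((Nat.card_eq_one_iff_unique.1 (der_main.2 g h)).1.elim ⟨a, ha⟩ ⟨b, hb⟩))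

theorem relIndex_der [Finite G] [Finite Ω] [IsPretransitive G Ω] (a : Ω) :
    (der G Ω).relIndex (stabilizer G a) = (der G Ω).index := by
  suffices h : stabilizer G a ⊔ der G Ω = ⊤ by rw [← Subgroup.relIndex_sup_right, h, Subgroup.relIndex_top_right]
  refine eq_top_iff.2 fun g _ => ?_
  obtain ⟨d, hd⟩ := (der_main (G := G) (Ω := Ω)).1.exists_smul_eq (g⁻¹ • a) a
  have : g = (g * d.1⁻¹) * d := by simp
  rw [this]
  refine Subgroup.mul_mem_sup ?_ d.2
  rw [mem_stabilizer_iff, mul_smul, smul_eq_iff_eq_inv_smul, inv_smul_eq_iff]; exact hd.symm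

theorem index_der_dvd_orbit [Finite G] [Finite Ω] [IsPretransitive G Ω] {a b : Ω} (hab : a ≠ b) :
    (der G Ω).index ∣ Nat.card (orbit (stabilizer G a) b) := by
  rw [card_orbit_eq_index, ← relIndex_der a]
  exact Subgroup.index_dvd_of_le fun g hg => mem_der hab g.2 hg

theorem index_der_dvd [Finite G] [Finite Ω] [IsPretransitive G Ω] {a : Ω} {B : Set Ω} (ha : a ∈ B)
    (hB : ∀ g : G, g • a = a → ∀ x ∈ B, g • x ∈ B) : (der G Ω).index ∣ B.ncard - 1 := by
  rw [← Set.ncard_diff_singleton_of_mem ha]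
  refine dvd_ncard_of_orbits (G := stabilizer G a) _ (Set.toFinite _) (fun g x hx => ⟨hB g g.2 x hx.1, fun e => hx.2 ?_⟩)
    fun x hx => index_der_dvd_orbit (Ne.symm hx.2)
  exact (smul_left_cancel_iff g).1 (e.trans g.2.symm)

end Cfsg.Agent.H7
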