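import Mathlib
import Cfsg.Agent.H3.Cover
import Cfsg.Agent.H3.Misc

/-! Invariant forms and the Frobenius–Schur indicator. -/

namespace Cfsg.Agent.H7
open Cfsg H3 Matrix Finset
open scoped ComplexConjugate ComplexOrder

variable {G : Type*} [Group G] {n : Type} [Fintype n] [DecidableEq n] {A : G →* Matrix n n ℂ}

/-- representation attached to a matrix representation -/
noncomputable def mrep (A : G →* Matrix n n ℂ) : Representation ℂ G (n → ℂ) :=
  (Matrix.toLinAlgEquiv' (R := ℂ) (n := n)).toMonoidHom.comp A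

theorem mrep_apply (g : G) (v : n → ℂ) : mrep A g v = A g *ᵥ v := rfl

theorem mrep_char : (mrep A).character = fun g => trace (A g) :=
  funext fun g => Matrix.trace_toLin'_eq (A g)

theorem exists_mat {χ : G → ℂ} (h : IsCharacter G χ) :
    ∃ (n : ℕ) (A : G →* Matrix (Fin n) (Fin n) ℂ), χ = fun g => trace (A g) := by
  obtain ⟨n, ρ, rfl⟩ := h
  refine ⟨n, (LinearMap.toMatrixAlgEquiv' (R := ℂ) (n := Fin n)).toMonoidHom.comp ρ, funext fun g => ?_⟩
  rw [← Matrix.trace_toLin'_eq]
  exact congrArg _ (Matrix.toLin'_toMatrix' _).symm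

variable [Fintype G]

theorem mat_schur (h : IsIrrCharacter G fun g => trace (A g)) {M : Matrix n n ℂ}
    (hM : ∀ g, M * A g = A g * M) : ∃ c : ℂ, M = c • 1 := by
  haveI := isIrreducible_of_isIrrCharacter (mrep A) (mrep_char (A := A) ▸ h)
  obtain ⟨c, hc⟩ := exists_scalar_of_commute (mrep A) (toLin' M) fun g => LinearMap.ext fun v => by
    simp [mrep_apply, hM]
  exact ⟨c, toLin'.injective (by simpa using hc)⟩

theorem exists_form (h : IsIrrCharacter G fun g => trace (A g)) {ε : ℂ} (hε : ε * ε = 1)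
    (hf : fsInd (fun g => trace (A g)) = ε) :
    ∃ B : Matrix n n ℂ, B.det ≠ 0 ∧ Bᵀ = ε • B ∧ ∀ g, (A g)ᵀ * B * A g = B := by
  obtain ⟨M, hM⟩ : ∃ M : Matrix n n ℂ, ∑ g, (A g)ᵀ * (M + ε • Mᵀ) * A g ≠ 0 := by
    by_contra! H
    have h1 : ∑ g, (trace (A g) * trace (A g) + ε * trace (A (g * g))) = 0 := by
      have := sum_eq_zero (s := univ) fun i _ => sum_eq_zero (s := univ) fun j _ =>
        congr_fun (congr_fun (H (single i j 1)) i) j
      simp only [Matrix.sum_apply] at this
      rw [← this, sum_congr rfl fun i _ => sum_comm, eq_comm, sum_comm]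
      refine sum_congr rfl fun g _ => ?_
      simp [trace, mul_apply, add_mul, mul_add, sum_add_distrib, single_apply, ite_and, sum_mul, mul_sum,
        mul_comm, mul_left_comm]
    obtain ⟨m, hm⟩ := h.isCharacter.exists_nat_inner h.conj.isCharacter
    have h2 := card_mul_classInner (fun g => trace (A g)) fun g => conj (trace (A g))
    simp only [hm, RCLike.conj_conj] at h2
    rw [sum_add_distrib, ← h2, ← mul_sum, ← mul_inv_cancel_left₀ (card_ne_zero (G := G)) (∑ g, trace (A (g * g))),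
      show _ * ∑ g, trace (A (g * g)) = ε from hf, mul_left_comm, hε, ← mul_add] at h1
    exact Nat.cast_add_one_ne_zero m ((mul_eq_zero.1 h1).resolve_left card_ne_zero)
  have inv : ∀ x, (A x)ᵀ * (∑ g, (A g)ᵀ * (M + ε • Mᵀ) * A g) * A x = ∑ g, (A g)ᵀ * (M + ε • Mᵀ) * A g :=
    fun x => by
      rw [mul_sum, sum_mul]
      exact Fintype.sum_equiv (Equiv.mulRight x) _ _ fun g => by simp [Matrix.mul_assoc]
  refine ⟨_, fun hd => ?_, ?_, inv⟩
  · generalize ∑ g, (A g)ᵀ * (M + ε • Mᵀ) * A g = B at *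
    obtain ⟨v, hv, e⟩ := exists_mulVec_eq_zero_iff.2 hd
    haveI := isIrreducible_of_isIrrCharacter (mrep A) (mrep_char (A := A) ▸ h)
    rcases ((isIrreducible_iff (mrep A)).1 this).2 (LinearMap.ker (toLin' B)) fun g w hw => by
      rw [LinearMap.mem_ker, toLin'_apply] at hw ⊢
      rw [← inv g⁻¹, ← mulVec_mulVec, mrep_apply, mulVec_mulVec _ (A _), ← map_mul, inv_mul_cancel, map_one,
        one_mulVec, ← mulVec_mulVec, hw, mulVec_zero] with e' | e'
    · exact hv ((Submodule.mem_bot ℂ).1 (e' ▸ e))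
    · exact hM (toLin'.injective (by simpa using e'))
  · simp only [transpose_sum, smul_sum, transpose_mul, transpose_transpose, transpose_add, transpose_smul]
    refine sum_congr rfl fun g _ => ?_
    rw [← smul_mul_assoc, ← mul_smul_comm, smul_add, smul_smul, hε, one_smul, add_comm, Matrix.mul_assoc]

theorem exists_herm : ∃ S : Matrix n n ℂ, S.PosDef ∧ (∀ g, (A g)ᴴ * S * A g = S) ∧
    ((∀ g, (A g)ᴴ = (A g)ᵀ) → Sᵀ = S) := by
  refine ⟨∑ g, (A g)ᴴ * A g, posDef_sum univ_nonempty fun g _ => PosDef.conjTranspose_mul_self _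
    (mulVec_injective_iff_isUnit.2 ((Group.isUnit g).map A)), fun x => ?_, fun h => by simp [h, transpose_sum]⟩
  rw [mul_sum, sum_mul]
  exact Fintype.sum_equiv (Equiv.mulRight x) _ _ fun g => by simp [Matrix.mul_assoc]

/-- fixed spaces of a symplectic representation have even dimension -/
theorem even_of_fsInd {χ : G → ℂ} (h : IsIrrCharacter G χ) (hf : fsInd χ = -1) {D : Type*} [Group D]
    [Fintype D] (f : D →* G) : ∃ k : ℕ, classInner (fun d => χ (f d)) (fun _ => 1) = (2 * k : ℕ) := by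
  obtain ⟨n, A, rfl⟩ := exists_mat h.isCharacter
  obtain ⟨B, h1, h2, h3⟩ := exists_form h (by simp) hf
  have := invertibleOfNonzero (card_ne_zero (G := D))
  let W := Representation.invariants ((mrep A).comp f)
  have e : classInner (fun d => trace (A (f d))) (fun _ => 1) = Module.finrank ℂ W := by
    rw [← Representation.card_inv_mul_sum_char_eq_finrank]
    simp only [classInner_def, map_one, mul_one, ← congr_fun mrep_char]; rfl
  let b := Module.finBasis ℂ W
  let M : Matrix (Fin (Module.finrank ℂ W)) (Fin (Module.finrank ℂ W)) ℂ :=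
    of fun i j => (b i : Fin n → ℂ) ⬝ᵥ B *ᵥ (b j : Fin n → ℂ)
  have hM : Mᵀ = -M := by
    ext i j
    simp only [M, transpose_apply, neg_apply, of_apply]
    rw [dotProduct_mulVec, ← mulVec_transpose, h2, dotProduct_comm]; simp [neg_mulVec]
  have hd : M.det ≠ 0 := fun hd => by
    obtain ⟨u, hu, e⟩ := exists_mulVec_eq_zero_iff.2 hd
    let w : W := ∑ j, u j • b j
    have h4 : ∀ v : W, (v : Fin n → ℂ) ⬝ᵥ B *ᵥ (w : Fin n → ℂ) = 0 := fun v => by
      rw [← b.sum_repr v]
      simp only [Submodule.coe_sum, Submodule.coe_smul, sum_dotProduct, smul_dotProduct]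
      refine sum_eq_zero fun i _ => smul_eq_zero_of_right _ ?_
      refine Eq.trans ?_ (congr_fun e i)
      simp only [w, Submodule.coe_sum, Submodule.coe_smul, mulVec_sum, mulVec_smul, dotProduct_sum,
        dotProduct_smul]
      exact sum_congr rfl fun j _ => mul_comm _ _
    have h5 : ∀ v, v ⬝ᵥ B *ᵥ (w : Fin n → ℂ) = 0 := fun v => by
      have h6 : ∀ d, (A (f d) *ᵥ v) ⬝ᵥ B *ᵥ (w : Fin n → ℂ) = v ⬝ᵥ B *ᵥ (w : Fin n → ℂ) := fun d => by
        conv_rhs => rw [← h3 (f d), ← mulVec_mulVec, ← mulVec_mulVec, dotProduct_mulVec, vecMul_transpose,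
          show A (f d) *ᵥ _ = _ from w.2 d]
      have := h4 ⟨∑ d, A (f d) *ᵥ v, fun x => by
        change A (f x) *ᵥ _ = _
        rw [mulVec_sum]
        exact Fintype.sum_equiv (Equiv.mulLeft x) _ _ fun d => by simp⟩
      simpa [sum_dotProduct, h6] using this
    have h6 : w = 0 := Subtype.ext (by_contra fun h0 => h1 (exists_mulVec_eq_zero_iff.1
      ⟨_, h0, funext fun i => by simpa using h5 (Pi.single i 1)⟩))
    exact hu (funext (Fintype.linearIndependent_iff.1 b.linearIndependent u h6))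
  have h7 := det_transpose M
  rw [hM, det_neg, Fintype.card_fin] at h7
  rcases Nat.even_or_odd (Module.finrank ℂ W) with ⟨k, hk⟩ | hk
  · exact ⟨k, by rw [e, hk, two_mul]⟩
  · rw [hk.neg_one_pow, neg_one_mul, neg_eq_iff_add_eq_zero, ← two_mul] at h7
    exact absurd ((mul_eq_zero.1 h7).resolve_left two_ne_zero) hd

/-- a real irreducible character with an odd number of fixed vectors has indicator one -/
theorem fsInd_eq_one_of_odd {χ : G → ℂ} (h : IsIrrCharacter G χ) (hr : (fun g => conj (χ g)) = χ)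
    {D : Type*} [Group D] [Fintype D] (f : D →* G) {k : ℕ} (hk : Odd k)
    (e : classInner (fun d => χ (f d)) (fun _ => 1) = k) : fsInd χ = 1 :=
  (h.fsInd_of_real hr).resolve_right fun hf => by
    obtain ⟨m, hm⟩ := even_of_fsInd h hf f
    rw [e, Nat.cast_inj] at hm
    exact (Nat.not_even_iff_odd.2 hk) ⟨m, by omega⟩

theorem real_of_fsInd {χ : G → ℂ} (h : IsIrrCharacter G χ) (hf : fsInd χ ≠ 0) : (fun g => conj (χ g)) = χ :=
  by_contra fun hr => hf (h.fsInd_of_not_real hr)

theorem fsInd_eq_one_of_res {χ : G → ℂ} (h : IsIrrCharacter G χ) (hr : (fun g => conj (χ g)) = χ)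
    {H : Subgroup G} [Fintype H] {η : H → ℂ} (hη : IsIrrCharacter H η) (h1 : fsInd η = 1) {k : ℕ} (hk : Odd k)
    (e : classInner (fun x : H => χ x) η = k) : fsInd χ = 1 := by
  have hr' := real_of_fsInd hη (h1.trans_ne one_ne_zero)
  have := fsInd_eq_one_of_odd (h.prod hη) (funext fun x => by
    rw [map_mul, congr_fun hr, congr_fun hr']) (H.subtype.prod (MonoidHom.id H)) hk (by
      rw [← e]; simp [classInner_def, congr_fun hr'])
  rw [← this, ← mul_one (fsInd χ), ← h1]
  simp only [fsInd, Nat.card_prod, Fintype.sum_prod_type, Prod.fst_mul, Prod.snd_mul, ← mul_sum, ← sum_mul,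
    Nat.cast_mul, mul_inv]
  ring

theorem fsInd_mul_linear {χ μ : G → ℂ} (h : IsIrrCharacter G μ) (h1 : μ 1 = 1) (hf : fsInd μ = 1) :
    fsInd (χ * μ) = fsInd χ := by
  have hr := real_of_fsInd h (hf.trans_ne one_ne_zero)
  refine congrArg (_ * ·) (sum_congr rfl fun g _ => ?_)
  rw [Pi.mul_apply, h.isCharacter.map_mul_of_degree_one h1]
  nth_rw 2 [← congr_fun hr g]
  rw [← h.apply_inv, ← h.isCharacter.map_mul_of_degree_one h1, mul_inv_cancel, h1, mul_one]

theorem card_le_index_mul {N I : Subgroup G} [N.Normal] {φ : N → ℂ} (hφ : IsIrrCharacter N φ)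
    (hI : I = inertia φ) (hNI : N ≤ I) {ψ : I → ℂ} (hψ : IsIrrCharacter I ψ) (he : resLe hNI ψ = φ)
    (P Q : IrrCharacter G → Prop) (hP : ∀ μ, P μ → (μ : G → ℂ) 1 = 1 ∧ N ≤ charKer (μ : G → ℂ))
    (hQ : ∀ μ, P μ → ∀ h : IsIrrCharacter G (indFun I ψ * μ), Q ⟨_, h⟩) :
    Nat.card {μ // P μ} ≤ I.index * Nat.card {χ // Q χ} := by
  classical
  letI := Fintype.ofFinite N
  choose l hl using fun μ : {μ // P μ} => μ.1.2.isCharacter.exists_linear (hP _ μ.2).1
  have hk : ∀ μ, N ≤ (l μ).ker := fun μ => by rw [← charKer_linear, ← hl]; exact (hP _ μ.2).2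
  have h1 : ∀ μ, IsIrrCharacter I fun x => ψ x * l μ x := fun μ => hψ.mul_linear ((l μ).comp I.subtype)
  have h2 : ∀ μ, classInner (resLe hNI fun x => ψ x * l μ x) φ ≠ 0 := fun μ => by
    rw [show (resLe hNI fun x => ψ x * l μ x) = φ from funext fun n => by
      rw [← he]; exact (congrArg (_ * Units.val ·) (hk μ n.2)).trans (mul_one _), hφ.inner_self]
    exact one_ne_zero
  have h3 : ∀ μ, indFun I (fun x => ψ x * l μ x) = indFun I ψ * μ.1 := fun μ => by
    rw [hl μ, ← indFun_mul_res ψ (isCharacter_linear (l μ)).isClassFunction]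
  let f : {μ // P μ} → {χ // Q χ} := fun μ =>
    ⟨_, hQ μ μ.2 (h3 μ ▸ (h1 μ).ind_inertia_irr hφ hI hNI (h2 μ))⟩
  rw [Nat.card_eq_fintype_card, Nat.card_eq_fintype_card]
  refine card_le_mul_card_image_of_maps_to (f := f) (fun _ _ => mem_univ _) _ fun b _ => ?_
  rcases (univ.filter fun a => f a = b).eq_empty_or_nonempty with h | ⟨μ, hμ⟩
  · simp [h]
  haveI : (I ⊔ commutator G).Normal := Subgroup.Normal.of_commutator_le _ le_sup_right
  haveI : Finite (G →* ℂˣ) := Nat.finite_of_card_ne_zero (card_linear (G := G) ▸ Subgroup.index_ne_zero_of_finite)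
  refine le_trans ?_ (Subgroup.index_antitone (le_sup_left : I ≤ I ⊔ commutator G))
  rw [← card_linear_le_ker le_sup_right, ← Fintype.card_coe, ← Nat.card_eq_fintype_card]
  refine Nat.card_le_card_of_injective (fun ν => ⟨l ν.1 / l μ, sup_le (fun x hx => ?_)
    (Abelianization.commutator_subset_ker _)⟩) fun a b e => Subtype.ext (Subtype.ext (Subtype.ext ?_))
  · have e := ind_inertia_injective (h1 ν.1) (h1 μ) hφ hI hNI (h2 _) (h2 _) (by
      rw [h3, h3]
      exact congrArg (·.1.1) ((mem_filter.1 ν.2).2.trans (mem_filter.1 hμ).2.symm))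
    have := gallagher_injective (N := N.subgroupOf I) (isIrrCharacter_linear ((l ν.1).comp I.subtype))
      (fun y hy => charKer_linear ((l ν.1).comp I.subtype) ▸ hk _ hy) (isIrrCharacter_linear ((l μ).comp I.subtype))
      (fun y hy => charKer_linear ((l μ).comp I.subtype) ▸ hk _ hy) hψ.isCharacter ((he ▸ hφ : IsIrrCharacter N (resLe hNI ψ)).toSubOf hNI)
      (funext fun y => (mul_comm _ _).trans ((congr_fun e y).trans (mul_comm _ _)))
    exact div_eq_one.2 (Units.ext (congr_fun this ⟨x, hx⟩))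
  · rw [hl, hl, show l a.1 = l b.1 from div_left_injective (b := l μ) (congrArg Subtype.val e)]

end Cfsg.Agent.H7
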