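import Cfsg.Agent.H7.Hig1
import Cfsg.Agent.H1.Frattini

/-! Coordinates on sections of a Suzuki 2-group. -/

set_option autoImplicit false
set_option linter.unusedSectionVars false

open scoped Classical
open Subgroup

namespace Cfsg.Agent.H7
namespace Hig

variable {F : Type*} [Field F] [Fintype F] [CharP F 2]

theorem comm_of_sq {E : Type*} [Group E] {x y : E} (hx : x * x = 1) (hy : y * y = 1)
    (h : x * y * (x * y) = 1) : x * y = y * x := by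
  rw [← inv_eq_of_mul_eq_one_right h, mul_inv_rev, inv_eq_of_mul_eq_one_right hx,
    inv_eq_of_mul_eq_one_right hy]

theorem ext_exp2 {E : Type*} [Group E] (hE : ∀ x : E, x * x = 1) (Z : Subgroup E) (g : E → F)
    (hg : ∀ x ∈ Z, ∀ y ∈ Z, g (x * y) = g x + g y) (v : E) (c : F) :
    ∃ h : E → F, (∀ x y, h (x * y) = h x + h y) ∧ (∀ z ∈ Z, h z = g z) ∧ (v ∉ Z → h v = c) := by
  letI : CommGroup E := { (inferInstance : Group E) with
    mul_comm := fun x y => comm_of_sq (hE x) (hE y) (hE _) }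
  haveI : Fact (Nat.Prime 2) := ⟨Nat.prime_two⟩
  letI : Module (ZMod 2) (Additive E) := AddCommGroup.zmodModule fun x => by
    rw [two_nsmul]; exact hE x.toMul
  letI : Algebra (ZMod 2) F := ZMod.algebra F 2
  let p : Submodule (ZMod 2) (Additive E) := AddSubgroup.toZModSubmodule 2 (Subgroup.toAddSubgroup Z)
  let g' : p →ₗ[ZMod 2] F := (AddMonoidHom.mk' (fun x : p => g x.1.toMul)
    fun x y => hg _ x.2 _ y.2).toZModLinearMap 2
  have key : ∃ h : Additive E →ₗ[ZMod 2] F, h.comp p.subtype = g' ∧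
      (v ∉ Z → h (Additive.ofMul v) = c) := by
    by_cases hv : v ∈ Z
    · obtain ⟨h, hh⟩ := g'.exists_extend
      exact ⟨h, hh, fun h' => absurd hv h'⟩
    · obtain ⟨h, hh, h2⟩ := g'.exists_extend_of_notMem (v := Additive.ofMul v) hv c
      exact ⟨h, hh, fun _ => h2⟩
  obtain ⟨h, h1, h2⟩ := key
  exact ⟨fun x => h (Additive.ofMul x), fun x y => map_add h _ _,
    fun z hz => DFunLike.congr_fun h1 ⟨Additive.ofMul z, hz⟩, h2⟩

variable {P : Type*} [Group P]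

theorem add_one {M : Subgroup P} {f : P → F} (h : ∀ x ∈ M, ∀ y ∈ M, f (x * y) = f x + f y) :
    f 1 = 0 := by simpa using h 1 M.one_mem 1 M.one_mem

theorem add_inv {M : Subgroup P} {f : P → F} (h : ∀ x ∈ M, ∀ y ∈ M, f (x * y) = f x + f y)
    {x : P} (hx : x ∈ M) : f x⁻¹ = f x := by
  have := h x hx _ (M.inv_mem hx)
  rw [mul_inv_cancel, add_one h] at this
  grind

/-- the kernel of an additive function on a subgroup -/
def kerS (M : Subgroup P) (f : P → F) (h : ∀ x ∈ M, ∀ y ∈ M, f (x * y) = f x + f y) : Subgroup P where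
  carrier := {x | x ∈ M ∧ f x = 0}
  mul_mem' := fun hx hy => ⟨M.mul_mem hx.1 hy.1, by rw [h _ hx.1 _ hy.1, hx.2, hy.2, add_zero]⟩
  one_mem' := ⟨M.one_mem, add_one h⟩
  inv_mem' := fun hx => ⟨M.inv_mem hx.1, by rw [add_inv h hx.1, hx.2]⟩

/-- extension of an additive function killing squares -/
theorem ext_rel {M Z : Subgroup P} (hZ : Z ≤ M) (g : P → F)
    (hg : ∀ x ∈ Z, ∀ y ∈ Z, g (x * y) = g x + g y) (hsq : ∀ x ∈ M, x * x ∈ Z ∧ g (x * x) = 0)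
    (v : P) (hv : v ∈ M) (c : F) :
    ∃ h : P → F, (∀ x ∈ M, ∀ y ∈ M, h (x * y) = h x + h y) ∧ (∀ z ∈ Z, h z = g z) ∧
      (v ∉ Z → h v = c) := by
  let D := kerS Z g hg
  have hD : ∀ x ∈ M, x * x ∈ D := hsq
  haveI : (D.subgroupOf M).Normal := ⟨fun n hn m => by
    have : ((m * n * m⁻¹ : M) : P) = (m * n * (m * n)) * (n : P)⁻¹ * ((m : P) * m)⁻¹ := by
      simp only [Subgroup.coe_mul, Subgroup.coe_inv]; group
    rw [mem_subgroupOf, this]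
    exact D.mul_mem (D.mul_mem (hD _ (M.mul_mem m.2 n.2)) (D.inv_mem hn)) (D.inv_mem (hD _ m.2))⟩
  let π := QuotientGroup.mk' (D.subgroupOf M)
  have hout : ∀ z : M, (z : P) ∈ Z → ((π z).out : P) ∈ Z ∧ g (π z).out = g z := fun z hz => by
    obtain ⟨d, hd⟩ := QuotientGroup.mk_out_eq_mul (D.subgroupOf M) z
    have hd' : (π z).out = z * d := hd
    have hd2 : ((d : M) : P) ∈ D := d.2
    rw [hd', Subgroup.coe_mul]
    exact ⟨Z.mul_mem hz hd2.1, by rw [hg _ hz _ hd2.1, hd2.2, add_zero]⟩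
  obtain ⟨h, h1, h2, h3⟩ := ext_exp2 (F := F) (E := M ⧸ D.subgroupOf M) (fun x => by
      obtain ⟨x, rfl⟩ := QuotientGroup.mk_surjective x
      exact (QuotientGroup.eq_one_iff _).2 (hD x x.2))
    ((Z.subgroupOf M).map π) (fun e => g e.out) (by
      rintro _ ⟨x, hx, rfl⟩ _ ⟨y, hy, rfl⟩
      rw [← map_mul, (hout _ hx).2, (hout _ hy).2, (hout (x * y) (Z.mul_mem hx hy)).2]
      exact hg _ hx _ hy) (π ⟨v, hv⟩) c
  refine ⟨fun x => if hx : x ∈ M then h (π ⟨x, hx⟩) else 0, fun x hx y hy => ?_, fun z hz => ?_,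
    fun hvZ => ?_⟩
  · simp only [hx, hy, M.mul_mem hx hy, dif_pos]
    rw [← h1, ← map_mul]; rfl
  · simp only [hZ hz, dif_pos]
    rw [h2 _ ⟨_, hz, rfl⟩]
    exact (hout ⟨z, hZ hz⟩ hz).2
  · simp only [hv, dif_pos]
    refine h3 ?_
    rintro ⟨y, hy, e⟩
    have : y⁻¹ * ⟨v, hv⟩ ∈ D.subgroupOf M := QuotientGroup.eq.1 e
    exact hvZ (by simpa using Z.mul_mem hy this.1)

theorem prim_iff {l : F} (hl : l ≠ 0) : Prim l ↔ ∀ k : ℕ, l ^ k = 1 → Fintype.card F - 1 ∣ k := by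
  let u := Units.mk0 l hl
  have hc : Nat.card Fˣ = Fintype.card F - 1 := by
    rw [Nat.card_eq_fintype_card, Fintype.card_units]
  have h1 : Prim l ↔ zpowers u = ⊤ := by
    refine ⟨fun h => eq_top_iff.2 fun v _ => ?_, fun h => ⟨hl, fun c hc => ?_⟩⟩
    · obtain ⟨k, hk⟩ := h.2 v v.ne_zero
      exact ⟨k, Units.ext (by simpa [u] using hk)⟩
    · obtain ⟨k, hk⟩ := mem_powers_iff_mem_zpowers.2 (h ▸ mem_top (Units.mk0 c hc))
      exact ⟨k, by simpa [u] using congrArg Units.val hk⟩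
  rw [h1, ← card_eq_iff_eq_top, Nat.card_zpowers, hc]
  refine ⟨fun h k hk => h ▸ orderOf_dvd_of_pow_eq_one (Units.ext (by simpa [u] using hk)),
    fun h => Nat.dvd_antisymm (hc ▸ orderOf_dvd_natCard u) (h _ ?_)⟩
  exact congrArg Units.val (pow_orderOf_eq_one u)

theorem Prim.pow_eq_one {l m : F} (hl : Prim l) (hm : Prim m) {k : ℕ} (h : l ^ k = 1) : m ^ k = 1 := by
  obtain ⟨j, rfl⟩ := (prim_iff hl.1).1 hl k h
  rw [pow_mul, FiniteField.pow_card_sub_one_eq_one m hm.1, one_pow]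

/-- `M` is `ξ`-invariant -/
def Inv (ξ : MulAut P) (M : Subgroup P) : Prop := ∀ x ∈ M, ξ x ∈ M

theorem Inv.pow {ξ : MulAut P} {M : Subgroup P} (h : Inv ξ M) (k : ℕ) : Inv (ξ ^ k) M := by
  induction k with
  | zero => exact fun x hx => hx
  | succ k ih => exact fun x hx => by rw [pow_succ']; exact h _ (ih x hx)

theorem Inv.char (ξ : MulAut P) (M : Subgroup P) [h : M.Characteristic] : Inv ξ M := fun x hx =>
  characteristic_iff_le_comap.1 h ξ hx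

/-- a coordinate function on `M` of weight `l` -/
structure Co (ξ : MulAut P) (M : Subgroup P) (f : P → F) (l : F) : Prop where
  inv : Inv ξ M
  add : ∀ x ∈ M, ∀ y ∈ M, f (x * y) = f x + f y
  eqv : ∀ x ∈ M, f (ξ x) = l * f x
  surj : ∀ c, ∃ x ∈ M, f x = c
  prim : Prim l

theorem eqv_pow {ξ : MulAut P} {M : Subgroup P} (hM : Inv ξ M) {f : P → F} {l : F}
    (h : ∀ x ∈ M, f (ξ x) = l * f x) (k : ℕ) : ∀ x ∈ M, f ((ξ ^ k) x) = l ^ k * f x := by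
  induction k with
  | zero => simp
  | succ k ih => intro x hx; rw [pow_succ', MulAut.mul_apply, h _ (hM.pow k x hx), ih x hx]; ring

theorem Co.mk' {ξ : MulAut P} {M : Subgroup P} {f : P → F} {l : F} (hM : Inv ξ M)
    (add : ∀ x ∈ M, ∀ y ∈ M, f (x * y) = f x + f y) (eqv : ∀ x ∈ M, f (ξ x) = l * f x)
    (hl : Prim l) {x : P} (hx : x ∈ M) (h0 : f x ≠ 0) : Co ξ M f l := by
  refine ⟨hM, add, eqv, fun c => ?_, hl⟩
  by_cases hc : c = 0
  · exact ⟨1, M.one_mem, hc ▸ add_one add⟩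
  · obtain ⟨k, hk⟩ := hl.2 (c / f x) (div_ne_zero hc h0)
    exact ⟨_, hM.pow k x hx, by rw [eqv_pow hM eqv k x hx, hk]; field_simp⟩

/-- descent of a biadditive function to coordinates -/
theorem descend {ξ : MulAut P} {M₁ M₂ : Subgroup P} {f₁ f₂ : P → F} {l m n : F} (c₁ : Co ξ M₁ f₁ l)
    (c₂ : Co ξ M₂ f₂ m) (t : P → P → F)
    (al : ∀ u ∈ M₁, ∀ v ∈ M₁, ∀ a ∈ M₂, t (u * v) a = t u a + t v a)
    (ar : ∀ u ∈ M₁, ∀ a ∈ M₂, ∀ b ∈ M₂, t u (a * b) = t u a + t u b)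
    (kl : ∀ u ∈ M₁, ∀ a ∈ M₂, f₁ u = 0 → t u a = 0) (kr : ∀ u ∈ M₁, ∀ a ∈ M₂, f₂ a = 0 → t u a = 0)
    (eq : ∀ u ∈ M₁, ∀ a ∈ M₂, t (ξ u) (ξ a) = n * t u a) :
    ∃ T : F →+ F →+ F, (∀ u ∈ M₁, ∀ a ∈ M₂, T (f₁ u) (f₂ a) = t u a) ∧
      ∀ x y, T (l * x) (m * y) = n * T x y := by
  choose s₁ hs₁ hs₁' using c₁.surj
  choose s₂ hs₂ hs₂' using c₂.surj
  have wl : ∀ u ∈ M₁, ∀ v ∈ M₁, ∀ a ∈ M₂, f₁ u = f₁ v → t u a = t v a := fun u hu v hv a ha e => by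
    have := kl _ (M₁.mul_mem hu hv) a ha (by rw [c₁.add _ hu _ hv, e]; grind)
    rw [al _ hu _ hv _ ha] at this
    grind
  have wr : ∀ u ∈ M₁, ∀ a ∈ M₂, ∀ b ∈ M₂, f₂ a = f₂ b → t u a = t u b := fun u hu a ha b hb e => by
    have := kr _ hu _ (M₂.mul_mem ha hb) (by rw [c₂.add _ ha _ hb, e]; grind)
    rw [ar _ hu _ ha _ hb] at this
    grind
  have key : ∀ u ∈ M₁, ∀ a ∈ M₂, t (s₁ (f₁ u)) (s₂ (f₂ a)) = t u a := fun u hu a ha => by
    rw [wl _ (hs₁ _) _ hu _ (hs₂ _) (hs₁' _), wr _ hu _ (hs₂ _) _ ha (hs₂' _)]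
  refine ⟨AddMonoidHom.mk' (fun x => AddMonoidHom.mk' (fun y => t (s₁ x) (s₂ y)) fun y y' => ?_)
    fun x x' => AddMonoidHom.ext fun y => ?_, key, fun x y => ?_⟩
  · rw [← ar _ (hs₁ _) _ (hs₂ _) _ (hs₂ _)]
    exact wr _ (hs₁ _) _ (hs₂ _) _ (M₂.mul_mem (hs₂ _) (hs₂ _)) (by
      rw [c₂.add _ (hs₂ _) _ (hs₂ _), hs₂', hs₂', hs₂'])
  · change t _ _ = t _ _ + t _ _
    rw [← al _ (hs₁ _) _ (hs₁ _) _ (hs₂ _)]
    exact wl _ (hs₁ _) _ (M₁.mul_mem (hs₁ _) (hs₁ _)) _ (hs₂ _) (by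
      rw [c₁.add _ (hs₁ _) _ (hs₁ _), hs₁', hs₁', hs₁'])
  · change t _ _ = n * t _ _
    rw [← eq _ (hs₁ _) _ (hs₂ _), ← key _ (c₁.inv _ (hs₁ _)) _ (c₂.inv _ (hs₂ _)),
      c₁.eqv _ (hs₁ _), c₂.eqv _ (hs₂ _), hs₁', hs₂']

theorem inj_grp (h4 : 2 < Fintype.card F) {ξ : MulAut P} {M₁ M₂ : Subgroup P} {f₁ f₂ : P → F}
    {l m : F} (c₁ : Co ξ M₁ f₁ l) (c₂ : Co ξ M₂ f₂ m) (t : P → P → F)
    (al : ∀ u ∈ M₁, ∀ v ∈ M₁, ∀ a ∈ M₂, t (u * v) a = t u a + t v a)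
    (ar : ∀ u ∈ M₁, ∀ a ∈ M₂, ∀ b ∈ M₂, t u (a * b) = t u a + t u b)
    (kl : ∀ u ∈ M₁, ∀ a ∈ M₂, f₁ u = 0 → t u a = 0) (kr : ∀ u ∈ M₁, ∀ a ∈ M₂, f₂ a = 0 → t u a = 0)
    (eq : ∀ u ∈ M₁, ∀ a ∈ M₂, t (ξ u) (ξ a) = m * t u a) {u a : P} (hu : u ∈ M₁) (ha : a ∈ M₂)
    (hu0 : f₁ u ≠ 0) (ha0 : f₂ a ≠ 0) (h0 : t u a = 0) : ∀ u ∈ M₁, ∀ a ∈ M₂, t u a = 0 := by
  obtain ⟨T, h1, h2⟩ := descend c₁ c₂ t al ar kl kr eq
  intro v hv b hb
  rw [← h1 _ hv _ hb]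
  exact inj h4 c₁.prim c₂.prim h2 hu0 ha0 (by rw [h1 _ hu _ ha, h0]) _ _

variable [Finite P]

theorem fpf_surj {ζ : MulAut P} (h : ∀ x, ζ x = x → x = 1) {N : Subgroup P} (hN : Inv ζ N) {n : P}
    (hn : n ∈ N) : ∃ y ∈ N, y⁻¹ * ζ y = n := by
  let φ : N → N := fun y => ⟨(y : P)⁻¹ * ζ y, N.mul_mem (N.inv_mem y.2) (hN _ y.2)⟩
  have : Function.Injective φ := fun x y e => by
    have e' : (x : P)⁻¹ * ζ x = (y : P)⁻¹ * ζ y := congrArg Subtype.val e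
    have := h ((x : P) * (y : P)⁻¹) (by
      rw [map_mul, map_inv, inv_mul_eq_iff_eq_mul.1 e']; group)
    exact Subtype.ext (mul_inv_eq_one.1 this)
  obtain ⟨y, hy⟩ := Finite.injective_iff_surjective.1 this ⟨n, hn⟩
  exact ⟨y, y.2, congrArg Subtype.val hy⟩

theorem fpf_quot {ζ : MulAut P} (h : ∀ x, ζ x = x → x = 1) {N : Subgroup P} (hN : Inv ζ N) {x : P}
    (hx : x⁻¹ * ζ x ∈ N) : x ∈ N := by
  obtain ⟨y, hy, e⟩ := fpf_surj h hN hx
  have := h (x * y⁻¹) (by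
    rw [map_mul, map_inv, inv_mul_eq_iff_eq_mul.1 e]; group)
  exact mul_inv_eq_one.1 this ▸ hy

/-- the basic set-up -/
structure HS0 (F : Type*) [Fintype F] (ξ : MulAut P) : Prop where
  two : IsPGroup 2 P
  big : 2 < Fintype.card F
  ord : ξ ^ (Fintype.card F - 1) = 1
  fpf : ∀ k : ℕ, ¬ Fintype.card F - 1 ∣ k → ∀ x, (ξ ^ k) x = x → x = 1

variable {ξ : MulAut P}

theorem HS0.coord (H : HS0 F ξ) {M N : Subgroup P} (hNM : N ≤ M) (hM : Inv ξ M) (hN : Inv ξ N)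
    (hsq : ∀ x ∈ M, x * x ∈ N) {v : P} (hv : v ∈ M) (hvN : v ∉ N) :
    ∃ (f : P → F) (l : F), Co ξ M f l ∧ ∀ x ∈ N, f x = 0 := by
  obtain ⟨h, h1, h2, h3⟩ := ext_rel (F := F) hNM (fun _ => 0) (by simp) (fun x hx => ⟨hsq x hx, rfl⟩)
    v hv 1
  set r := Fintype.card F - 1 with hr
  let f : Fˣ → P → F := fun u x => ∑ i ∈ Finset.range r, ((u⁻¹ : Fˣ) : F) ^ i * h ((ξ ^ i) x)
  have hsum : ∑ u : Fˣ, f u v = -1 := by
    simp only [f]
    rw [Finset.sum_comm]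
    simp only [← Finset.sum_mul]
    rw [Finset.sum_eq_single 0]
    · have := FiniteField.sum_pow_units F 0
      simp only [pow_zero, dvd_zero, if_true] at this ⊢
      rw [this]; simp [h3 hvN]
    · intro i hi hi0
      have := FiniteField.sum_pow_units F i
      rw [if_neg (Nat.not_dvd_of_pos_of_lt (Nat.pos_of_ne_zero hi0) (Finset.mem_range.1 hi))] at this
      rw [← Equiv.sum_comp (Equiv.inv Fˣ) (fun u : Fˣ => (u : F) ^ i)] at this
      exact mul_eq_zero_of_left this _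
    · have := H.big
      intro h; exact absurd (Finset.mem_range.2 (by omega)) h
  obtain ⟨u, hu⟩ : ∃ u, f u v ≠ 0 := by
    by_contra hc
    push Not at hc
    simp [hc] at hsum
  have add : ∀ x ∈ M, ∀ y ∈ M, f u (x * y) = f u x + f u y := fun x hx y hy => by
    simp only [f, ← Finset.sum_add_distrib]
    exact Finset.sum_congr rfl fun i _ => by
      rw [map_mul, h1 _ (hM.pow i x hx) _ (hM.pow i y hy), mul_add]
  have eqv : ∀ x ∈ M, f u (ξ x) = u * f u x := fun x hx => by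
    have e1 := Finset.sum_range_succ (fun i => ((u⁻¹ : Fˣ) : F) ^ i * h ((ξ ^ i) x)) r
    have e2 := Finset.sum_range_succ' (fun i => ((u⁻¹ : Fˣ) : F) ^ i * h ((ξ ^ i) x)) r
    rw [e1, H.ord, FiniteField.pow_card_sub_one_eq_one _ (Units.ne_zero _), pow_zero, pow_zero,
      add_left_inj] at e2
    simp only [f]
    rw [e2, Finset.mul_sum]
    exact Finset.sum_congr rfl fun i _ => by
      rw [pow_succ ξ, MulAut.mul_apply, pow_succ', ← mul_assoc, ← mul_assoc, Units.mul_inv, one_mul]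
  refine ⟨f u, u, Co.mk' hM add eqv ((prim_iff u.ne_zero).2 fun k hk => ?_) hv hu, fun x hx => ?_⟩
  · by_contra hd
    have hK : Inv ξ (kerS M (f u) add) := fun x hx => ⟨hM x hx.1, by rw [eqv x hx.1, hx.2, mul_zero]⟩
    refine hu (fpf_quot (H.fpf k hd) (hK.pow k) (x := v) ⟨M.mul_mem (M.inv_mem hv) (hM.pow k v hv), ?_⟩).2
    rw [add _ (M.inv_mem hv) _ (hM.pow k v hv), add_inv add hv, eqv_pow hM eqv k v hv, hk]
    grind
  · exact Finset.sum_eq_zero fun i _ => by rw [h2 _ (hN.pow i x hx), mul_zero]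

/-- a `ξ`-chief factor of `P` above `N` inside `M` -/
theorem HS0.cover (H : HS0 F ξ) {M N : Subgroup P} [M.Normal] [N.Normal] (hNM : N ≤ M)
    (hM : Inv ξ M) (hN : Inv ξ N) (hne : ¬ M ≤ N) :
    ∃ (C : Subgroup P) (f : P → F) (l : F), N ≤ C ∧ C ≤ M ∧ Co ξ C f l ∧
      (∀ x ∈ C, f x = 0 ↔ x ∈ N) ∧ ∀ x ∈ C, ∀ u, x⁻¹ * u⁻¹ * x * u ∈ N := by
  let π := QuotientGroup.mk' N
  let S : Set (Subgroup P) := {C | N ≤ C ∧ C ≤ M ∧ Inv ξ C ∧ ¬ C ≤ N ∧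
    ∀ x ∈ C, x * x ∈ N ∧ ∀ u, x⁻¹ * u⁻¹ * x * u ∈ N}
  have hS : S.Nonempty := by
    let D : Subgroup P :=
      { carrier := {x | x ∈ M ∧ x * x ∈ N ∧ ∀ u, x⁻¹ * u⁻¹ * x * u ∈ N}
        one_mem' := ⟨M.one_mem, by simpa using N.one_mem, fun u => by simpa using N.one_mem⟩
        mul_mem' := fun {x y} hx hy => ⟨M.mul_mem hx.1 hy.1, by
          have : x * y * (x * y) = x * x * (y * y) * (y⁻¹ * (y⁻¹ * x⁻¹ * y * x) * y) := by group
          rw [this]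
          exact N.mul_mem (N.mul_mem hx.2.1 hy.2.1) (Normal.conj_mem' ‹_› _ (hy.2.2 x) y), fun u => by
          have : (x * y)⁻¹ * u⁻¹ * (x * y) * u =
            y⁻¹ * (x⁻¹ * u⁻¹ * x * u) * y * (y⁻¹ * u⁻¹ * y * u) := by group
          rw [this]
          exact N.mul_mem (Normal.conj_mem' ‹_› _ (hx.2.2 u) y) (hy.2.2 u)⟩
        inv_mem' := fun {x} hx => ⟨M.inv_mem hx.1, by
          simpa using N.inv_mem hx.2.1, fun u => by
          have : x⁻¹⁻¹ * u⁻¹ * x⁻¹ * u = x * (x⁻¹ * u⁻¹ * x * u)⁻¹ * x⁻¹ := by group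
          rw [this]
          exact Normal.conj_mem ‹_› _ (N.inv_mem (hx.2.2 u)) x⟩ }
    refine ⟨D, fun x hx => ⟨hNM hx, N.mul_mem hx hx, fun u => ?_⟩, fun x hx => hx.1,
      fun x hx => ⟨hM x hx.1, by simpa using hN _ hx.2.1, fun u => by
        simpa using hN _ (hx.2.2 (ξ.symm u))⟩, ?_, fun x hx => hx.2⟩
    · rw [mul_assoc, mul_assoc, ← mul_assoc u⁻¹]
      exact N.mul_mem (N.inv_mem hx) (Normal.conj_mem' ‹_› _ hx u)
    · haveI : Fact (Nat.Prime 2) := ⟨Nat.prime_two⟩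
      have hQ := H.two.to_quotient N
      haveI : (M.map π).Normal := Normal.map ‹_› π (QuotientGroup.mk'_surjective N)
      have := H1.inf_center_ne_bot hQ.isNilpotent (M.map π) (fun e => hne (by
        rwa [Subgroup.map_eq_bot_iff, QuotientGroup.ker_mk'] at e))
      haveI := (nontrivial_iff_ne_bot _).2 this
      obtain ⟨⟨z, ⟨x, hx, rfl⟩, hz⟩, ho⟩ := exists_prime_orderOf_dvd_card' (G := ↥(M.map π ⊓ center _)) 2
        ((hQ.to_subgroup _).card_eq_or_dvd.resolve_left Finite.one_lt_card.ne')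
      rw [← orderOf_coe] at ho
      simp only at ho
      intro hD
      have : x ∈ N := hD ⟨hx, by
        rw [← QuotientGroup.eq_one_iff, ← pow_two, ← ho]; exact pow_orderOf_eq_one (π x), fun u => by
        rw [← QuotientGroup.eq_one_iff]
        change (π x)⁻¹ * (π u)⁻¹ * π x * π u = 1
        rw [mul_assoc, ← mem_center_iff.1 hz]; group⟩
      rw [show π x = 1 from (QuotientGroup.eq_one_iff x).2 this] at ho
      simp at ho
  obtain ⟨C, ⟨h1, h2, h3, h4, h5⟩, hmin⟩ := (wellFounded_lt (α := Subgroup P)).has_min S hS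
  obtain ⟨v, hv, hvN⟩ := SetLike.not_le_iff_exists.1 h4
  obtain ⟨f, l, co, hf⟩ := H.coord h1 h3 hN (fun x hx => (h5 x hx).1) hv hvN
  refine ⟨C, f, l, h1, h2, co, fun x hx => ⟨fun h0 => ?_, hf x⟩, fun x hx => (h5 x hx).2⟩
  by_contra hxN
  refine hmin (kerS C f co.add) ⟨fun y hy => ⟨h1 hy, hf y hy⟩, fun y hy => h2 hy.1,
    fun y hy => ⟨h3 y hy.1, by rw [co.eqv y hy.1, hy.2, mul_zero]⟩, fun h => hxN (h ⟨hx, h0⟩),
    fun y hy => h5 y hy.1⟩ (lt_of_le_of_ne (fun y hy => hy.1) fun e => ?_)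
  obtain ⟨y, hy, hy1⟩ := co.surj 1
  have : y ∈ kerS C f co.add := e.symm ▸ hy
  exact one_ne_zero (hy1.symm.trans this.2)

end Hig
end Cfsg.Agent.H7
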