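import Cfsg.Agent.H7.Hig2

/-! Higman's analysis of a maximal abelian normal invariant subgroup of a Suzuki 2-group. -/

set_option autoImplicit false
set_option linter.unusedSectionVars false

open scoped Classical
open Subgroup

namespace Cfsg.Agent.H7
namespace Hig

variable {F : Type*} [Field F] [Fintype F] [CharP F 2] {P : Type*} [Group P]

/-- commutator -/
def cm (x y : P) : P := x⁻¹ * y⁻¹ * x * y

theorem cm_mul_left (x y z : P) : cm (x * y) z = y⁻¹ * cm x z * y * cm y z := by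
  simp only [cm]; group
theorem cm_mul_right (x y z : P) : cm x (y * z) = cm x z * (z⁻¹ * cm x y * z) := by
  simp only [cm]; group
theorem cm_eq_one {x y : P} : cm x y = 1 ↔ x * y = y * x := by
  rw [cm, mul_assoc, mul_assoc, inv_mul_eq_one, eq_inv_mul_iff_mul_eq, eq_comm]
theorem map_cm (ξ : MulAut P) (x y : P) : ξ (cm x y) = cm (ξ x) (ξ y) := by simp [cm]
theorem conj_eq_cm (x y : P) : y⁻¹ * x * y = x * cm x y := by simp only [cm]; group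
theorem cm_inv (x y : P) : (cm x y)⁻¹ = cm y x := by simp only [cm]; group
theorem cm_mem {A : Subgroup P} [h : A.Normal] {a : P} (ha : a ∈ A) (u : P) : cm a u ∈ A := by
  rw [cm, mul_assoc, mul_assoc, ← mul_assoc u⁻¹]
  exact A.mul_mem (A.inv_mem ha) (h.conj_mem' _ ha u)

theorem level [Finite P] (h2 : IsPGroup 2 P) {S : Set P} {s : P} (hs : s ∈ S) (h1 : s ≠ 1) :
    ∃ j, (∀ s ∈ S, s ^ 2 ^ (j + 1) = 1) ∧ ∃ s ∈ S, s ^ 2 ^ j ≠ 1 := by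
  haveI : Fact (Nat.Prime 2) := ⟨Nat.prime_two⟩
  have : ∃ k, ∀ s ∈ S, s ^ 2 ^ k = 1 := by
    obtain ⟨k, hk⟩ := IsPGroup.iff_card.1 h2
    exact ⟨k, fun s _ => hk ▸ pow_card_eq_one'⟩
  have h0 : Nat.find this ≠ 0 := fun e => h1 (by simpa [e] using Nat.find_spec this s hs)
  obtain ⟨j, hj⟩ := Nat.exists_eq_succ_of_ne_zero h0
  refine ⟨j, fun s hs => by simpa [hj] using Nat.find_spec this s hs, ?_⟩
  have := Nat.find_min this (m := j) (by omega)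
  push Not at this
  exact this

theorem pow_sq {a : P} {i : ℕ} (h : a ^ 2 ^ (i + 1) = 1) : a ^ 2 ^ i * a ^ 2 ^ i = 1 := by
  rw [← pow_add, ← two_mul, ← pow_succ', h]

/-- abelian normal invariant subgroups -/
structure AN (ξ : MulAut P) (A : Subgroup P) : Prop where
  nor : A.Normal
  inv : Inv ξ A
  comm : ∀ a ∈ A, ∀ b ∈ A, Commute a b

theorem AN.cm_mul {ξ : MulAut P} {A : Subgroup P} (h : AN ξ A) {a b : P} (ha : a ∈ A) (hb : b ∈ A)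
    (u : P) : cm (a * b) u = cm a u * cm b u := by
  haveI := h.nor
  rw [cm_mul_left, mul_assoc b⁻¹, h.comm _ (cm_mem ha u) _ hb, inv_mul_cancel_left]

theorem AN.cm_pow {ξ : MulAut P} {A : Subgroup P} (h : AN ξ A) {a : P} (ha : a ∈ A)
    (u : P) (n : ℕ) : cm (a ^ n) u = cm a u ^ n := by
  induction n with
  | zero => simp [cm]
  | succ n ih => rw [pow_succ, h.cm_mul (A.pow_mem ha n) ha, ih, pow_succ]

theorem exists_maxAN [Finite P] {ξ : MulAut P} {B : Subgroup P} (hB : AN ξ B) :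
    ∃ A, B ≤ A ∧ AN ξ A ∧ ∀ C, AN ξ C → A ≤ C → C ≤ A := by
  obtain ⟨A, ⟨h1, h2⟩, h3⟩ := (wellFounded_gt (α := Subgroup P)).has_min {A | B ≤ A ∧ AN ξ A}
    ⟨B, le_rfl, hB⟩
  exact ⟨A, h1, h2, fun C hC hAC => by
    by_contra h
    exact h3 C ⟨h1.trans hAC, hC⟩ (lt_of_le_not_ge hAC h)⟩

theorem center_le_max {ξ : MulAut P} {A : Subgroup P} (hA : AN ξ A)
    (hm : ∀ C, AN ξ C → A ≤ C → C ≤ A) : center P ≤ A := by
  haveI := hA.nor
  have hmem : ∀ x ∈ A ⊔ center P, ∃ a ∈ A, ∃ z ∈ center P, a * z = x := fun x hx =>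
    mem_sup_of_normal_right.1 hx
  refine le_sup_right.trans (hm (A ⊔ center P) ⟨inferInstance, fun x hx => ?_, fun x hx y hy => ?_⟩
    le_sup_left)
  · obtain ⟨a, ha, z, hz, rfl⟩ := hmem x hx
    rw [map_mul]
    exact mul_mem_sup (hA.inv a ha) (Inv.char ξ _ z hz)
  · obtain ⟨a, ha, z, hz, rfl⟩ := hmem x hx
    obtain ⟨b, hb, w, hw, rfl⟩ := hmem y hy
    exact ((hA.comm a ha b hb).mul_right (mem_center_iff.1 hw a)).mul_left
      (mem_center_iff.1 hz _).symm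

variable [Finite P]

/-- the set-up with a coordinate on the involutions -/
structure HS (ξ : MulAut P) (g : P → F) (m : F) : Prop extends HS0 F ξ where
  cen : ∀ x : P, x * x = 1 → x ∈ center P
  add : ∀ x y : P, x * x = 1 → y * y = 1 → g (x * y) = g x + g y
  ker : ∀ x : P, x * x = 1 → g x = 0 → x = 1
  eqv : ∀ x : P, x * x = 1 → g (ξ x) = m * g x
  surj : ∀ c, ∃ x : P, x * x = 1 ∧ g x = c
  prim : Prim m

variable {ξ : MulAut P} {g : P → F} {m : F} {A C : Subgroup P} {f : P → F} {l : F}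

namespace HS

theorem g1 (H : HS ξ g m) : g 1 = 0 := by simpa using H.add 1 1 (by simp) (by simp)

theorem conj (H : HS ξ g m) {x : P} (hx : x * x = 1) (u : P) : u⁻¹ * x * u = x := by
  rw [mul_assoc, ← mem_center_iff.1 (H.cen x hx), inv_mul_cancel_left]

theorem γ_add (H : HS ξ g m) {a b : P} {i : ℕ} (hc : Commute a b) (ha : a ^ 2 ^ (i + 1) = 1)
    (hb : b ^ 2 ^ (i + 1) = 1) : g ((a * b) ^ 2 ^ i) = g (a ^ 2 ^ i) + g (b ^ 2 ^ i) := by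
  rw [hc.mul_pow, H.add _ _ (pow_sq ha) (pow_sq hb)]

theorem γ_conj (H : HS ξ g m) {a : P} {i : ℕ} (ha : a ^ 2 ^ (i + 1) = 1) (u : P) :
    (u⁻¹ * a * u) ^ 2 ^ i = a ^ 2 ^ i := by
  have := conj_pow (i := 2 ^ i) (a := u⁻¹) (b := a)
  rw [inv_inv] at this
  rw [this, H.conj (pow_sq ha)]

theorem γ_eqv (H : HS ξ g m) {a : P} {i : ℕ} (ha : a ^ 2 ^ (i + 1) = 1) :
    g (ξ a ^ 2 ^ i) = m * g (a ^ 2 ^ i) := by
  rw [← map_pow, H.eqv _ (pow_sq ha)]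

theorem γ_zero (H : HS ξ g m) {a : P} {i : ℕ} (ha : a ^ 2 ^ (i + 1) = 1) :
    g (a ^ 2 ^ i) = 0 ↔ a ^ 2 ^ i = 1 :=
  ⟨H.ker _ (pow_sq ha), fun h => by rw [h, H.g1]⟩

theorem γ_surj (H : HS ξ g m) (hA : Inv ξ A) {a : P} (ha : a ∈ A) {i : ℕ}
    (h1 : a ^ 2 ^ (i + 1) = 1) (h2 : a ^ 2 ^ i ≠ 1) (c : F) :
    ∃ b ∈ A, b ^ 2 ^ (i + 1) = 1 ∧ g (b ^ 2 ^ i) = c := by
  by_cases hc : c = 0
  · exact ⟨1, A.one_mem, by simp, by simp [hc, H.g1]⟩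
  have h0 := (H.γ_zero h1).not.2 h2
  obtain ⟨k, hk⟩ := H.prim.2 (c / g (a ^ 2 ^ i)) (div_ne_zero hc h0)
  have h3 : ∀ k : ℕ, ((ξ ^ k) a) ^ 2 ^ (i + 1) = 1 := fun k => by rw [← map_pow, h1, map_one]
  have : ∀ k : ℕ, g ((ξ ^ k) a ^ 2 ^ i) = m ^ k * g (a ^ 2 ^ i) := fun k => by
    induction k with
    | zero => simp
    | succ k ih => rw [pow_succ', MulAut.mul_apply, H.γ_eqv (h3 k), ih]; ring
  exact ⟨_, hA.pow k a ha, h3 k, by rw [this, hk]; field_simp⟩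

theorem co_top (H : HS ξ g m) (hA : AN ξ A) {e : ℕ} (he : ∀ a ∈ A, a ^ 2 ^ (e + 1) = 1)
    {a₀ : P} (h₀ : a₀ ∈ A) (h₁ : a₀ ^ 2 ^ e ≠ 1) : Co ξ A (fun a => g (a ^ 2 ^ e)) m :=
  Co.mk' hA.inv (fun x hx y hy => H.γ_add (hA.comm x hx y hy) (he x hx) (he y hy))
    (fun x hx => H.γ_eqv (he x hx)) H.prim h₀ ((H.γ_zero (he _ h₀)).not.2 h₁)

theorem sq (H : HS ξ g m) (hA : AN ξ A) {e : ℕ} (he : ∀ a ∈ A, a ^ 2 ^ (e + 1) = 1)
    {a₀ : P} (h₀ : a₀ ∈ A) (h₁ : a₀ ^ 2 ^ e ≠ 1) :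
    ∀ i ≤ e, ∀ a ∈ A, a ^ 2 ^ i = 1 → ∃ b ∈ A, b * b = a := by
  intro i
  induction i with
  | zero => exact fun _ a _ h => ⟨1, A.one_mem, by simpa using h.symm⟩
  | succ i ih =>
    intro hi a ha h
    obtain ⟨d, rfl⟩ := Nat.exists_eq_add_of_le hi
    obtain ⟨b, hb, h1, h2⟩ := H.γ_surj hA.inv (A.pow_mem h₀ (2 ^ d)) (i := i + 1)
      (by rw [← pow_mul, ← pow_add, ← he _ h₀]; congr 2; omega)
      (by rwa [← pow_mul, ← pow_add, add_comm]) (g (a ^ 2 ^ i))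
    have hbb : (b * b) ^ 2 ^ i = b ^ 2 ^ (i + 1) := by rw [← pow_two, ← pow_mul, ← pow_succ']
    have hbb' : (b * b) ^ 2 ^ (i + 1) = 1 := by rw [← pow_two, ← pow_mul, ← pow_succ', h1]
    have hc := hA.comm a ha _ (A.mul_mem hb hb)
    obtain ⟨d, hd, e⟩ := ih (by omega) (a * (b * b)) (A.mul_mem ha (A.mul_mem hb hb)) (by
      rw [← H.γ_zero (by rw [hc.mul_pow, h, hbb', one_mul]), H.γ_add hc h hbb', hbb, h2]
      grind)
    refine ⟨d * b⁻¹, A.mul_mem hd (A.inv_mem hb), ?_⟩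
    rw [(hA.comm d hd _ (A.inv_mem hb)).symm.mul_mul_mul_comm, e]; group

theorem cm_lower (H : HS ξ g m) (hA : AN ξ A) {a : P} (ha : a ∈ A) {i : ℕ}
    (h : a ^ 2 ^ (i + 1) = 1) (u : P) : cm a u ^ 2 ^ i = 1 := by
  rw [← hA.cm_pow ha, cm_eq_one, mem_center_iff.1 (H.cen _ (pow_sq h))]

theorem t_addl (H : HS ξ g m) (hA : AN ξ A) {a : P} (ha : a ∈ A) {j : ℕ} {u v : P}
    (hu : cm a u ^ 2 ^ (j + 1) = 1) (hv : cm a v ^ 2 ^ (j + 1) = 1) :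
    g (cm a (u * v) ^ 2 ^ j) = g (cm a u ^ 2 ^ j) + g (cm a v ^ 2 ^ j) := by
  haveI := hA.nor
  have := conj_pow (i := 2 ^ (j + 1)) (a := v⁻¹) (b := cm a u)
  rw [inv_inv, hu] at this
  rw [cm_mul_right, H.γ_add (hA.comm _ (cm_mem ha v) _ (hA.nor.conj_mem' _ (cm_mem ha u) v)) hv
    (by rw [this]; simp), H.γ_conj hu, add_comm]

theorem t_addr (H : HS ξ g m) (hA : AN ξ A) {a b : P} (ha : a ∈ A) (hb : b ∈ A) {j : ℕ} {u : P}
    (hu : cm a u ^ 2 ^ (j + 1) = 1) (hv : cm b u ^ 2 ^ (j + 1) = 1) :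
    g (cm (a * b) u ^ 2 ^ j) = g (cm a u ^ 2 ^ j) + g (cm b u ^ 2 ^ j) := by
  haveI := hA.nor
  rw [hA.cm_mul ha hb, H.γ_add (hA.comm _ (cm_mem ha u) _ (cm_mem hb u)) hu hv]

theorem mem_of_sq (H : HS ξ g m) (hA : Inv ξ A) {a : P} (ha : a ∈ A) (h1 : a ≠ 1) {x : P}
    (hx : x * x = 1) : x ∈ A := by
  obtain ⟨j, h2, s, rfl, h3⟩ := level H.two (S := {a}) rfl h1
  obtain ⟨b, hb, h4, h5⟩ := H.γ_surj hA ha (h2 _ rfl) h3 (g x)
  have := H.ker (b ^ 2 ^ j * x) (by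
    rw [mul_assoc, ← mul_assoc x, ← mem_center_iff.1 (H.cen x hx), mul_assoc, hx, mul_one, pow_sq h4])
    (by rw [H.add _ _ (pow_sq h4) hx, h5]; grind)
  rw [← inv_eq_of_mul_eq_one_right this]
  exact A.inv_mem (A.pow_mem hb _)

theorem step2 (H : HS ξ g m) (hA : AN ξ A) {e : ℕ} (he : ∀ a ∈ A, a ^ 2 ^ (e + 1) = 1)
    {a₀ : P} (h₀ : a₀ ∈ A) (h₁ : a₀ ≠ 1) {u b : P} (hb : b ∈ A) (hu : u * u = b * b)
    (h4 : ∀ a ∈ A, ∃ b ∈ A, cm a u = b ^ 4) : u ∈ A := by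
  haveI := hA.nor
  have hψ : ∀ a ∈ A, ∀ c ∈ A, a * c * (a * c) * cm (a * c) u = a * a * cm a u * (c * c * cm c u) := by
    intro a ha c hc
    rw [hA.cm_mul ha hc, (hA.comm c hc a ha).mul_mul_mul_comm,
      (hA.comm _ (A.mul_mem hc hc) _ (cm_mem ha u)).mul_mul_mul_comm]
  have key : ∀ j i, i + j = e + 1 → ∀ a ∈ A, ∃ c ∈ A, c * c * cm c u = a ^ 2 ^ i * a ^ 2 ^ i := by
    intro j
    induction j with
    | zero => exact fun i hi a ha => ⟨1, A.one_mem, by rw [show i = e + 1 by omega, he a ha]; simp [cm]⟩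
    | succ j ih =>
      intro i hi a ha
      obtain ⟨d, hd, e1⟩ := h4 a ha
      obtain ⟨c, hc, e2⟩ := ih (i + 1) (by omega) d⁻¹ (A.inv_mem hd)
      refine ⟨a ^ 2 ^ i * c, A.mul_mem (A.pow_mem ha _) hc, ?_⟩
      rw [hψ _ (A.pow_mem ha _) _ hc, e2, hA.cm_pow ha, e1, mul_assoc, ← pow_mul, inv_pow,
        show 4 * 2 ^ i = 2 ^ (i + 1) + 2 ^ (i + 1) by ring, pow_add]
      group
  obtain ⟨c, hc, e1⟩ := key (e + 1) 0 (by omega) b⁻¹ (A.inv_mem hb)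
  have : u * c * (u * c) = 1 := by
    calc u * c * (u * c) = u * u * (u⁻¹ * c * u) * c := by group
      _ = b * b * (c * c * cm c u) := by
        rw [hu, conj_eq_cm, mul_assoc, mul_assoc c, hA.comm _ (cm_mem hc u) _ hc, ← mul_assoc c]
      _ = 1 := by rw [e1]; group
  simpa using A.mul_mem (H.mem_of_sq hA.inv h₀ h₁ this) (A.inv_mem hc)

end HS

theorem exists_three (h4 : 2 < Fintype.card F) : ∃ x y : F, x ≠ 0 ∧ y ≠ 0 ∧ x + y ≠ 0 := by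
  obtain ⟨a, b, c, hab, hac, hbc⟩ := Fintype.two_lt_card_iff.1 h4
  exact ⟨a + b, a + c, by grind, by grind, by grind⟩

/-- a maximal abelian normal invariant subgroup `A` of exponent `2^(e+1)` and a cover `C` -/
structure Cov (ξ : MulAut P) (A C : Subgroup P) (e : ℕ) (f : P → F) (l : F) : Prop where
  an : AN ξ A
  max : ∀ C, AN ξ C → A ≤ C → C ≤ A
  exp : ∀ a ∈ A, a ^ 2 ^ (e + 1) = 1
  exp' : ∃ a ∈ A, a ^ 2 ^ e ≠ 1
  le : A ≤ C
  co : Co ξ C f l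
  ker : ∀ x ∈ C, f x = 0 ↔ x ∈ A
  cen : ∀ x ∈ C, ∀ u, cm x u ∈ A

variable {e : ℕ}

theorem Cov.sq_mem (c : Cov ξ A C e f l) {u : P} (hu : u ∈ C) : u * u ∈ A :=
  (c.ker _ (C.mul_mem hu hu)).1 (by rw [c.co.add _ hu _ hu]; grind)

theorem Cov.caseI (H : HS ξ g m) (c : Cov ξ A C e f l) (hI : ∀ u ∈ C, g ((u * u) ^ 2 ^ e) = 0) :
    e = 1 ∧ ∀ u ∈ C, u ∉ A → ∀ a ∈ A, a * a ≠ 1 → cm a u ≠ 1 := by
  obtain ⟨a₀, h₀, h₁⟩ := c.exp'
  have hA := c.an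
  haveI := hA.nor
  have ha₀ : a₀ ≠ 1 := fun h => h₁ (by simp [h])
  obtain ⟨u₀, hu₀, hu₁⟩ := c.co.surj 1
  have hu₀A : u₀ ∉ A := fun h => one_ne_zero (hu₁.symm.trans ((c.ker _ hu₀).2 h))
  have hI' : ∀ u ∈ C, (u * u) ^ 2 ^ e = 1 := fun u hu => (H.γ_zero (c.exp _ (c.sq_mem hu))).1 (hI u hu)
  obtain ⟨d, rfl⟩ : ∃ d, e = d + 1 := Nat.exists_eq_succ_of_ne_zero fun h0 =>
    hu₀A (H.mem_of_sq hA.inv h₀ ha₀ (by simpa [h0] using hI' u₀ hu₀))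
  have hl : ∀ a ∈ A, ∀ u, cm a u ^ 2 ^ (d + 1) = 1 := fun a ha => H.cm_lower hA ha (c.exp a ha)
  have coA := H.co_top hA c.exp h₀ h₁
  have hsq := H.sq hA c.exp h₀ h₁
  have s2 : ∀ u ∈ C, (∀ a ∈ A, g (cm a u ^ 2 ^ d) = 0) → u ∈ A := fun u hu h => by
    obtain ⟨b, hb, e⟩ := hsq _ le_rfl _ (c.sq_mem hu) (hI' u hu)
    refine H.step2 hA c.exp h₀ ha₀ hb e.symm fun a ha => ?_
    have h1 := (H.γ_zero (hl a ha u)).1 (h a ha)
    obtain ⟨y, hy, e1⟩ := hsq d (by omega) _ (cm_mem ha u) h1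
    obtain ⟨z, hz, e2⟩ := hsq (d + 1) le_rfl y hy (by rw [pow_succ', pow_mul, pow_two, e1, h1])
    exact ⟨z, hz, by rw [← e1, ← e2, show 4 = 2 + 2 from rfl, pow_add, pow_two]⟩
  have ti : ∀ u ∈ C, u ∉ A → ∀ a ∈ A, g (a ^ 2 ^ (d + 1)) ≠ 0 → g (cm a u ^ 2 ^ d) ≠ 0 := by
    intro u hu huA a ha h0 h1
    refine hu₀A (s2 u₀ hu₀ (inj_grp H.big c.co coA (fun u a => g (cm a u ^ 2 ^ d))
      (fun u _ v _ a ha => H.t_addl hA ha (hl a ha u) (hl a ha v))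
      (fun u _ a ha b hb => H.t_addr hA ha hb (hl a ha u) (hl b hb u))
      (fun u hu a ha h => ?_) (fun u hu a ha h => ?_) (fun u hu a ha => ?_) hu ha
      ((c.ker u hu).not.2 huA) h0 h1 u₀ hu₀))
    · rw [cm_eq_one.2 (hA.comm a ha u ((c.ker u hu).1 h)), one_pow, H.g1]
    · rw [H.cm_lower hA ha ((H.γ_zero (c.exp a ha)).1 h), H.g1]
    · rw [← map_cm, H.γ_eqv (hl a ha u)]
  have hd : d = 0 := by
    by_contra hd
    obtain ⟨d, rfl⟩ := Nat.exists_eq_succ_of_ne_zero hd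
    have key : ∀ u ∈ C, u ∉ A → ∀ a ∈ A, g (cm a u ^ 2 ^ (d + 1)) = g (a ^ 2 ^ (d + 2)) := by
      intro u hu huA a ha
      obtain ⟨b, hb, e1⟩ := hsq _ le_rfl _ (cm_mem ha u) (hl a ha u)
      have e2 : g (b ^ 2 ^ (d + 2)) = g (cm a u ^ 2 ^ (d + 1)) := by
        rw [← e1, ← pow_two, ← pow_mul, ← pow_succ']
      have e3 := cm_mul_right a u u
      rw [cm_eq_one.2 (hA.comm a ha _ (c.sq_mem hu)), conj_eq_cm] at e3
      have e4 : cm (cm a u) u = cm b u * cm b u := by rw [← e1, hA.cm_mul hb hb]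
      have e5 : cm (a * b) u ^ 2 ^ (d + 1) = 1 := by
        rw [hA.cm_mul ha hb, pow_succ', pow_mul, pow_two,
          (hA.comm _ (cm_mem hb u) _ (cm_mem ha u)).mul_mul_mul_comm, ← e4, mul_assoc, ← e3, one_pow]
      have e6 : g ((a * b) ^ 2 ^ (d + 2)) = 0 := by
        by_contra h
        exact ti u hu huA _ (A.mul_mem ha hb) h (by rw [e5, H.g1])
      have e7 := coA.add a ha b hb

      rw [e6, e2] at e7
      grind
    obtain ⟨x, y, hx, hy, hxy⟩ := exists_three H.big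
    obtain ⟨u, hu, rfl⟩ := c.co.surj x
    obtain ⟨v, hv, rfl⟩ := c.co.surj y
    have e1 := H.t_addl hA h₀ (hl _ h₀ u) (hl _ h₀ v)
    rw [key u hu ((c.ker u hu).not.1 hx) _ h₀, key v hv ((c.ker v hv).not.1 hy) _ h₀,
      key _ (C.mul_mem hu hv) ((c.ker _ (C.mul_mem hu hv)).not.1 (by rwa [c.co.add _ hu _ hv])) _ h₀]
      at e1
    exact (H.γ_zero (c.exp _ h₀)).not.2 h₁ (by grind)
  subst hd
  refine ⟨rfl, fun u hu huA a ha h e => ti u hu huA a ha ((H.γ_zero (c.exp a ha)).not.2 ?_) ?_⟩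
  · simpa [pow_two] using h
  · rw [e, one_pow, H.g1]

theorem Cov.caseII (H : HS ξ g m) (c : Cov ξ A C e f l) {u₀ : P} (hu₀ : u₀ ∈ C)
    (hII : g ((u₀ * u₀) ^ 2 ^ e) ≠ 0) : e = 0 := by
  obtain ⟨a₀, h₀, h₁⟩ := c.exp'
  have hA := c.an
  haveI := hA.nor
  have coA := H.co_top hA c.exp h₀ h₁
  have hsq := H.sq hA c.exp h₀ h₁
  have hQA : ∀ a ∈ A, (a * a) ^ 2 ^ e = 1 := fun a ha => by
    rw [← pow_two, ← pow_mul, ← pow_succ', c.exp a ha]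
  have hu₀A : u₀ ∉ A := fun h => hII (by rw [hQA _ h, H.g1])
  have hQ : ∀ u ∈ C, ∀ a ∈ A, g ((u * a * (u * a)) ^ 2 ^ e) = g ((u * u) ^ 2 ^ e) := by
    intro u hu a ha
    have : u * a * (u * a) = u * u * (a * a * cm a u) := by
      calc u * a * (u * a) = u * u * (u⁻¹ * a * u) * a := by group
        _ = _ := by rw [conj_eq_cm, mul_assoc, mul_assoc a, hA.comm _ (cm_mem ha u) _ ha, ← mul_assoc a]
    have e1 := coA.add _ (c.sq_mem hu) _ (A.mul_mem (A.mul_mem ha ha) (cm_mem ha u))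

    rw [this, e1, (hA.comm _ (A.mul_mem ha ha) _ (cm_mem ha u)).mul_pow, hQA a ha,
      H.cm_lower hA ha (c.exp a ha), one_mul, H.g1, add_zero]
  have hQe : ∀ u ∈ C, g ((ξ u * ξ u) ^ 2 ^ e) = m * g ((u * u) ^ 2 ^ e) := fun u hu => by
    rw [← map_mul, H.γ_eqv (c.exp _ (c.sq_mem hu))]
  have hQ0 : ∀ u ∈ C, g ((u * u) ^ 2 ^ e) = 0 → u ∈ A := fun u hu h => by
    by_contra huA
    obtain ⟨k, hk⟩ := c.co.prim.2 (f u / f u₀) (div_ne_zero ((c.ker u hu).not.2 huA)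
      ((c.ker _ hu₀).not.2 hu₀A))
    have hk1 := c.co.inv.pow k _ hu₀
    have : ((ξ ^ k) u₀)⁻¹ * u ∈ A := (c.ker _ (C.mul_mem (C.inv_mem hk1) hu)).1 (by
      rw [c.co.add _ (C.inv_mem hk1) _ hu, add_inv c.co.add hk1, eqv_pow c.co.inv c.co.eqv k _ hu₀, hk,
        div_mul_cancel₀ _ ((c.ker _ hu₀).not.2 hu₀A)]
      grind)
    have e1 := hQ _ hk1 _ this
    rw [mul_inv_cancel_left, h, eqv_pow c.co.inv (f := fun u => g ((u * u) ^ 2 ^ e)) hQe k _ hu₀] at e1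
    exact mul_ne_zero (pow_ne_zero _ H.prim.1) hII e1.symm
  have hAC : ∀ a ∈ A, ∀ u ∈ C, cm a u = 1 := by
    by_contra hc
    push Not at hc
    obtain ⟨a, ha, u, hu, h1⟩ := hc
    obtain ⟨j, h2, _, ⟨a, ha, u, hu, rfl⟩, h3⟩ := level H.two (S := {s | ∃ a ∈ A, ∃ u ∈ C, cm a u = s})
      ⟨a, ha, u, hu, rfl⟩ h1
    have hl : ∀ a ∈ A, ∀ u ∈ C, cm a u ^ 2 ^ (j + 1) = 1 := fun a ha u hu => h2 _ ⟨a, ha, u, hu, rfl⟩
    refine (H.γ_zero (hl a ha u hu)).not.2 h3 (inj_grp H.big c.co coA (fun u a => g (cm a u ^ 2 ^ j))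
      (fun u hu v hv a ha => H.t_addl hA ha (hl a ha u hu) (hl a ha v hv))
      (fun u hu a ha b hb => H.t_addr hA ha hb (hl a ha u hu) (hl b hb u hu))
      (fun u hu a ha h => ?_) (fun u hu a ha h => ?_) (fun u hu a ha => ?_) hu₀ (c.sq_mem hu₀)
      ((c.ker _ hu₀).not.2 hu₀A) hII ?_ u hu a ha)
    · rw [cm_eq_one.2 (hA.comm a ha u ((c.ker u hu).1 h)), one_pow, H.g1]
    · obtain ⟨b, hb, rfl⟩ := hsq _ le_rfl a ha ((H.γ_zero (c.exp a ha)).1 h)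
      rw [hA.cm_mul hb hb, ← pow_two, ← pow_mul, ← pow_succ', hl b hb u hu, H.g1]
    · rw [← map_cm, H.γ_eqv (hl a ha u hu)]
    · rw [cm_eq_one.2 (mul_assoc _ _ _), one_pow, H.g1]
  have hcj : ∀ a ∈ A, ∀ u ∈ C, u⁻¹ * a * u = a := fun a ha u hu => by
    rw [conj_eq_cm, hAC a ha u hu, mul_one]
  have hc2 : ∀ u ∈ C, ∀ v ∈ C, cm u v * cm u v = 1 := fun u hu v hv => by
    have := cm_mul_right u v v
    rwa [hcj _ (c.cen u hu v) v hv, ← cm_inv, hAC _ (c.sq_mem hv) u hu, inv_one, eq_comm] at this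
  by_contra he
  obtain ⟨d, rfl⟩ := Nat.exists_eq_succ_of_ne_zero he
  have coQ : Co ξ C (fun u => g ((u * u) ^ 2 ^ (d + 1))) m := Co.mk' c.co.inv (fun u hu v hv => by
    have : u * v * (u * v) = u * u * (v * v * cm v u) := by
      calc u * v * (u * v) = u * u * (v * v * (v⁻¹ * cm v u * v)) * (v⁻¹ * v) := by
            simp only [cm]; group
        _ = _ := by rw [hcj _ (c.cen v hv u) v hv]; group
    have e1 := coA.add _ (c.sq_mem hu) _ (A.mul_mem (c.sq_mem hv) (c.cen v hv u))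
    have e2 := coA.add _ (c.sq_mem hv) _ (c.cen v hv u)
    rw [this, e1, e2, pow_succ' 2 d, pow_mul (cm v u), pow_two, hc2 v hv u hu, one_pow, H.g1, add_zero])
    hQe H.prim hu₀ hII
  have := inj_grp H.big coQ coQ (fun u v => g (cm u v))
    (fun u hu v hv w hw => by
      rw [cm_mul_left, hcj _ (c.cen u hu w) v hv, H.add _ _ (hc2 u hu w hw) (hc2 v hv w hw)])
    (fun u hu v hv w hw => by
      rw [cm_mul_right, hcj _ (c.cen u hu v) w hw, H.add _ _ (hc2 u hu w hw) (hc2 u hu v hv), add_comm])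
    (fun u hu v hv h => by rw [hAC u (hQ0 u hu h) v hv, H.g1])
    (fun u hu v hv h => by rw [← cm_inv, hAC v (hQ0 v hv h) u hu, inv_one, H.g1])
    (fun u hu v hv => by rw [← map_cm, H.eqv _ (hc2 u hu v hv)]) hu₀ hu₀ hII hII
    (by rw [cm_eq_one.2 rfl, H.g1])
  refine hu₀A (c.max C ⟨⟨fun x hx u => ?_⟩, c.co.inv, fun u hu v hv =>
    cm_eq_one.1 (H.ker _ (hc2 u hu v hv) (this u hu v hv))⟩ c.le hu₀)
  have := conj_eq_cm x u⁻¹
  rw [inv_inv] at this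
  rw [this]
  exact C.mul_mem hx (c.le (c.cen x hx _))

end Hig
end Cfsg.Agent.H7
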