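import Cfsg.Agent.H7.Hig3
import Cfsg.Prelude.Def_LieRecognition

/-! Higman's theorem: centre, exponent and order of a Suzuki 2-group. -/

set_option autoImplicit false
set_option linter.unusedSectionVars false

open scoped Classical
open Subgroup commutatorElement

namespace Cfsg.Agent.H7
namespace Hig

variable {F : Type*} [Field F] [Fintype F] [CharP F 2] {P : Type*} [Group P] [Finite P]
variable {ξ : MulAut P} {g : P → F} {m : F} {A C : Subgroup P} {f : P → F} {l : F}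

theorem fix_unique (h4 : 2 < Fintype.card F) {T : F →+ F →+ F} {l m : F} (hl : Prim l) (hm : Prim m)
    (h : ∀ x y, T (l * x) (m * y) = m * T x y) {x a b : F} (ha : a ≠ 0) (hb : b ≠ 0)
    (h1 : T x a = a) (h2 : T x b = b) : a = b := by
  have hx : x ≠ 0 := fun e => ha (by rw [← h1, e]; simp)
  have hk : ∀ k : ℕ, T (l ^ k * x) (m ^ k * a) = m ^ k * a := fun k => by
    induction k with
    | zero => simpa using h1
    | succ k ih => rw [pow_succ', pow_succ', mul_assoc, mul_assoc, h, ih]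
  obtain ⟨k, e⟩ := hm.2 (b / a) (div_ne_zero hb ha)
  have e' : m ^ k * a = b := by rw [e]; field_simp
  have h3 := hk k
  rw [e'] at h3
  have h5 : l ^ k * x + x = 0 := by
    by_contra h0
    exact ha (h1.symm.trans (inj h4 hl hm h h0 hb (by
      rw [map_add, AddMonoidHom.add_apply, h3, h2]; grind) _ _))
  have h6 : l ^ k = 1 := mul_right_cancel₀ hx (by grind)
  rw [← e', hl.pow_eq_one hm h6, one_mul]

namespace HS

theorem exists_cov (H : HS ξ g m) (hA : AN ξ A) (hm : ∀ C, AN ξ C → A ≤ C → C ≤ A) {e : ℕ}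
    (he : ∀ a ∈ A, a ^ 2 ^ (e + 1) = 1) (he' : ∃ a ∈ A, a ^ 2 ^ e ≠ 1) {M : Subgroup P} [M.Normal]
    (hM : Inv ξ M) (hAM : A ≤ M) (hne : ¬ M ≤ A) :
    ∃ (C : Subgroup P) (f : P → F) (l : F), C ≤ M ∧ Cov ξ A C e f l := by
  haveI := hA.nor
  obtain ⟨C, f, l, h1, h2, h3, h4, h5⟩ := H.toHS0.cover hAM hM hA.inv hne
  exact ⟨C, f, l, h2, hA, hm, he, he', h1, h3, h4, h5⟩

theorem exists_exp (H : HS ξ g m) (hZ : center P ≤ A) :
    ∃ e, (∀ a ∈ A, a ^ 2 ^ (e + 1) = 1) ∧ ∃ a ∈ A, a ^ 2 ^ e ≠ 1 := by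
  obtain ⟨z, hz, h1⟩ := H.surj 1
  exact level H.two (S := A) (hZ (H.cen z hz)) fun e => by simp [e, H.g1] at h1

theorem top_not_le (hA : AN ξ A) (hna : ∃ x y : P, x * y ≠ y * x) : ¬ ⊤ ≤ A := fun h => by
  obtain ⟨x, y, hxy⟩ := hna
  exact hxy (hA.comm x (h trivial) y (h trivial))

theorem center_sq (H : HS ξ g m) (hna : ∃ x y : P, x * y ≠ y * x) {z : P} (hz : z ∈ center P) :
    z * z = 1 := by
  obtain ⟨A, -, hA, hm⟩ := exists_maxAN (ξ := ξ) (B := ⊥) ⟨inferInstance, Inv.char ξ _, by simp⟩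
  have hZ := center_le_max hA hm
  obtain ⟨e, he, he'⟩ := H.exists_exp hZ
  obtain ⟨C, f, l, -, c⟩ := H.exists_cov hA hm he he' (M := ⊤) (Inv.char ξ _) le_top
    (top_not_le hA hna)
  by_cases hI : ∀ u ∈ C, g ((u * u) ^ 2 ^ e) = 0
  · obtain ⟨u, hu, h1⟩ := c.co.surj 1
    by_contra h
    exact (c.caseI H hI).2 u hu (fun h => one_ne_zero (h1.symm.trans ((c.ker u hu).2 h))) z (hZ hz) h
      (cm_eq_one.2 (mem_center_iff.1 hz u).symm)
  · push Not at hI
    obtain ⟨u, hu, h⟩ := hI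
    have := he z (hZ hz)
    rwa [c.caseII H hu h, zero_add, pow_one, pow_two] at this

theorem cm_sq (H : HS ξ g m) {a x : P} (h : cm a x * cm a x = 1) : cm a (x * x) = 1 := by
  rw [cm_mul_right, H.conj h, h]

theorem exists_AN4 (H : HS ξ g m) (hna : ∃ x y : P, x * y ≠ y * x) {v : P}
    (hv : v * v * (v * v) ≠ 1) : ∃ C, AN ξ C ∧ ∃ c ∈ C, c * c ≠ 1 := by
  have e1 : ∀ x u : P, cm x u = ⁅x⁻¹, u⁻¹⁆ := fun x u => by simp [cm, commutatorElement_def]
  have e2 : ∀ x u : P, ⁅x, u⁆ = cm x⁻¹ u⁻¹ := fun x u => by simp [cm, commutatorElement_def]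
  let Z2 := Subgroup.upperCentralSeries P 2
  have hZ2 : ∀ x : P, x ∈ Z2 ↔ ∀ u, ⁅x, u⁆ ∈ center P := fun x => by
    rw [Subgroup.mem_upperCentralSeries_succ_iff, Subgroup.upperCentralSeries_one]
  obtain ⟨C, f, l, h1, h2, co, h4, h5⟩ := H.toHS0.cover (M := centralizer (Z2 : Set P)) (N := center P)
    (center_le_centralizer _) (Inv.char ξ _) (Inv.char ξ _) fun h => hv (H.center_sq hna (h fun x hx =>
      cm_eq_one.1 (H.cm_sq (H.center_sq hna (e1 x v ▸ (hZ2 _).1 (Z2.inv_mem hx) _)))))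
  refine ⟨C, ⟨⟨fun x hx u => ?_⟩, co.inv, fun x hx y hy =>
    h2 hy x ((hZ2 x).2 fun u => e2 x u ▸ h5 _ (C.inv_mem hx) _)⟩, ?_⟩
  · have := conj_eq_cm x u⁻¹
    rw [inv_inv] at this
    rw [this]
    exact C.mul_mem hx (h1 (h5 x hx _))
  · obtain ⟨c, hc, h⟩ := co.surj 1
    exact ⟨c, hc, fun e => one_ne_zero (h.symm.trans ((h4 c hc).2 (H.cen c e)))⟩

theorem pow_four (H : HS ξ g m) (hna : ∃ x y : P, x * y ≠ y * x) (v : P) : v * v * (v * v) = 1 := by
  by_contra hv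
  obtain ⟨C₀, hC₀, c₀, hc₀, hc₁⟩ := H.exists_AN4 hna hv
  obtain ⟨A, hCA, hA, hm⟩ := exists_maxAN hC₀
  haveI := hA.nor
  obtain ⟨e, he, he'⟩ := H.exists_exp (center_le_max hA hm)
  have he0 : e ≠ 0 := fun h => hc₁ (by simpa [h, pow_two] using he c₀ (hCA hc₀))
  have hI : ∀ {C : Subgroup P} {f : P → F} {l : F}, Cov ξ A C e f l → ∀ u ∈ C, g ((u * u) ^ 2 ^ e) = 0 :=
    fun c u hu => by by_contra h; exact he0 (c.caseII H hu h)
  obtain ⟨C, f, l, -, c⟩ := H.exists_cov hA hm he he' (M := ⊤) (Inv.char ξ _) le_top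
    (top_not_le hA hna)
  obtain ⟨rfl, hinj⟩ := c.caseI H (hI c)
  have hl : ∀ a ∈ A, ∀ u, cm a u * cm a u = 1 := fun a ha u => by
    simpa [pow_two] using H.cm_lower hA ha (he a ha) u
  have hcent : centralizer (A : Set P) ≤ A := by
    by_contra h
    obtain ⟨C', f', l', h1, c'⟩ := H.exists_cov hA hm he he' (M := centralizer (A : Set P))
      (fun x hx a ha => by
        obtain ⟨b, hb, rfl⟩ : ∃ b ∈ A, ξ b = a := by
          have := (hA.inv.pow (Fintype.card F - 2)) a ha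
          refine ⟨_, this, ?_⟩
          have h3 := H.big
          rw [← MulAut.mul_apply, ← pow_succ', show Fintype.card F - 2 + 1 = Fintype.card F - 1 by omega,
            H.ord, MulAut.one_apply]
        rw [← map_mul, hx b hb, map_mul]) (fun a ha b hb => hA.comm b hb a ha) h
    obtain ⟨u, hu, h2⟩ := c'.co.surj 1
    exact (c'.caseI H (hI c')).2 u hu (fun h => one_ne_zero (h2.symm.trans ((c'.ker u hu).2 h))) c₀
      (hCA hc₀) hc₁ (cm_eq_one.2 (h1 hu c₀ (hCA hc₀)))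
  have hsq : ∀ x, x * x ∈ A := fun x => hcent fun a ha => cm_eq_one.1 (H.cm_sq (hl a ha x))
  have hcm : ∀ x y, cm x y ∈ A := fun x y => by
    have : cm x y = x⁻¹ * x⁻¹ * (x * y⁻¹ * (x * y⁻¹)) * (y * y) := by simp only [cm]; group
    rw [this]
    exact A.mul_mem (A.mul_mem (hsq _) (hsq _)) (hsq _)
  obtain ⟨a₀, h₀, h₁⟩ := he'
  have coA := H.co_top hA he h₀ h₁
  have hl' : ∀ a ∈ A, ∀ u, cm a u ^ 2 ^ (0 + 1) = 1 := fun a ha u => by simpa [pow_two] using hl a ha u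
  obtain ⟨T, hT, hTe⟩ := descend c.co coA (fun u a => g (cm a u ^ 2 ^ 0)) (n := m)
    (fun u _ v _ a ha => H.t_addl hA ha (hl' a ha u) (hl' a ha v))
    (fun u _ a ha b hb => H.t_addr hA ha hb (hl' a ha u) (hl' b hb u))
    (fun u hu a ha h => by
      rw [cm_eq_one.2 (hA.comm a ha u ((c.ker u hu).1 h)), one_pow, H.g1])
    (fun u hu a ha h => by rw [H.cm_lower hA ha ((H.γ_zero (he a ha)).1 h), H.g1])
    (fun u hu a ha => by rw [← map_cm, H.γ_eqv (hl' a ha u)])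
  let b : P → P → F := fun w u => g (cm w u ^ 2 ^ 1)
  have bl : ∀ w w' u, b (w * w') u = b w u + b w' u := fun w w' u => by
    simp only [b]
    rw [cm_mul_left, coA.add _ (hA.nor.conj_mem' _ (hcm w u) w') _ (hcm w' u), H.γ_conj (he _ (hcm w u))]
  have br : ∀ w u u', b w (u * u') = b w u + b w u' := fun w u u' => by
    simp only [b]
    rw [cm_mul_right, coA.add _ (hcm w u') _ (hA.nor.conj_mem' _ (hcm w u) u'),
      H.γ_conj (he _ (hcm w u)), add_comm]
  have be : ∀ w u, b (ξ w) (ξ u) = m * b w u := fun w u => by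
    simp only [b]
    rw [← map_cm, coA.eqv _ (hcm w u)]
  have bfix : ∀ w, ∀ u ∈ C, T (f u) (b w u) = b w u := fun w u hu => by
    have h1 : u * u * (u * u) = 1 := by
      simpa [pow_two] using (H.γ_zero (he _ (hsq u))).1 (hI c u hu)
    have h2 := cm_mul_right w u u
    rw [cm_eq_one.2 (mem_center_iff.1 (H.cen _ h1) w), conj_eq_cm, ← mul_assoc] at h2
    have h3 : cm w u * cm w u * (cm w u * cm w u) = 1 := by
      simpa [pow_two, pow_succ, mul_assoc] using he _ (hcm w u)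
    have h4 := H.add _ _ h3 (hl _ (hcm w u) u)
    rw [← h2, H.g1] at h4
    refine (hT u hu _ (hcm w u)).trans ?_
    simp only [b, pow_zero, pow_one, pow_two]
    grind
  have hT0 : ∀ u ∈ C, u ∉ A → ∀ s, s ≠ 0 → T (f u) s ≠ 0 := fun u hu huA s hs h => by
    obtain ⟨a, ha, rfl⟩ := coA.surj s
    rw [hT u hu a ha] at h
    exact hinj u hu huA a ha (fun e => hs (by simp [pow_two, e, H.g1]))
      (H.ker _ (hl a ha u) (by simpa using h))
  have ball : ∀ w, ∀ u ∈ C, ∀ h ∈ C, h ∉ A → b w h = 0 → b w u = 0 := fun w u hu h hh hhA h0 => by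
    by_contra h1
    have e1 := bfix w _ (C.mul_mem hu hh)
    rw [br, h0, add_zero, c.co.add _ hu _ hh, map_add, AddMonoidHom.add_apply, bfix w u hu] at e1
    exact hT0 h hh hhA _ h1 (by grind)
  obtain ⟨u, hu, hu1⟩ := c.co.surj 1
  have huA : u ∉ A := fun h => one_ne_zero (hu1.symm.trans ((c.ker u hu).2 h))
  have hξu : ξ u ∉ A := fun h => c.co.prim.1 (by
    have := (c.ker _ (c.co.inv u hu)).2 h
    rwa [c.co.eqv u hu, hu1, mul_one] at this)
  have hb0 : b v u = 0 := by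
    obtain ⟨w, -, rfl⟩ := fpf_surj (N := ⊤) (H.fpf 1 (by have := H.big; rw [Nat.dvd_one]; omega))
      (Inv.char _ _) (mem_top v)
    have hi : b w⁻¹ u = b w u := by
      have := bl w⁻¹ w u
      rw [inv_mul_cancel, show b 1 u = 0 by simp [b, cm, H.g1]] at this
      grind
    rw [pow_one, bl, hi]
    by_cases h0 : b w u = 0
    · rw [h0, zero_add]
      exact ball _ u hu _ (c.co.inv u hu) hξu (by rw [be, h0, mul_zero])
    · have h1 : b (ξ w) u ≠ 0 := fun h => mul_ne_zero H.prim.1 h0 (by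
        rw [← be]; exact ball _ _ (c.co.inv u hu) u hu huA h)
      rw [fix_unique H.big c.co.prim H.prim hTe h0 h1 (bfix _ u hu) (bfix _ u hu)]
      grind
  have h2 : cm v u * cm v u = 1 := by simpa [pow_two] using (H.γ_zero (he _ (hcm v u))).1 hb0
  refine hinj u hu huA _ (hsq v) hv ?_
  rw [cm_mul_left, H.conj h2, h2]

end HS
end Hig
end Cfsg.Agent.H7
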