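import Cfsg.Agent.H7.Hig4

/-! Higman's theorem: order and type A. -/

set_option autoImplicit false
set_option linter.unusedSectionVars false

open scoped Classical
open Subgroup

namespace Cfsg.Agent.H7
namespace Hig

variable {F : Type*} [Field F] [Fintype F] [CharP F 2] {P : Type*} [Group P] [Finite P]
variable {ξ : MulAut P} {g : P → F} {m : F} {A C : Subgroup P} {f : P → F} {l : F}

theorem Co.card (c : Co ξ C f l) : Nat.card C = Nat.card (kerS C f c.add) * Fintype.card F := by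
  let φ : C →* Multiplicative F := MonoidHom.mk' (fun x => Multiplicative.ofAdd (f x))
    fun x y => congrArg Multiplicative.ofAdd (c.add _ x.2 _ y.2)
  have h1 : φ.range = ⊤ := eq_top_iff.2 fun y _ => by
    obtain ⟨x, hx, e⟩ := c.surj y.toAdd
    exact ⟨⟨x, hx⟩, congrArg Multiplicative.ofAdd e⟩
  have h2 : φ.ker = (kerS C f c.add).subgroupOf C := by
    ext x
    exact ⟨fun h => ⟨x.2, h⟩, fun h => h.2⟩
  have h3 := φ.ker.card_mul_index
  rw [index_ker, h1, h2, Nat.card_congr (subgroupOfEquivOfLe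
    (show kerS C f c.add ≤ C from fun x hx => hx.1)).toEquiv] at h3
  rw [← h3]; simp

theorem odd_dvd {u b : ℕ} (hu : Odd u) (h : u ∣ 2 ^ b) : u = 1 :=
  Nat.Coprime.eq_one_of_dvd (Nat.Coprime.pow_right b hu.coprime_two_right) h

theorem numth {n a R k : ℕ} (hn : 1 < n) (hR : R ≠ 0) (h1 : 2 ^ a = 2 ^ n + (2 ^ n - 1) * R)
    (h2 : ((2 : ℤ) ^ n - R) ^ 2 = 0 ∨ ((2 : ℤ) ^ n - R) ^ 2 = 2 ^ k) :
    2 ^ a = (2 ^ n) ^ 2 ∨ 2 ^ a = (2 ^ n) ^ 3 := by
  obtain ⟨p, hp⟩ : ∃ p, 2 ^ n = p + 1 := ⟨2 ^ n - 1, by have := Nat.one_le_two_pow (n := n); omega⟩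
  have hp3 : 1 < p := by have := Nat.pow_le_pow_right (by norm_num : 0 < 2) hn; omega
  have hpo : Odd p := by
    have : Even (p + 1) := hp ▸ (Nat.even_pow.2 ⟨even_two, by omega⟩)
    simpa [parity_simps] using this
  have hd : 2 ^ n ∣ R := by
    have h3 : 2 ^ n ∣ 2 ^ a := Nat.pow_dvd_pow 2 ((Nat.pow_le_pow_iff_right one_lt_two).1 (by omega))
    rw [h1] at h3
    have h4 := (Nat.dvd_add_right (dvd_refl _)).1 h3
    refine Nat.Coprime.dvd_of_dvd_mul_left ?_ h4
    rw [hp]; simp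
  obtain ⟨r, rfl⟩ := hd
  obtain ⟨r, rfl⟩ := Nat.exists_eq_succ_of_ne_zero (show r ≠ 0 by rintro rfl; simp at hR)
  have e1 : ((2 : ℤ) ^ n - ((2 ^ n * r.succ : ℕ) : ℤ)) ^ 2 = ((2 ^ n * r) ^ 2 : ℕ) := by
    push_cast; ring
  rw [e1] at h2
  have h5 : 2 ^ a = 2 ^ n * (2 ^ n + p * r) := by
    rw [h1, hp]; simp only [Nat.add_sub_cancel, Nat.succ_eq_add_one]; ring
  rcases h2 with h2 | h2
  · left
    have : r = 0 := by simpa using h2
    rw [h5, this]; ring
  · right
    have h3 : (2 ^ n * r) ^ 2 = 2 ^ k := by exact_mod_cast h2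
    obtain ⟨t, -, rfl⟩ := (Nat.dvd_prime_pow Nat.prime_two).1
      (show r ∣ 2 ^ k from h3 ▸ Dvd.dvd.pow (Dvd.intro_left _ rfl) two_ne_zero)
    have h6 : 2 ^ n + p * 2 ^ t ∣ 2 ^ a := h5 ▸ Dvd.intro_left _ rfl
    rcases lt_trichotomy t n with h | rfl | h
    · obtain ⟨s, rfl⟩ := Nat.exists_eq_add_of_lt h
      have := odd_dvd (u := 2 ^ (s + 1) + p) (Even.add_odd (Nat.even_pow.2 ⟨even_two, by omega⟩) hpo)
        (Dvd.dvd.trans ⟨2 ^ t, by ring⟩ h6)
      generalize 2 ^ (s + 1) = w at this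
      omega
    · rw [h5, hp]; ring
    · obtain ⟨s, rfl⟩ := Nat.exists_eq_add_of_lt h
      have := odd_dvd (u := 1 + p * 2 ^ (s + 1))
        (Odd.add_even odd_one (Even.mul_left (Nat.even_pow.2 ⟨even_two, by omega⟩) _))
        (Dvd.dvd.trans ⟨2 ^ n, by ring⟩ h6)
      have h7 : 0 < p * 2 ^ (s + 1) := by positivity
      omega

namespace HS

theorem sq_mul (H : HS ξ g m) {x y : P} (hx : x * x = 1) (hy : y * y = 1) : x * y * (x * y) = 1 := by
  rw [mul_assoc, ← mul_assoc y, mem_center_iff.1 (H.cen x hx) y, mul_assoc, hy, mul_one, hx]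

theorem cm_sq_one (H : HS ξ g m) (hna : ∃ x y : P, x * y ≠ y * x) (x y : P) : cm x y * cm x y = 1 := by
  have : cm x y = x⁻¹ * x⁻¹ * (x * y⁻¹ * (x * y⁻¹)) * (y * y) := by simp only [cm]; group
  rw [this]
  exact H.sq_mul (H.sq_mul (H.pow_four hna _) (H.pow_four hna _)) (H.pow_four hna _)

theorem Q_mul (H : HS ξ g m) (hna : ∃ x y : P, x * y ≠ y * x) (x y : P) :
    g (x * y * (x * y)) = g (x * x) + g (y * y) + g (cm y x) := by
  have : x * y * (x * y) = x * x * (y * y) * cm y x := by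
    calc x * y * (x * y) = x * x * (y * y) * (y⁻¹ * cm y x * y) := by simp only [cm]; group
      _ = _ := by rw [H.conj (H.cm_sq_one hna _ _)]
  rw [this, H.add _ _ (H.sq_mul (H.pow_four hna _) (H.pow_four hna _)) (H.cm_sq_one hna _ _),
    H.add _ _ (H.pow_four hna _) (H.pow_four hna _)]

theorem B_left (H : HS ξ g m) (hna : ∃ x y : P, x * y ≠ y * x) (x y z : P) :
    g (cm (x * y) z) = g (cm x z) + g (cm y z) := by
  rw [cm_mul_left, H.conj (H.cm_sq_one hna _ _), H.add _ _ (H.cm_sq_one hna _ _) (H.cm_sq_one hna _ _)]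

theorem B_right (H : HS ξ g m) (hna : ∃ x y : P, x * y ≠ y * x) (x y z : P) :
    g (cm x (y * z)) = g (cm x y) + g (cm x z) := by
  rw [cm_mul_right, H.conj (H.cm_sq_one hna _ _), H.add _ _ (H.cm_sq_one hna _ _) (H.cm_sq_one hna _ _),
    add_comm]

theorem co_center (H : HS ξ g m) (hna : ∃ x y : P, x * y ≠ y * x) : Co ξ (center P) g m :=
  ⟨Inv.char ξ _, fun x hx y hy => H.add _ _ (H.center_sq hna hx) (H.center_sq hna hy),
    fun x hx => H.eqv _ (H.center_sq hna hx), fun c => by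
      obtain ⟨x, hx, e⟩ := H.surj c
      exact ⟨x, H.cen x hx, e⟩, H.prim⟩

theorem card_center (H : HS ξ g m) (hna : ∃ x y : P, x * y ≠ y * x) :
    Nat.card (center P) = Fintype.card F := by
  rw [(H.co_center hna).card, show kerS _ g (H.co_center hna).add = ⊥ from
    eq_bot_iff.2 fun x hx => H.ker x (H.center_sq hna hx.1) hx.2]
  simp

theorem exists_sq_ne (H : HS ξ g m) (hna : ∃ x y : P, x * y ≠ y * x) : ∃ x : P, x * x ≠ 1 := by
  by_contra h
  push Not at h
  obtain ⟨x, y, hxy⟩ := hna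
  exact hxy (comm_of_sq (h _) (h _) (h _))

theorem card_eq (H : HS ξ g m) (hna : ∃ x y : P, x * y ≠ y * x) :
    Nat.card P = Fintype.card F ^ 2 ∨ Nat.card P = Fintype.card F ^ 3 := by
  haveI : Fact (Nat.Prime 2) := ⟨Nat.prime_two⟩
  haveI := Fintype.ofFinite P
  let N : F → ℕ := fun c => (Finset.univ.filter fun x : P => g (x * x) = c).card
  have hQe : ∀ x : P, g (ξ x * ξ x) = m * g (x * x) := fun x => by
    rw [← map_mul, H.eqv _ (H.pow_four hna x)]
  have hN : ∀ c, N (m * c) = N c := fun c => (Finset.card_bij (fun x _ => ξ x)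
    (fun x hx => by simp only [Finset.mem_filter, Finset.mem_univ, true_and] at hx ⊢; rw [hQe, hx])
    (fun _ _ _ _ h => ξ.injective h) (fun y hy => ⟨ξ.symm y, by
      simp only [Finset.mem_filter, Finset.mem_univ, true_and] at hy ⊢
      have := hQe (ξ.symm y)
      rw [MulEquiv.apply_symm_apply, hy] at this
      exact (mul_left_cancel₀ H.prim.1 this).symm, ξ.apply_symm_apply y⟩)).symm
  have hN1 : ∀ c, c ≠ 0 → N c = N 1 := fun c hc => by
    obtain ⟨k, rfl⟩ := H.prim.2 c hc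
    clear hc
    induction k with
    | zero => simp
    | succ k ih => rw [pow_succ', hN, ih]
  have hN0 : N 0 = Fintype.card F := by
    rw [← H.card_center hna, Nat.card_eq_fintype_card, Fintype.card_subtype]
    exact congrArg Finset.card (Finset.filter_congr fun x _ =>
      ⟨fun h => H.cen x (H.ker _ (H.pow_four hna x) h), fun h => by rw [H.center_sq hna h, H.g1]⟩)
  have hsum : ∀ ψ : F → ℂ, ∑ x : P, ψ (g (x * x)) =
      Fintype.card F * ψ 0 + N 1 * (∑ c, ψ c - ψ 0) := fun ψ => by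
    rw [← Finset.sum_fiberwise (s := Finset.univ) (g := fun x : P => g (x * x))]
    have : ∀ c, ∑ x ∈ Finset.univ.filter fun x : P => g (x * x) = c, ψ (g (x * x)) = N c * ψ c :=
      fun c => by
        rw [Finset.sum_congr rfl (g := fun _ => ψ c) fun x hx => by rw [(Finset.mem_filter.1 hx).2]]
        simp [N]
    simp only [this]
    rw [← Finset.add_sum_erase _ _ (Finset.mem_univ 0), hN0,
      ← Finset.add_sum_erase _ _ (Finset.mem_univ 0), add_sub_cancel_left, Finset.mul_sum]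
    congr 1
    exact Finset.sum_congr rfl fun c hc => by rw [hN1 c (Finset.ne_of_mem_erase hc)]
  obtain ⟨n, -, hn⟩ := FiniteField.card F 2
  obtain ⟨a, ha⟩ := IsPGroup.iff_card.1 H.two
  have h1 : 2 ^ a = 2 ^ (n : ℕ) + (2 ^ (n : ℕ) - 1) * N 1 := by
    have := hsum fun _ => 1
    simp only [Finset.sum_const, Finset.card_univ, nsmul_eq_mul, mul_one] at this
    rw [← Nat.card_eq_fintype_card, ha, hn] at this
    have h2 := Nat.one_le_two_pow (n := n)
    apply Nat.cast_injective (R := ℂ)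
    rw [this]; push_cast [h2]; ring
  let ψ := AddChar.FiniteField.primitiveChar_to_Complex F
  have hψ : ψ ≠ 1 := by
    simpa using AddChar.FiniteField.primitiveChar_to_Complex_isPrimitive F one_ne_zero
  have h2 := hsum ψ
  rw [AddChar.sum_eq_zero_of_ne_one hψ, AddChar.map_zero_eq_one] at h2
  let χ : P → P →* ℂ := fun t =>
    { toFun := fun x => ψ (g (cm t x))
      map_one' := by simp [cm, H.g1]
      map_mul' := fun x y => by rw [H.B_right hna, AddChar.map_add_eq_mul] }
  let R : Subgroup P :=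
    { carrier := {t | ∀ x, ψ (g (cm t x)) = 1}
      one_mem' := fun x => by simp [cm, H.g1]
      mul_mem' := fun {s t} hs ht x => by rw [H.B_left hna, AddChar.map_add_eq_mul, hs, ht, one_mul]
      inv_mem' := fun {t} ht x => by
        have := H.B_left hna t t⁻¹ x
        rw [mul_inv_cancel, show cm 1 x = 1 by simp [cm], H.g1] at this
        rw [show g (cm t⁻¹ x) = g (cm t x) by grind, ht] }
  let θ : R →* ℂ :=
    { toFun := fun t => ψ (g ((t : P) * t))
      map_one' := by simp [H.g1]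
      map_mul' := fun s t => by
        rw [Subgroup.coe_mul, H.Q_mul hna, AddChar.map_add_eq_mul, t.2, mul_one, AddChar.map_add_eq_mul] }
  have h3 : (∑ x : P, ψ (g (x * x))) ^ 2 = Nat.card P * ∑ t : R, θ t := by
    rw [pow_two, Finset.sum_mul_sum]
    have : ∀ x : P, ∑ y : P, ψ (g (x * x)) * ψ (g (y * y)) = ∑ t : P, ψ (g (t * t)) * χ t x := fun x => by
      rw [← Equiv.sum_comp (Equiv.mulLeft x)]
      refine Finset.sum_congr rfl fun t _ => ?_
      change ψ _ * ψ (g (x * t * (x * t))) = ψ _ * ψ _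
      rw [H.Q_mul hna, ← AddChar.map_add_eq_mul, ← AddChar.map_add_eq_mul]
      congr 1; grind
    simp only [this]
    rw [Finset.sum_comm]
    rw [Finset.mul_sum]
    refine Eq.trans ?_ (Finset.sum_subtype (Finset.univ.filter (· ∈ R)) (by simp)
      (fun t : P => (Nat.card P : ℂ) * ψ (g (t * t))))
    rw [Finset.sum_filter]
    refine Finset.sum_congr rfl fun t _ => ?_
    rw [← Finset.mul_sum, sum_hom_units]
    have : χ t = 1 ↔ t ∈ R := ⟨fun h x => DFunLike.congr_fun h x, fun h => MonoidHom.ext h⟩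
    by_cases h : t ∈ R <;> simp [this, h, mul_comm]
  obtain ⟨b, hb⟩ := IsPGroup.iff_card.1 (H.two.to_subgroup R)
  rw [ha, hn]
  refine numth (k := a + b) ?_ ?_ h1 ?_
  · have := H.big
    rw [hn] at this
    exact (Nat.pow_lt_pow_iff_right one_lt_two).1 (by simpa using this)
  · obtain ⟨x, hx⟩ := H.exists_sq_ne hna
    rw [← hN1 _ fun h => hx (H.ker _ (H.pow_four hna x) h)]
    exact Finset.card_ne_zero.2 ⟨x, by simp⟩
  · rw [h2, sum_hom_units, ← Nat.card_eq_fintype_card (α := R), hn, ha, hb] at h3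
    split_ifs at h3
    · right
      apply Int.cast_injective (α := ℂ)
      push_cast at h3 ⊢
      rw [pow_add, ← h3]; ring
    · left
      apply Int.cast_injective (α := ℂ)
      push_cast at h3 ⊢
      rw [mul_zero] at h3
      rw [← h3]; ring

end HS
end Hig
end Cfsg.Agent.H7
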