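import Cfsg.Agent.H7.Hig5

/-! Higman's theorem: the set-up from `IsSuzukiTwoGroup`, and type A. -/

set_option autoImplicit false
set_option linter.unusedSectionVars false

open scoped Classical
open Subgroup

namespace Cfsg.Agent.H7
namespace Hig

variable {F : Type*} [Field F] [Fintype F] [CharP F 2] {P : Type*} [Group P] [Finite P]
variable {ξ : MulAut P} {g : P → F} {m : F} {A C : Subgroup P} {f : P → F} {l : F}

theorem exists_invol (h2 : IsPGroup 2 P) {x : P} (hx : x ≠ 1) : ∃ j : ℕ, x ^ j ≠ 1 ∧ x ^ j * x ^ j = 1 := by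
  obtain ⟨j, h, s, rfl, h3⟩ := level h2 (S := {x}) rfl hx
  exact ⟨_, h3, pow_sq (h _ rfl)⟩

theorem exists_HS (h2 : IsPGroup 2 P)
    (htwo : ∃ x y : P, x ≠ y ∧ x ≠ 1 ∧ x * x = 1 ∧ y ≠ 1 ∧ y * y = 1)
    {K : Subgroup (MulAut P)} (hK : IsCyclic K)
    (hreg : ∀ x y : P, x ≠ 1 → x * x = 1 → y ≠ 1 → y * y = 1 → ∃! k : K, (k : MulAut P) x = y) :
    ∃ (F : Type) (_ : Field F) (_ : Fintype F) (_ : CharP F 2) (ξ : MulAut P) (g : P → F) (m : F),
      HS ξ g m ∧ zpowers ξ = K := by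
  haveI : Fact (Nat.Prime 2) := ⟨Nat.prime_two⟩
  obtain ⟨x, y, hxy, hx, hx2, hy, hy2⟩ := htwo
  haveI : Nontrivial P := ⟨⟨x, y, hxy⟩⟩
  obtain ⟨⟨z', hz'⟩, hz1⟩ := (nontrivial_iff_exists_ne 1).1 h2.center_nontrivial
  obtain ⟨j, hz, hz2⟩ := exists_invol h2 (x := z') fun e => hz1 (Subtype.ext e)
  have hzc := (center P).pow_mem hz' j
  set z := z' ^ j
  have hcen : ∀ w : P, w * w = 1 → w ∈ center P := fun w hw => by
    by_cases h : w = 1
    · exact h ▸ (center P).one_mem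
    · obtain ⟨k, rfl, -⟩ := hreg z w hz hz2 h hw
      exact Inv.char _ _ z hzc
  let Z : Subgroup P :=
    { carrier := {w | w * w = 1}
      one_mem' := one_mul 1
      mul_mem' := fun {a b} ha hb => by
        change a * b * (a * b) = 1
        rw [mul_assoc, ← mul_assoc b, mem_center_iff.1 (hcen a ha) b, mul_assoc, hb, mul_one, ha]
      inv_mem' := fun {a} ha => by
        change a⁻¹ * a⁻¹ = 1
        rw [← mul_inv_rev, ha, inv_one] }
  obtain ⟨n, hn⟩ := IsPGroup.iff_card.1 (h2.to_subgroup Z)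
  have hZ3 : 2 < Nat.card Z := by
    haveI := Fintype.ofFinite Z
    rw [Nat.card_eq_fintype_card]
    exact Fintype.two_lt_card_iff.2 ⟨⟨x, hx2⟩, ⟨y, hy2⟩, 1, fun e => hxy (congrArg Subtype.val e),
      fun e => hx (congrArg Subtype.val e), fun e => hy (congrArg Subtype.val e)⟩
  have hn0 : n ≠ 0 := by rintro rfl; omega
  let F := GaloisField 2 n
  letI : Fintype F := Fintype.ofFinite F
  have hF : Fintype.card F = Nat.card Z := by
    rw [hn, ← Nat.card_eq_fintype_card]; exact GaloisField.card 2 n hn0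
  have hKc : Nat.card K = Fintype.card F - 1 := by
    let φ : K → {w : Z // w ≠ 1} := fun k => ⟨⟨(k : MulAut P) z, by
      change _ * _ = _; rw [← map_mul, hz2, map_one]⟩, fun e => hz (by simpa using congrArg Subtype.val e)⟩
    have hb : Function.Bijective φ := ⟨fun k k' e => by
      have e' : (k : MulAut P) z = (k' : MulAut P) z := congrArg (fun w => (w.1 : P)) e
      exact (hreg z _ hz hz2 (fun h => (φ k').2 (Subtype.ext h)) (φ k').1.2).unique e' rfl,
      fun w => by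
        obtain ⟨k, hk, -⟩ := hreg z w.1 hz hz2 (fun h => w.2 (Subtype.ext h)) w.1.2
        exact ⟨k, Subtype.ext (Subtype.ext hk)⟩⟩
    haveI := Fintype.ofFinite Z
    rw [Nat.card_eq_of_bijective φ hb, hF, Nat.card_eq_fintype_card, Nat.card_eq_fintype_card,
      Fintype.card_subtype_compl, Fintype.card_subtype_eq]
  obtain ⟨ξ, hξ⟩ := hK.exists_generator
  have ho : orderOf ξ = Fintype.card F - 1 := hKc ▸ orderOf_eq_card_of_forall_mem_zpowers hξ
  have H0 : HS0 F (ξ : MulAut P) := ⟨h2, hF ▸ hZ3, by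
    rw [← ho, ← Subgroup.coe_pow, pow_orderOf_eq_one]; rfl, fun k hk w hw => by
    by_contra h
    obtain ⟨j, h3, h4⟩ := exists_invol h2 h
    refine hk (ho ▸ orderOf_dvd_of_pow_eq_one ((hreg _ _ h3 h4 h3 h4).unique ?_ rfl))
    rw [Subgroup.coe_pow, map_pow, hw]⟩
  have hZi : Inv (ξ : MulAut P) Z := fun w hw => by
    change _ * _ = _; rw [← map_mul, hw, map_one]
  obtain ⟨g, m, co, -⟩ := H0.coord (M := Z) (N := ⊥) bot_le hZi (Inv.char _ _) (fun w hw => hw) hz2 hz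
  refine ⟨F, inferInstance, inferInstance, inferInstance, ξ, g, m,
    ⟨H0, hcen, fun x y hx hy => co.add x hx y hy, fun w hw h0 => ?_, co.eqv, co.surj, co.prim⟩, ?_⟩
  · have := co.card
    rw [hF] at this
    have h1 : Nat.card (kerS Z g co.add) = 1 := (mul_eq_right₀ (by omega)).1 this.symm
    exact mem_bot.1 (card_eq_one.1 h1 ▸ (⟨hw, h0⟩ : w ∈ kerS Z g co.add))
  · refine le_antisymm (zpowers_le.2 ξ.2) fun k hk => ?_
    obtain ⟨j, hj⟩ := hξ ⟨k, hk⟩
    exact ⟨j, congrArg Subtype.val hj⟩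

theorem odd_order_of_inj {φ : F ≃+* F} (h : ∀ x, x * φ x = 1 → x = 1) : Odd (orderOf φ) := by
  by_contra ho
  obtain ⟨k, hk⟩ := Nat.not_odd_iff_even.1 ho
  have hpos := orderOf_pos φ
  have hs : ∀ (z : F) (k : ℕ), ∑ j ∈ Finset.range (k + k), (φ ^ j) z =
      ∑ j ∈ Finset.range k, (φ ^ (j + j)) z + φ (∑ j ∈ Finset.range k, (φ ^ (j + j)) z) := by
    intro z k
    induction k with
    | zero => simp
    | succ k ih =>
      rw [show k + 1 + (k + 1) = k + k + 1 + 1 by ring, Finset.sum_range_succ, Finset.sum_range_succ, ih,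
        Finset.sum_range_succ, map_add, pow_succ' φ (k + k)]
      rw [RingAut.mul_apply]
      ring
  obtain ⟨z, hz⟩ : ∃ z, ∑ j ∈ Finset.range (k + k), (φ ^ j) z ≠ 0 := by
    by_contra hc
    push Not at hc
    have := ded (s := (Finset.range (k + k)).image (φ ^ ·)) (c := fun _ => 1) (fun z => by
      rw [Finset.sum_image fun i hi j hj e => pow_injOn_Iio_orderOf
        (by simpa [hk] using hi) (by simpa [hk] using hj) e]
      simpa using hc z) 1 (Finset.mem_image.2 ⟨0, Finset.mem_range.2 (by omega), pow_zero _⟩)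
    exact one_ne_zero this
  rw [hs] at hz
  set y := ∑ j ∈ Finset.range k, (φ ^ (j + j)) z with hy
  have h2 : φ (φ y) = y := by
    have e1 := Finset.sum_range_succ (fun j => (φ ^ (j + j)) z) k
    have e2 := Finset.sum_range_succ' (fun j => (φ ^ (j + j)) z) k
    rw [e1, ← hk, pow_orderOf_eq_one, add_zero, pow_zero, add_left_inj] at e2
    rw [← hy] at e2
    conv_rhs => rw [e2]
    rw [hy, map_sum, map_sum]
    exact Finset.sum_congr rfl fun j _ => by
      rw [show j + 1 + (j + 1) = j + j + 1 + 1 by ring, pow_succ', pow_succ']; rfl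
  have hy0 : y ≠ 0 := fun e => hz (by simp [e])
  have hy1 : φ y ≠ 0 := by simpa using hy0
  have := h (y / φ y) (by rw [map_div₀, h2]; field_simp)
  rw [div_eq_one_iff_eq hy1] at this
  exact hz (by rw [← this]; grind)

/-- the matrices of the type A group -/
def mat (φ : F →+* F) (x y : F) : GL (Fin 3) F :=
  ⟨!![1, 0, 0; x, 1, 0; y, φ x, 1], !![1, 0, 0; -x, 1, 0; φ x * x - y, -φ x, 1], by
    ext i j; fin_cases i <;> fin_cases j <;> simp [Matrix.mul_apply, Fin.sum_univ_three] <;> ring, by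
    ext i j; fin_cases i <;> fin_cases j <;> simp [Matrix.mul_apply, Fin.sum_univ_three] <;> ring⟩

theorem mat_mul (φ : F →+* F) (x y x' y' : F) :
    mat φ x y * mat φ x' y' = mat φ (x + x') (y + y' + φ x * x') := by
  ext i j; fin_cases i <;> fin_cases j <;> simp [mat, Matrix.mul_apply, Fin.sum_univ_three] <;> ring

theorem mat_zero (φ : F →+* F) : mat φ 0 0 = 1 := by
  ext i j; fin_cases i <;> fin_cases j <;> simp [mat]

theorem typeA_iso (φ : F →+* F) {Z : Subgroup P} (hf : ∀ x y, f (x * y) = f x + f y)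
    (hker : ∀ x, f x = 0 ↔ x ∈ Z) (hfs : ∀ c, ∃ x, f x = c)
    (hg : ∀ x ∈ Z, ∀ y ∈ Z, g (x * y) = g x + g y) (hg0 : ∀ x ∈ Z, g x = 0 → x = 1)
    (hgs : ∀ c, ∃ x ∈ Z, g x = c) (hQ : ∀ x, g (x * x) = f x * φ (f x)) :
    Nonempty (P ≃* Cfsg.suzukiTypeA F φ) := by
  have hf' : ∀ x ∈ (⊤ : Subgroup P), ∀ y ∈ (⊤ : Subgroup P), f (x * y) = f x + f y := fun x _ y _ => hf x y
  have f1 := add_one hf'
  have finv : ∀ x, f x⁻¹ = f x := fun x => add_inv hf' trivial
  have minv : ∀ x y, (mat φ x y)⁻¹ = mat φ x (y + φ x * x) := fun x y =>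
    inv_eq_of_mul_eq_one_right (by rw [mat_mul, ← mat_zero φ]; congr 1 <;> grind)
  let M : Subgroup (P × GL (Fin 3) F) :=
    { carrier := {p | ∃ y, p.2 = mat φ (f p.1) y}
      one_mem' := ⟨0, by simp [f1, mat_zero]⟩
      mul_mem' := fun ⟨y, hy⟩ ⟨y', hy'⟩ => ⟨_, by rw [Prod.snd_mul, hy, hy', mat_mul, Prod.fst_mul, hf]⟩
      inv_mem' := fun ⟨y, hy⟩ => ⟨_, by rw [Prod.snd_inv, hy, minv, Prod.fst_inv, finv]⟩ }
  have hM : ∀ u y, (u, mat φ (f u) y) ∈ M := fun u y => ⟨y, rfl⟩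
  let γ : P × GL (Fin 3) F → F := fun p => g p.1 + (p.2 : Matrix (Fin 3) (Fin 3) F) 2 0
  have hγ : ∀ u x y, γ (u, mat φ x y) = g u + y := fun u x y => rfl
  obtain ⟨H, h1, h2, -⟩ := ext_rel (M := M) (Z := M ⊓ Z.comap (MonoidHom.fst _ _)) inf_le_left γ
    (by
      rintro ⟨u, a⟩ ⟨⟨y, ha⟩, hu⟩ ⟨v, b⟩ ⟨⟨y', hb⟩, hv⟩
      obtain rfl : a = mat φ (f u) y := ha
      obtain rfl : b = mat φ (f v) y' := hb
      rw [Prod.mk_mul_mk, mat_mul, hγ, hγ, hγ, hg u hu v hv, (hker v).2 hv]; ring)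
    (by
      rintro ⟨u, a⟩ ⟨y, ha⟩
      obtain rfl : a = mat φ (f u) y := ha
      refine ⟨⟨M.mul_mem (hM u y) (hM u y), (hker _).1 ?_⟩, ?_⟩
      · change f (u * u) = 0
        rw [hf]; grind
      · rw [Prod.mk_mul_mk, mat_mul, hγ, hQ]; grind) 1 M.one_mem 0
  let h : P → F := fun u => H (u, mat φ (f u) 0)
  have hh : ∀ u v, h (u * v) = h u + h v + φ (f u) * f v := fun u v => by
    have e1 := h1 _ (hM u 0) _ (hM v 0)
    have e2 := h1 _ (hM (u * v) 0) _ (hM 1 (φ (f u) * f v))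
    rw [h2 _ ⟨hM 1 _, Z.one_mem⟩, hγ, add_one hg, Prod.mk_mul_mk, mat_mul, f1, hf] at e2
    rw [Prod.mk_mul_mk, mat_mul] at e1
    simp only [mul_one, add_zero, zero_add, mul_zero] at e1 e2
    simp only [h]
    rw [hf]
    grind
  have hZ : ∀ z ∈ Z, h z = g z := fun z hz => by
    simp only [h]; rw [h2 _ ⟨hM z 0, hz⟩, hγ, add_zero]
  let θ : P →* GL (Fin 3) F := MonoidHom.mk' (fun u => mat φ (f u) (h u)) fun u v => by
    rw [mat_mul, hf, hh]
  have hθ : Function.Injective θ := (injective_iff_map_eq_one θ).2 fun u hu => by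
    have e1 : f u = 0 := congrArg (fun a : GL (Fin 3) F => (a : Matrix (Fin 3) (Fin 3) F) 1 0) hu
    have e2 : h u = 0 := congrArg (fun a : GL (Fin 3) F => (a : Matrix (Fin 3) (Fin 3) F) 2 0) hu
    exact hg0 u ((hker u).1 e1) (hZ u ((hker u).1 e1) ▸ e2)
  have hr : θ.range = Cfsg.suzukiTypeA F φ := le_antisymm (by
    rintro _ ⟨u, rfl⟩
    exact subset_closure ⟨f u, h u, rfl⟩) ((closure_le _).2 (by
    rintro a ⟨x, y, ha⟩
    obtain ⟨u, rfl⟩ := hfs x
    obtain ⟨z, hz, e⟩ := hgs (y + h u)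
    refine ⟨u * z, Units.ext (Eq.trans ?_ ha.symm)⟩
    change (mat φ (f (u * z)) (h (u * z))).val = (mat φ (f u) y).val
    rw [hf, hh, (hker z).2 hz, hZ z hz, e]
    congr 2 <;> grind))
  exact ⟨(MonoidHom.ofInjective hθ).trans (MulEquiv.subgroupCongr hr)⟩

theorem HS.typeA (H : HS ξ g m) (hna : ∃ x y : P, x * y ≠ y * x)
    (hc : Nat.card P = Fintype.card F ^ 2) : ∃ φ : F ≃+* F, φ ≠ RingEquiv.refl F ∧ Odd (orderOf φ) ∧
      Nonempty (P ≃* Cfsg.suzukiTypeA F (φ : F →+* F)) := by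
  obtain ⟨x₀, hx₀⟩ := H.exists_sq_ne hna
  obtain ⟨C, f, l, h1, -, co, h4, -⟩ := H.toHS0.cover (M := ⊤) (N := center P) le_top (Inv.char ξ _)
    (Inv.char ξ _) fun h => hx₀ (H.center_sq hna (h trivial))
  have hC : C = ⊤ := by
    have := co.card
    rw [show kerS C f co.add = center P from le_antisymm (fun x hx => (h4 x hx.1).1 hx.2)
      fun x hx => ⟨h1 hx, (h4 x (h1 hx)).2 hx⟩, H.card_center hna, ← pow_two, ← hc] at this
    exact (card_eq_iff_eq_top _).1 this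
  subst hC
  have hcz : ∀ u v, f u = 0 → cm u v = 1 := fun u v h =>
    cm_eq_one.2 (mem_center_iff.1 ((h4 u trivial).1 h) v).symm
  obtain ⟨T, hT, hTe⟩ := descend co co (fun u v => g (cm u v)) (n := m)
    (fun u _ v _ a _ => H.B_left hna u v a) (fun u _ a _ b _ => H.B_right hna u a b)
    (fun u _ a _ h => by rw [hcz u a h, H.g1])
    (fun u _ a _ h => by rw [← cm_inv, hcz a u h, inv_one, H.g1])
    (fun u _ a _ => by rw [← map_cm, H.eqv _ (H.cm_sq_one hna _ _)])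
  obtain ⟨x, y, hxy⟩ := id hna
  have hB : g (cm x y) ≠ 0 := fun h => hxy (cm_eq_one.1 (H.ker _ (H.cm_sq_one hna _ _) h))
  obtain ⟨c, hc⟩ := span_bi T
  obtain ⟨⟨σ, τ⟩, hp⟩ : ∃ p, c p ≠ 0 := by
    by_contra h
    push Not at h
    exact hB (by rw [← hT x trivial y trivial, hc]; simp [h])
  have hm : σ l * τ l = m := coeff_equiv hc hTe _ hp
  obtain ⟨u₀, -, hu₀⟩ := co.surj 1
  have hQ0 : ∀ u, f u = 0 → g (u * u) = 0 := fun u h => by
    rw [H.center_sq hna ((h4 u trivial).1 h), H.g1]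
  have hc0 : g (u₀ * u₀) ≠ 0 := fun h => one_ne_zero (hu₀.symm.trans
    ((h4 _ trivial).2 (H.cen _ (H.ker _ (H.pow_four hna _) h))))
  have hQ : ∀ u, g (u * u) = g (u₀ * u₀) * (σ (f u) * τ (f u)) := fun u => by
    by_cases h : f u = 0
    · simp [h, hQ0 u h]
    obtain ⟨k, hk⟩ := co.prim.2 _ h
    have e1 := eqv_pow co.inv co.eqv k u₀ trivial
    have e2 := eqv_pow co.inv (f := fun u => g (u * u)) (l := m) (fun x _ => by
      rw [← map_mul, H.eqv _ (H.pow_four hna x)]) k u₀ trivial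
    have e3 : f (((ξ ^ k) u₀)⁻¹ * u) = 0 := by
      rw [co.add _ trivial _ trivial, add_inv co.add trivial, e1, hu₀, hk]; grind
    have e4 := H.Q_mul hna ((ξ ^ k) u₀) (((ξ ^ k) u₀)⁻¹ * u)
    rw [mul_inv_cancel_left, hQ0 _ e3, hcz _ _ e3, H.g1, e2] at e4
    rw [e4, ← hk, map_pow, map_pow, ← mul_pow, hm]; ring
  refine ⟨σ.symm.trans τ, fun e => hB ?_, odd_order_of_inj fun w hw => ?_,
    typeA_iso (f := fun u => σ (f u)) (g := fun u => g u / g (u₀ * u₀)) (Z := center P) _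
      (fun u v => by rw [co.add _ trivial _ trivial, map_add]) (fun u => by simp [h4 u trivial])
      (fun c => ?_) (fun u hu v hv => by rw [(H.co_center hna).add u hu v hv, add_div])
      (fun u hu h => H.ker u (H.center_sq hna hu) ((div_eq_zero_iff.1 h).resolve_right hc0))
      (fun c => ?_) fun u => by rw [hQ u]; simp [hc0]⟩
  · have hτ : ∀ w, τ w = σ w := fun w => by simpa using DFunLike.congr_fun e (σ w)
    have := H.Q_mul hna y x
    rw [hQ, hQ x, hQ y, co.add _ trivial _ trivial, hτ, hτ, hτ, map_add] at this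
    grind
  · have hs : Function.Surjective fun w => w * (σ.symm.trans τ) w := fun w => by
      by_cases h : w = 0
      · exact ⟨0, by simp [h]⟩
      · obtain ⟨k, rfl⟩ := H.prim.2 w h
        exact ⟨σ (l ^ k), by simp [← hm, mul_pow]⟩
    exact Finite.injective_iff_surjective.2 hs (by simpa using hw)
  · obtain ⟨u, -, hu⟩ := co.surj (σ.symm c)
    exact ⟨u, by simp [hu]⟩
  · obtain ⟨u, hu, e⟩ := (H.co_center hna).surj (c * g (u₀ * u₀))
    exact ⟨u, hu, by rw [e]; field_simp⟩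

end Hig
end Cfsg.Agent.H7
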