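import Mathlib
import Cfsg.Agent.H7.Sieve

/-! The sieve run over the orders from 3641 to 6240. -/

namespace Cfsg.Agent.H7.Sv

def frc (n : ℕ) (f : ℕ → Bool) : Bool := match n with | 0 => f 0 | k + 1 => f (Nat.succ k)

theorem frc_eq (n : ℕ) (f : ℕ → Bool) : frc n f = f n := by cases n <;> rfl

def facsK (k : List (ℕ × ℕ) → Bool) : List ℕ → ℕ → List (ℕ × ℕ) → Bool
  | [], n, acc => if n == 1 then k acc else k ((n, 1) :: acc)
  | d :: l, n, acc => if n % d == 0 then
      frc (valF d 30 n) fun a => frc (n / d ^ a) fun m => facsK k l m ((d, a) :: acc)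
    else facsK k l n acc

theorem facsK_false {k : List (ℕ × ℕ) → Bool} (h : ∀ Q, k Q = false) :
    ∀ (l : List ℕ) (n : ℕ) (acc : List (ℕ × ℕ)), facsK k l n acc = false
  | [], n, acc => by simp [facsK, h]
  | d :: l, n, acc => by simp [facsK, frc_eq, facsK_false h l]

def rng (a l : ℕ) : Bool := (List.range l).all fun i => frc (a + i) fun n =>
  [4080, 4500, 5292, 5400, 5616, 6048, 6072].contains n || facsK (dead 80 n)
    [2, 3, 5, 7, 11, 13, 17, 19, 23, 29, 31, 37, 41, 43, 47, 53, 59, 61, 67, 71, 73, 79] n []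

theorem rng_sound {G : Type*} [Group G] [Finite G] [IsSimpleGroup G] (hG : ¬ IsMulCommutative G)
    {a l : ℕ} (h : rng a l = true) (h1 : a ≤ Nat.card G) (h2 : Nat.card G < a + l) :
    Nat.card G ∈ [4080, 4500, 5292, 5400, 5616, 6048, 6072] := by
  rw [rng, List.all_eq_true] at h
  have := h (Nat.card G - a) (List.mem_range.2 (by omega))
  rw [Nat.add_sub_cancel' h1, frc_eq, facsK_false fun Q => dead_sound hG] at this
  simpa using this

theorem r1 : rng 3641 700 = true := by decide +kernel
theorem r2 : rng 4341 700 = true := by decide +kernel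
theorem r3 : rng 5041 600 = true := by decide +kernel
theorem r4 : rng 5641 600 = true := by decide +kernel

end Cfsg.Agent.H7.Sv
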