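import Cfsg.Agent.H7.U3B
import Cfsg.Agent.H7.Hig1

/-! Automorphisms of the Sylow 2-subgroup of `Sz(q)`. -/

set_option autoImplicit false

namespace Cfsg.Agent.H7

open Cfsg Subgroup Hig
open scoped Classical

variable {F : Type*} [Field F] [CharP F 2]

theorem quad_zero [Fintype F] {e : (F ≃+* F) × (F ≃+* F) → F} (h : ∀ x, ∑ p, e p * (p.1 x * p.2 x) = 0) :
    (∀ g k, e (g, k) = e (k, g)) ∧ ∀ g, e (g, g) = 0 := by
  have h1 : ∀ p, e p + e p.swap = 0 := ded_bi (c := fun p => e p + e p.swap) fun x y => by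
    have e1 := h (x + y)
    have e2 : ∑ p : (F ≃+* F) × (F ≃+* F), e p.swap * (p.1 x * p.2 y) = ∑ p, e p * (p.1 y * p.2 x) :=
      Fintype.sum_equiv (Equiv.prodComm _ _) _ _ fun p => by simp [mul_comm]
    simp only [map_add, add_mul, mul_add, Finset.sum_add_distrib, h] at e1
    simp only [add_mul, Finset.sum_add_distrib, e2]
    linear_combination e1
  have h2 : ∀ g k, e (g, k) = e (k, g) := fun g k => by
    have := h1 (g, k)
    rw [Prod.swap_prod_mk] at this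
    grind
  refine ⟨h2, fun g => ded (s := Finset.univ) (c := fun g => e (g, g)) (fun y => ?_) g (Finset.mem_univ _)⟩
  obtain ⟨x, rfl⟩ := FiniteField.isSquare_of_char_two (ringChar.eq F 2) y
  have e1 : ∑ p : (F ≃+* F) × (F ≃+* F), (if p.1 = p.2 then 0 else e p * (p.1 x * p.2 x)) = 0 :=
    Finset.sum_involution (fun p _ => p.swap) (fun p _ => by
      obtain ⟨g, k⟩ := p
      simp only [Prod.swap_prod_mk, h2 k g, eq_comm (a := k), mul_comm (k x)]
      exact CharTwo.add_self_eq_zero _)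
      (fun p _ hp e => hp (if_pos (congrArg Prod.snd e))) (fun _ _ => Finset.mem_univ _) fun _ _ => rfl
  have e2 : ∑ p : (F ≃+* F) × (F ≃+* F), (if p.1 = p.2 then e p * (p.1 x * p.2 x) else 0) =
      ∑ g, e (g, g) * g (x * x) := by
    rw [Fintype.sum_prod_type]
    simp
  have e3 := congrArg₂ (· + ·) e1 e2
  rw [← Finset.sum_add_distrib, zero_add] at e3
  rw [← e3]
  refine Eq.trans ?_ (h x)
  exact Finset.sum_congr rfl fun p _ => by split_ifs <;> [exact zero_add _; exact add_zero _]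

theorem mono_of_quad [Fintype F] {θ : F ≃+* F} (hc : ∀ g k : F ≃+* F, g * k = k * g) (h4 : θ ^ 4 ≠ 1)
    (A B : F →+ F) (h : ∀ x, B (θ x * x) = θ (A x) * A x) (hA : A 1 ≠ 0) :
    ∃ (s : Fˣ) (ρ : F ≃+* F), ∀ x, A x = s * ρ x := by
  obtain ⟨a, ha⟩ := span_aut A
  obtain ⟨b, hb⟩ := span_aut B
  have h1 : θ ≠ 1 := fun e => h4 (by rw [e, one_pow])
  obtain ⟨h2, h3⟩ := quad_zero (e := fun p => a p.1 * θ (a (θ⁻¹ * p.2)) + if p.2 = p.1 * θ then b p.1 else 0) fun x => by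
    have e1 : ∑ p : (F ≃+* F) × (F ≃+* F), a p.1 * θ (a (θ⁻¹ * p.2)) * (p.1 x * p.2 x) = θ (A x) * A x := by
      rw [ha, map_sum, mul_comm, Finset.sum_mul_sum, Fintype.sum_prod_type]
      refine Finset.sum_congr rfl fun g _ => (Fintype.sum_equiv (Equiv.mulLeft θ) _ _ fun k => ?_).symm
      simp only [Equiv.coe_mulLeft, inv_mul_cancel_left, map_mul]
      change _ = _ * (_ * θ (k x))
      ring
    have e2 : ∑ p : (F ≃+* F) × (F ≃+* F), (if p.2 = p.1 * θ then b p.1 else 0) * (p.1 x * p.2 x) = B (θ x * x) := by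
      rw [hb, Fintype.sum_prod_type]
      refine Finset.sum_congr rfl fun g _ => ?_
      simp only [ite_mul, zero_mul, Finset.sum_ite_eq', Finset.mem_univ, if_true, map_mul]
      change _ * (_ * g (θ x)) = _
      ring
    simp only [add_mul, Finset.sum_add_distrib, e1, e2, h]
    exact CharTwo.add_self_eq_zero _
  have h5 : ∀ g l, a g ≠ 0 → a l ≠ 0 → l = g ∨ g = θ * l * θ := fun g l hg hl => by
    by_contra hn
    rw [not_or] at hn
    have e1 := h3 g
    have e2 := h2 g (θ * l)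
    simp only [left_eq_mul, h1, if_false, add_zero] at e1
    have e3 : θ * l ≠ g * θ := fun e => hn.1 (by rw [hc g] at e; exact mul_left_cancel e)
    simp only [e3, hn.2, if_false, add_zero, inv_mul_cancel_left, (mul_eq_zero.1 e1).resolve_left hg, mul_zero] at e2
    exact mul_ne_zero hg ((map_ne_zero θ).2 hl) e2
  obtain ⟨g, hg⟩ : ∃ g, a g ≠ 0 := by
    by_contra hn
    push Not at hn
    exact hA (by simp [ha, hn])
  refine ⟨Units.mk0 _ hg, g, fun x => ?_⟩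
  rw [ha, Finset.sum_eq_single g (fun l _ hl => ?_) (by simp)]
  · rfl
  by_contra hn
  have hl' : a l ≠ 0 := left_ne_zero_of_mul hn
  have e1 := (h5 g l hg hl').resolve_left hl
  have e2 := (h5 l g hl' hg).resolve_left (Ne.symm hl)
  rw [e2, hc _ θ, hc _ θ, ← mul_assoc, ← mul_assoc, ← mul_assoc, right_eq_mul] at e1
  exact h4 (by rw [← e1]; simp only [pow_succ, pow_zero, one_mul])

/-- the Suzuki 2-group of type A -/
@[ext] structure SA (θ : F ≃+* F) where
  /-- first coordinate -/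
  a : F
  /-- second coordinate -/
  b : F

namespace SA

variable {θ : F ≃+* F}

instance : Mul (SA θ) := ⟨fun x y => ⟨x.a + y.a, x.b + y.b + θ x.a * y.a⟩⟩
instance : One (SA θ) := ⟨⟨0, 0⟩⟩
instance : Inv (SA θ) := ⟨fun x => ⟨x.a, x.b + θ x.a * x.a⟩⟩

omit [CharP F 2] in
@[simp] theorem mul_a (x y : SA θ) : (x * y).a = x.a + y.a := rfl
omit [CharP F 2] in
@[simp] theorem mul_b (x y : SA θ) : (x * y).b = x.b + y.b + θ x.a * y.a := rfl
omit [CharP F 2] in
@[simp] theorem one_a : (1 : SA θ).a = 0 := rfl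
omit [CharP F 2] in
@[simp] theorem one_b : (1 : SA θ).b = 0 := rfl
omit [CharP F 2] in
@[simp] theorem inv_a (x : SA θ) : x⁻¹.a = x.a := rfl
omit [CharP F 2] in
@[simp] theorem inv_b (x : SA θ) : x⁻¹.b = x.b + θ x.a * x.a := rfl

instance : Group (SA θ) := Group.ofLeftAxioms
  (fun x y z => by ext <;> simp only [mul_a, mul_b, map_add] <;> ring)
  (fun x => by ext <;> simp)
  (fun x => by ext <;> simp only [mul_a, mul_b, inv_a, inv_b, one_a, one_b] <;> grind)

instance [Finite F] : Finite (SA θ) :=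
  Finite.of_injective (fun x : SA θ => (x.a, x.b)) fun _ _ h => SA.ext (congrArg Prod.fst h) (congrArg Prod.snd h)

theorem sq_eq (x : SA θ) : x * x = ⟨0, θ x.a * x.a⟩ := by
  ext <;> simp only [mul_a, mul_b] <;> grind

theorem sq_eq_one {x : SA θ} : x * x = 1 ↔ x.a = 0 := by
  rw [sq_eq, SA.ext_iff]; simp

theorem aut_a (φ : MulAut (SA θ)) {x y : SA θ} (h : x.a = y.a) : (φ x).a = (φ y).a := by
  have h1 : (x⁻¹ * y) * (x⁻¹ * y) = 1 := sq_eq_one.2 (by simp only [mul_a, inv_a]; grind)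
  have h2 := congrArg φ h1
  rw [map_mul, map_one, sq_eq_one, map_mul, map_inv, mul_a, inv_a] at h2
  grind

theorem exists_semi [Fintype F] (hc : ∀ g k : F ≃+* F, g * k = k * g) (h4 : θ ^ 4 ≠ 1) (φ : MulAut (SA θ)) :
    ∃ (s : Fˣ) (ρ : F ≃+* F), ∀ x, (φ x).a = s * ρ x.a := by
  have h0 : ∀ x : SA θ, (φ x).a = 0 ↔ x.a = 0 := fun x => by
    rw [← sq_eq_one, ← sq_eq_one, ← map_mul, MulEquiv.map_eq_one_iff]
  let A : F →+ F := AddMonoidHom.mk' (fun a => (φ ⟨a, 0⟩).a) fun a c => by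
    rw [← mul_a, ← map_mul]
    exact aut_a φ rfl
  let B : F →+ F := AddMonoidHom.mk' (fun t => (φ ⟨0, t⟩).b) fun a c => by
    have : (⟨0, a + c⟩ : SA θ) = ⟨0, a⟩ * ⟨0, c⟩ := by ext <;> simp
    rw [this, map_mul, mul_b, (h0 ⟨0, c⟩).2 rfl, mul_zero, add_zero]
  obtain ⟨s, ρ, hs⟩ := mono_of_quad hc h4 A B (fun a => by
    change (φ ⟨0, θ (⟨a, 0⟩ : SA θ).a * (⟨a, 0⟩ : SA θ).a⟩).b = _
    rw [← sq_eq, map_mul, sq_eq]
    rfl) fun h => one_ne_zero ((h0 _).1 h)
  exact ⟨s, ρ, fun x => (aut_a φ (x := x) (y := ⟨x.a, 0⟩) rfl).trans (hs x.a)⟩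

omit [CharP F 2] in
theorem nm_surj [Finite F] (hθ : ∀ x, θ (θ x) = x ^ 2) : Function.Surjective fun x => θ x * x := by
  refine Finite.surjective_of_injective fun x y h => ?_
  change θ x * x = θ y * y at h
  by_cases hy : y = 0
  · simpa [hy] using h
  have h1 := congrArg θ h
  simp only [map_mul, hθ] at h1
  have h2 : θ y * y ≠ 0 := mul_ne_zero ((map_ne_zero θ).2 hy) hy
  exact mul_left_cancel₀ h2 (by linear_combination h1 - x * h)

theorem fix_center [Finite F] (hθ : ∀ x, θ (θ x) = x ^ 2) (φ : MulAut (SA θ)) (h : ∀ x, (φ x).a = x.a)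
    {z : SA θ} (hz : z.a = 0) : φ z = z := by
  obtain ⟨t, ht⟩ := nm_surj hθ z.b
  have e : z = ⟨t, 0⟩ * ⟨t, 0⟩ := by rw [sq_eq]; exact SA.ext hz ht.symm
  rw [e, map_mul, sq_eq, sq_eq, h]

theorem sq_of_a [Finite F] (hθ : ∀ x, θ (θ x) = x ^ 2) (φ : MulAut (SA θ)) (h : ∀ x, (φ x).a = x.a) : φ * φ = 1 := by
  ext1 x
  have h1 : (x⁻¹ * φ x).a = 0 := by simp only [mul_a, inv_a, h]; grind
  have h2 := fix_center hθ φ h h1
  have h3 := sq_eq_one.2 h1
  rw [map_mul, map_inv, inv_mul_eq_iff_eq_mul] at h2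
  change φ (φ x) = x
  rw [h2]
  calc φ x * (x⁻¹ * φ x) = x * (x⁻¹ * φ x * (x⁻¹ * φ x)) := by group
    _ = x := by rw [h3, mul_one]

theorem eq_one_of_pow {g : MulAut (SA θ)} {u : F} (h : ∀ x, (g x).a = u * x.a) {k : ℕ}
    (hk : g ^ 2 ^ k = 1) : u = 1 := by
  have h1 : ∀ m x, ((g ^ m) x).a = u ^ m * x.a := fun m => by
    induction m with
    | zero => simp
    | succ m ih => intro x; rw [pow_succ', MulAut.mul_apply, h, ih, pow_succ', mul_assoc]
  have h2 := h1 (2 ^ k) ⟨1, 0⟩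
  rw [hk] at h2
  apply (iterateFrobenius F 2 k).injective
  rw [map_one, iterateFrobenius_def]
  simpa using h2.symm

/-- torus automorphisms -/
def tor : Fˣ →* MulAut (SA θ) where
  toFun s :=
    { toFun := fun x => ⟨s * x.a, θ s * s * x.b⟩
      invFun := fun x => ⟨(s⁻¹ : Fˣ) * x.a, θ (s⁻¹ : Fˣ) * (s⁻¹ : Fˣ) * x.b⟩
      left_inv := fun x => by
        have : θ s ≠ 0 := (map_ne_zero θ).2 s.ne_zero
        ext <;> simp <;> field_simp
      right_inv := fun x => by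
        have : θ s ≠ 0 := (map_ne_zero θ).2 s.ne_zero
        ext <;> simp <;> field_simp
      map_mul' := fun x y => by ext <;> simp only [mul_a, mul_b, map_mul] <;> ring }
  map_one' := by ext <;> simp
  map_mul' s t := by ext <;> simp <;> ring

theorem tor_a (s : Fˣ) (x : SA θ) : (tor s x).a = s * x.a := rfl

theorem mem_pCore [Fintype F] (hc : ∀ g k : F ≃+* F, g * k = k * g) (h4 : θ ^ 4 ≠ 1) (hθ : ∀ x, θ (θ x) = x ^ 2)
    {φ : MulAut (SA θ)} : φ ∈ pCore 2 (MulAut (SA θ)) ↔ ∀ x, (φ x).a = x.a := by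
  constructor
  · intro hφ
    obtain ⟨s, ρ, hs⟩ := exists_semi hc h4 φ
    have hn : (pCore 2 (MulAut (SA θ))).Normal := inferInstance
    have h1 : ∀ a, ρ a = a := fun a => by
      by_cases ha : a = 0
      · simp [ha]
      let t := Units.mk0 a ha
      have hg : φ * (tor t * φ⁻¹ * (tor t)⁻¹) ∈ pCore 2 (MulAut (SA θ)) :=
        mul_mem hφ (hn.conj_mem _ (inv_mem hφ) _)
      obtain ⟨k, hk⟩ := H1.isPGroup_pCore 2 _ ⟨_, hg⟩
      have := eq_one_of_pow (g := φ * (tor t * φ⁻¹ * (tor t)⁻¹)) (u := ρ a * a⁻¹) (fun x => by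
        have e := hs (φ⁻¹ (tor t⁻¹ x))
        rw [MulAut.apply_inv_self, tor_a] at e
        rw [← map_inv, MulAut.mul_apply, MulAut.mul_apply, MulAut.mul_apply, hs, tor_a, map_mul, mul_left_comm, ← e]
        simp [t, mul_assoc]) (congrArg Subtype.val hk)
      exact (mul_inv_eq_one₀ ha).1 this
    obtain ⟨k, hk⟩ := H1.isPGroup_pCore 2 _ ⟨_, hφ⟩
    have := eq_one_of_pow (g := φ) (u := s) (fun x => by rw [hs, h1]) (congrArg Subtype.val hk)
    intro x
    rw [hs, h1, this, one_mul]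
  · intro hφ
    let C : Subgroup (MulAut (SA θ)) :=
      { carrier := {φ | ∀ x, (φ x).a = x.a}
        mul_mem' := fun {f g} hf hg x => by rw [MulAut.mul_apply, hf, hg]
        one_mem' := fun _ => rfl
        inv_mem' := fun {f} hf x => by rw [← hf, MulAut.apply_inv_self] }
    exact H1.le_pCore (N := C) ⟨fun f hf g x => by
      rw [MulAut.mul_apply, MulAut.mul_apply, aut_a g (hf _), MulAut.apply_inv_self]⟩
      (fun f => ⟨1, Subtype.ext (by rw [pow_one, sq]; exact sq_of_a hθ f.1 f.2)⟩) hφ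

/-- central automorphisms -/
def cenAut (f : F →+ F) : MulAut (SA θ) where
  toFun x := ⟨x.a, x.b + f x.a⟩
  invFun x := ⟨x.a, x.b + f x.a⟩
  left_inv x := SA.ext rfl (by simp only; grind)
  right_inv x := SA.ext rfl (by simp only; grind)
  map_mul' x y := SA.ext rfl (by simp only [mul_a, mul_b, map_add]; ring)

theorem card_pCore [Fintype F] (hc : ∀ g k : F ≃+* F, g * k = k * g) (h4 : θ ^ 4 ≠ 1) (hθ : ∀ x, θ (θ x) = x ^ 2) :
    Nat.card (pCore 2 (MulAut (SA θ))) = Nat.card (F →+ F) := by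
  refine (Nat.card_congr (Equiv.ofBijective (fun f => ⟨cenAut f, (mem_pCore hc h4 hθ).2 fun _ => rfl⟩) ⟨?_, ?_⟩)).symm
  · intro f g h
    ext a
    have := congrArg (fun φ : pCore 2 (MulAut (SA θ)) => (φ.1 ⟨a, 0⟩).b) h
    exact add_left_cancel this
  · rintro ⟨φ, hφ⟩
    have h1 := (mem_pCore hc h4 hθ).1 hφ
    have key : ∀ x, (φ x).b = x.b + (φ ⟨x.a, 0⟩).b := fun x => by
      have h3 := fix_center hθ φ h1 (z := ⟨0, x.b⟩) rfl
      have h4 : x = ⟨0, x.b⟩ * ⟨x.a, 0⟩ := by ext <;> simp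
      conv_lhs => rw [h4, map_mul, h3]
      simp
    refine ⟨AddMonoidHom.mk' (fun a => (φ ⟨a, 0⟩).b) fun a c => ?_,
      Subtype.ext (MulEquiv.ext fun x => SA.ext (h1 x).symm (key x).symm)⟩
    have h2 := key (⟨a, 0⟩ * ⟨c, 0⟩)
    rw [map_mul, mul_b, mul_b, h1, h1, mul_a] at h2
    simp only at h2 ⊢
    linear_combination -h2

/-- field automorphisms -/
def fld (hc : ∀ g k : F ≃+* F, g * k = k * g) (ρ : F ≃+* F) : MulAut (SA θ) where
  toFun x := ⟨ρ x.a, ρ x.b⟩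
  invFun x := ⟨ρ.symm x.a, ρ.symm x.b⟩
  left_inv x := SA.ext (ρ.symm_apply_apply _) (ρ.symm_apply_apply _)
  right_inv x := SA.ext (ρ.apply_symm_apply _) (ρ.apply_symm_apply _)
  map_mul' x y := SA.ext (map_add ρ _ _) (by
    have : ρ (θ x.a) = θ (ρ x.a) := DFunLike.congr_fun (hc ρ θ) x.a
    simp only [mul_b, map_add, map_mul, this])

theorem card_aut [Fintype F] (hc : ∀ g k : F ≃+* F, g * k = k * g) (h4 : θ ^ 4 ≠ 1) (hθ : ∀ x, θ (θ x) = x ^ 2) :
    Nat.card (MulAut (SA θ)) = Nat.card (pCore 2 (MulAut (SA θ))) * (Nat.card (F ≃+* F) * Nat.card Fˣ) := by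
  have key : ∀ f g : MulAut (SA θ), (f : MulAut (SA θ) ⧸ pCore 2 (MulAut (SA θ))) = g ↔ ∀ x, (f x).a = (g x).a :=
    fun f g => by
      rw [QuotientGroup.eq, mem_pCore hc h4 hθ]
      exact ⟨fun h x => by rw [← aut_a f (h x), MulAut.mul_apply, MulAut.apply_inv_self],
        fun h x => by rw [MulAut.mul_apply, ← aut_a f⁻¹ (h x), MulAut.inv_apply_self]⟩
  rw [(pCore 2 (MulAut (SA θ))).card_eq_card_quotient_mul_card_subgroup, mul_comm,
    ← Nat.card_prod (F ≃+* F)]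
  congr 1
  refine (Nat.card_congr (Equiv.ofBijective (fun p : (F ≃+* F) × Fˣ => ((tor p.2 * fld hc p.1 : MulAut (SA θ)) :
    MulAut (SA θ) ⧸ pCore 2 (MulAut (SA θ)))) ⟨?_, ?_⟩)).symm
  · rintro ⟨ρ, s⟩ ⟨τ, t⟩ h
    have h1 : ∀ a, s * ρ a = t * τ a := fun a => (key _ _).1 h ⟨a, 0⟩
    have h2 : s = t := Units.ext (by simpa using h1 1)
    subst h2
    exact Prod.ext (RingEquiv.ext fun a => mul_left_cancel₀ s.ne_zero (h1 a)) rfl
  · intro q
    obtain ⟨φ, rfl⟩ := QuotientGroup.mk_surjective q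
    obtain ⟨s, ρ, hs⟩ := exists_semi hc h4 φ
    exact ⟨(ρ, s), (key _ _).2 fun x => (hs x).symm⟩

end SA

end Cfsg.Agent.H7
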