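import Cfsg.Agent.H6.Mat2
import Cfsg.Agent.H4.Dick3
import Cfsg.Agent.S0282

/-! The structure of `PSU₃(2)`. -/

set_option autoImplicit false

namespace Cfsg.Agent.H7

open Cfsg Subgroup Matrix

variable {F : Type*} [Field F] [CharP F 2] {ω : F}

/-- elements of `SU₃(2)` -/
def su (M : Matrix (Fin 3) (Fin 3) F) (h1 : M.det = 1)
    (h2 : ∀ u v, hermForm 3 F 2 (M *ᵥ u) (M *ᵥ v) = hermForm 3 F 2 u v) : SU 3 F 2 := ⟨⟨M, h1⟩, h2⟩

omit [CharP F 2] in
theorem su_ext {x y : SU 3 F 2} (h : (x.1.1 : Matrix (Fin 3) (Fin 3) F) = y.1.1) : x = y :=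
  Subtype.ext (Subtype.ext h)

/-- diagonal -/
def uD (h : ω ^ 2 + ω + 1 = 0) : SU 3 F 2 := su !![1, 0, 0; 0, ω, 0; 0, 0, ω ^ 2]
  (by simp [det_fin_three]; grind) (by intro u v; simp [hermForm, Fin.sum_univ_three, mulVec, dotProduct]; grind)

/-- cyclic shift -/
def uC : SU 3 F 2 := su !![0, 1, 0; 0, 0, 1; 1, 0, 0]
  (by simp [det_fin_three]) (by intro u v; simp [hermForm, Fin.sum_univ_three, mulVec, dotProduct]; ring)

/-- scalar -/
def uZ (h : ω ^ 2 + ω + 1 = 0) : SU 3 F 2 := su !![ω, 0, 0; 0, ω, 0; 0, 0, ω]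
  (by simp [det_fin_three]; grind) (by intro u v; simp [hermForm, Fin.sum_univ_three, mulVec, dotProduct]; grind)

/-- Fourier matrix -/
def uP (h : ω ^ 2 + ω + 1 = 0) : SU 3 F 2 := su !![1, 1, 1; 1, ω, ω ^ 2; 1, ω ^ 2, ω]
  (by simp [det_fin_three]; grind) (by intro u v; simp [hermForm, Fin.sum_univ_three, mulVec, dotProduct]; grind)

/-- conjugate of the Fourier matrix -/
def uJ (h : ω ^ 2 + ω + 1 = 0) : SU 3 F 2 := su !![1, ω, ω; ω ^ 2, ω, ω ^ 2; ω ^ 2, ω ^ 2, ω]
  (by simp [det_fin_three]; grind) (by intro u v; simp [hermForm, Fin.sum_univ_three, mulVec, dotProduct]; grind)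

/-- transposition -/
def uS : SU 3 F 2 := su !![1, 0, 0; 0, 0, 1; 0, 1, 0]
  (by simp [det_fin_three]; grind) (by intro u v; simp [hermForm, Fin.sum_univ_three, mulVec, dotProduct]; ring)

/-- underlying matrix -/
def sv : SU 3 F 2 →* Matrix (Fin 3) (Fin 3) F := (slToMat 3 F).comp (SU 3 F 2).subtype

omit [CharP F 2] in
theorem sv_su (M : Matrix (Fin 3) (Fin 3) F) (h1 h2) : sv (su M h1 h2) = M := rfl

omit [CharP F 2] in
theorem sv_inj {x y : SU 3 F 2} (h : sv x = sv y) : x = y := su_ext h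

variable (h : ω ^ 2 + ω + 1 = 0)

theorem su_rel : uP h * uD h = uC * uP h ∧ uP h * uC = uD h * uD h * uP h ∧
    uJ h * uD h = uD h * uD h * uC * uJ h * uZ h ∧ uJ h * uC = uD h * uC * uJ h * uZ h * uZ h ∧
    uP h * uP h = uS ∧ uJ h * uJ h = uS ∧ uP h * uJ h * uP h = uJ h ∧ uC * uD h = uD h * uC * uZ h ∧
    uD h * uD h * uD h = 1 ∧ (uC * uC * uC : SU 3 F 2) = 1 ∧ (uS * uS : SU 3 F 2) = 1 := by
  refine ⟨?_, ?_, ?_, ?_, ?_, ?_, ?_, ?_, ?_, ?_, ?_⟩ <;> apply sv_inj <;>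
    simp only [map_mul, map_one, uD, uC, uZ, uP, uJ, uS, sv_su, Matrix.one_fin_three, Matrix.mul_fin_three] <;>
    ext i j <;> fin_cases i <;> fin_cases j <;> simp <;> grind

theorem uZ_center : uZ h ∈ center (SU 3 F 2) := by
  rw [mem_center_iff]
  intro g
  apply sv_inj
  have : sv (uZ h) = ω • (1 : Matrix (Fin 3) (Fin 3) F) := by
    rw [uZ, sv_su]
    ext i j
    fin_cases i <;> fin_cases j <;> simp
  rw [map_mul, map_mul, this]; simp

theorem uCD : uC * uD h ≠ uD h * uC := by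
  intro e
  have := congrFun (congrFun (congrArg sv e) 0) 1
  simp only [map_mul, uD, uC, sv_su, Matrix.mul_fin_three] at this
  simp at this
  grind

theorem uSC : (uS * uC : SU 3 F 2) ≠ uC * uS := by
  intro e
  have := congrFun (congrFun (congrArg sv e) 0) 1
  simp only [map_mul, uS, uC, sv_su, Matrix.mul_fin_three] at this
  simp at this

theorem psu32 [Fintype F] (hF : Fintype.card F = 4) : ∃ (N : Subgroup (PSU 3 F 2)) (_ : N.Normal),
    Nat.card N = 9 ∧ (∀ x ∈ N, x ^ 3 = 1) ∧ Nonempty (PSU 3 F 2 ⧸ N ≃* QuaternionGroup 2) ∧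
      ∃ s : PSU 3 F 2, s * s = 1 ∧ ∀ x ∈ N, s * x * s⁻¹ = x⁻¹ := by
  obtain ⟨ω, h⟩ := H6.exists_w4 hF
  have hG := (S0282.result hF).1
  haveI : Finite (PSU 3 F 2) := Nat.finite_of_card_ne_zero (by rw [hG]; norm_num)
  obtain ⟨r1, r2, r3, r4, r5, r6, r7, r8, r9, r10, r11⟩ := su_rel h
  let π := QuotientGroup.mk' (center (SU 3 F 2))
  have hz : π (uZ h) = 1 := (QuotientGroup.eq_one_iff _).2 (uZ_center h)
  have ha1 : π (uD h) ≠ 1 := fun e => uCD h (mem_center_iff.1 ((QuotientGroup.eq_one_iff _).1 e) _)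
  have hs1 : π uS ≠ 1 := fun e => uSC (F := F) (mem_center_iff.1 ((QuotientGroup.eq_one_iff _).1 e) _).symm
  have hb : π uC ∉ zpowers (π (uD h)) := by
    rintro ⟨k, hk⟩
    have hk' : π (uD h ^ k) = π uC := by rw [map_zpow]; exact hk
    obtain ⟨z, hz, e⟩ := (QuotientGroup.mk'_eq_mk' _).1 hk'
    apply uCD h
    rw [← e, mul_assoc, ← mem_center_iff.1 hz, ← mul_assoc, ← mul_assoc, ← _root_.zpow_add_one, ← _root_.zpow_one_add, add_comm]
  apply_fun π at r1 r2 r3 r4 r5 r6 r7 r8 r9 r10 r11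
  simp only [map_mul, hz, mul_one, map_one] at r1 r2 r3 r4 r5 r6 r7 r8 r9 r10 r11
  generalize π (uD h) = a, π uC = b, π (uP h) = i, π (uJ h) = j, π uS = s at *
  have a3 : a ^ 3 = 1 := by rw [← r9]; simp [pow_succ]
  have b3 : b ^ 3 = 1 := by rw [← r10]; simp [pow_succ]
  let N : Subgroup (PSU 3 F 2) := closure {a, b}
  have haN : a ∈ N := subset_closure (by simp)
  have hbN : b ∈ N := subset_closure (by simp)
  have hcomm : ∀ x ∈ N, ∀ y ∈ N, x * y = y * x := by
    haveI : IsMulCommutative N := isMulCommutative_closure (by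
      rintro x (rfl | rfl) y (rfl | rfl)
      exacts [rfl, r8.symm, r8, rfl])
    intro x hx y hy
    exact congrArg Subtype.val (mul_comm' (⟨x, hx⟩ : N) ⟨y, hy⟩)
  have h3 : ∀ x ∈ N, x ^ 3 = 1 := by
    intro x hx
    induction hx using closure_induction with
    | mem x hx => rcases hx with rfl | rfl; exacts [a3, b3]
    | one => exact one_pow _
    | mul x y hx hy h1 h2 => rw [Commute.mul_pow (hcomm x hx y hy), h1, h2, one_mul]
    | inv x _ h1 => rw [inv_pow, h1, inv_one]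
  haveI : Fact (Nat.Prime 3) := ⟨Nat.prime_three⟩
  have hN : Nat.card N = 9 := by
    obtain ⟨k, hk⟩ := IsPGroup.iff_card.1 (show IsPGroup 3 N from fun x => ⟨1, Subtype.ext (h3 x x.2)⟩)
    have h1 : Nat.card N ∣ 72 := hG ▸ N.card_subgroup_dvd_card
    have h2 : Nat.card (zpowers a) < Nat.card N := by
      refine lt_of_le_of_ne (card_le_of_le (zpowers_le.2 haN)) fun e => hb ?_
      rw [eq_of_le_of_card_ge (zpowers_le.2 haN) e.ge]
      exact hbN
    rw [Nat.card_zpowers, orderOf_eq_prime a3 ha1] at h2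
    rw [hk] at h1 h2 ⊢
    rcases (by omega : k = 0 ∨ k = 1 ∨ k = 2 ∨ 3 ≤ k) with rfl | rfl | rfl | h4
    · omega
    · omega
    · rfl
    · have := (pow_dvd_pow 3 h4).trans h1
      omega
  have norm : ∀ g, g * a * g⁻¹ ∈ N → g * b * g⁻¹ ∈ N → g ∈ normalizer (N : Set (PSU 3 F 2)) := by
    intro g h1 h2
    refine mem_normalizer_fintype fun x hx => ?_
    have : N ≤ N.comap (MulAut.conj g).toMonoidHom := (closure_le _).2 (by
      rintro x (rfl | rfl)
      exacts [h1, h2])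
    exact this hx
  have hi : i ∈ normalizer (N : Set (PSU 3 F 2)) := norm i (by rw [r1, mul_inv_cancel_right]; exact hbN)
    (by rw [r2, mul_inv_cancel_right]; exact mul_mem haN haN)
  have hj : j ∈ normalizer (N : Set (PSU 3 F 2)) := norm j
    (by rw [r3, mul_inv_cancel_right]; exact mul_mem (mul_mem haN haN) hbN)
    (by rw [r4, mul_inv_cancel_right]; exact mul_mem haN hbN)
  have i2 : i ^ 2 = s := by rw [sq, r5]
  have hio : orderOf i = 2 * 2 := by
    have := orderOf_eq_prime_pow (p := 2) (n := 1) (x := i) (by rw [pow_one, i2]; exact hs1)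
      (by rw [show 2 ^ (1 + 1) = 2 * 2 from rfl, pow_mul, i2, sq, r11])
    rw [this]; rfl
  have hji : j * i * j⁻¹ = i⁻¹ := by
    rw [mul_inv_eq_iff_eq_mul, eq_inv_mul_iff_mul_eq, ← mul_assoc, r7]
  have hjz : j ∉ zpowers i := by
    rintro ⟨k, rfl⟩
    apply hs1
    have e : i = i⁻¹ := by rw [← hji]; group
    rw [← r5]; nth_rewrite 2 [e]; exact mul_inv_cancel i
  obtain ⟨f, hf, f1, f2⟩ := H4.exists_quat_hom two_ne_zero hio hjz (by rw [i2, sq, r6]) hji
  have hQ : f.range ≤ normalizer (N : Set (PSU 3 F 2)) := by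
    rintro _ ⟨q | q, rfl⟩
    · rw [f1]; exact pow_mem hi _
    · rw [f2]; exact mul_mem hj (pow_mem hi _)
  have hQ8 : Nat.card (QuaternionGroup 2) = 8 := by rw [Nat.card_eq_fintype_card, QuaternionGroup.card]
  have hQc : Nat.card f.range = 8 := (Nat.card_congr (MonoidHom.ofInjective hf).toEquiv).symm.trans hQ8
  have hn : N.Normal := by
    rw [← normalizer_eq_top_iff, ← card_eq_iff_eq_top, hG]
    have h1 := card_dvd_of_le hQ
    have h2 := card_dvd_of_le (le_normalizer (H := N))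
    have h4 := (normalizer (N : Set (PSU 3 F 2))).card_subgroup_dvd_card
    rw [hQc] at h1
    rw [hN] at h2
    rw [hG] at h4
    exact Nat.dvd_antisymm h4 ((show Nat.Coprime 8 9 by norm_num).mul_dvd_of_dvd_of_dvd h1 h2)
  refine ⟨N, hn, hN, h3, ⟨(MulEquiv.ofBijective ((QuotientGroup.mk' N).comp f) ?_).symm⟩, s, r11, fun x hx => ?_⟩
  · rw [Nat.bijective_iff_injective_and_card]
    constructor
    · rw [injective_iff_map_eq_one]
      intro q hq
      have h1 := h3 _ ((QuotientGroup.eq_one_iff _).1 hq)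
      rw [← map_pow, ← map_one f] at h1
      have h2 := hf h1
      revert h2
      clear hq h1
      revert q
      decide
    · have := N.card_eq_card_quotient_mul_card_subgroup
      rw [hG, hN] at this
      omega
  · have h1 : s * a * s⁻¹ = a⁻¹ := by
      rw [← r5, mul_inv_eq_iff_eq_mul, mul_assoc i i, r1, ← mul_assoc, r2, inv_eq_of_mul_eq_one_left r9, mul_assoc]
    have h2 : s * b * s⁻¹ = b⁻¹ := by
      rw [← r5, mul_inv_eq_iff_eq_mul, mul_assoc i i, r2, ← mul_assoc, ← mul_assoc, r1, mul_assoc b, r1,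
        inv_eq_of_mul_eq_one_left r10]
      simp only [mul_assoc]
    induction hx using closure_induction with
    | mem x hx => rcases hx with rfl | rfl; exacts [h1, h2]
    | one => simp
    | mul x y hx hy h1 h2 =>
      rw [hcomm x hx y hy, _root_.mul_inv_rev, ← h1, ← h2, hcomm y hy x hx]; group
    | inv x _ h1 => rw [show s * x⁻¹ * s⁻¹ = (s * x * s⁻¹)⁻¹ by group, h1]

end Cfsg.Agent.H7
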