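import Mathlib
import Cfsg.Agent.H7.Def1b
import Cfsg.Agent.H7.MultiTrans

/-! Wielandt's theorem on primitive groups of degree `2 p`. -/

namespace Cfsg.Agent.H7

open Finset MulAction Matrix
open scoped ComplexConjugate

variable {p : ℕ} [hp : Fact p.Prime]

/-- Fourier transform of a rational function -/
noncomputable def hat (j : ZMod p) (f : ZMod p → ℚ) : ℂ := ∑ h, (f h : ℂ) * ψp p (j * h)

theorem const_of_hat {j : ZMod p} (hj : j ≠ 0) {f : ZMod p → ℚ} (h : hat j f = 0) (a b : ZMod p) :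
    f a = f b := by
  have h1 : IsPrimitiveRoot (ψp p j) p := by
    have := IsPrimitiveRoot.orderOf (ψp p j)
    rwa [orderOf_eq_prime (p := p) (by rw [← ψp_natCast]; simp) fun e => hj
      (((ZMod.isPrimitive_stdAddChar p).zmod_char_eq_one_iff p j).1 e)] at this
  have h2 := (h1.sum_eq_zero_iff_forall_eq hp.out fun i : Fin p => f (i.val : ZMod p)).1 (by
    rw [← h, hat]
    refine Finset.sum_bij' (fun i _ => (i.val : ZMod p)) (fun a _ => ⟨a.val, a.val_lt⟩) (by simp)
      (by simp) (fun i _ => Fin.ext (ZMod.val_cast_of_lt i.2)) (by simp) fun i _ => ?_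
    rw [mul_comm j, ψp_natCast]) ⟨a.val, a.val_lt⟩ ⟨b.val, b.val_lt⟩
  simpa using h2

theorem hat_add (j : ZMod p) (f g : ZMod p → ℚ) : hat j (fun h => f h + g h) = hat j f + hat j g := by
  simp [hat, add_mul, Finset.sum_add_distrib]

theorem hat_sub (j : ZMod p) (f g : ZMod p → ℚ) : hat j (fun h => f h - g h) = hat j f - hat j g := by
  simp [hat, sub_mul, Finset.sum_sub_distrib]

theorem hat_ite (j : ZMod p) (l : ℚ) : hat j (fun h => if h = 0 then l else 0) = l := by
  rw [hat, Finset.sum_eq_single 0] <;> simp +contextual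

theorem hat_zero (f : ZMod p → ℚ) : hat 0 f = (∑ h, f h : ℚ) := by simp [hat]

theorem sum_hat (f : ZMod p → ℚ) : ∑ j, hat j f = p * f 0 := by
  simp only [hat]
  rw [Finset.sum_comm]
  simp only [← Finset.mul_sum, sum_ψp]
  simp [mul_comm]

theorem parseval (f : ZMod p → ℚ) : ∑ j, hat j f * conj (hat j f) = p * (∑ h, f h ^ 2 : ℚ) := by
  have : ∀ j, hat j f * conj (hat j f) = ∑ a, ∑ b, (f a * f b : ℂ) * ψp p (j * (a - b)) := fun j => by
    rw [hat, map_sum, Finset.sum_mul_sum]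
    refine Finset.sum_congr rfl fun a _ => Finset.sum_congr rfl fun b _ => ?_
    rw [map_mul (starRingEnd ℂ), conj_ψp, map_ratCast, mul_sub, sub_eq_add_neg, AddChar.map_add_eq_mul]; ring
  simp only [this]
  rw [Finset.sum_comm]
  push_cast
  rw [Finset.mul_sum]
  refine Finset.sum_congr rfl fun a _ => ?_
  rw [Finset.sum_comm]
  simp only [← Finset.mul_sum, sum_ψp]
  simp [sub_eq_zero, sq, mul_comm]

theorem two_dec {A e : Matrix (Fin 2) (Fin 2) ℂ} {l : ℂ} (ht : e 0 0 + e 1 1 = 1)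
    (h1 : A * e = l • e) (h2 : e * A = l • e) : A = l • e + (A 0 0 + A 1 1 - l) • (1 - e) := by
  have a := fun i j => congrFun (congrFun h1 i) j
  have b := fun i j => congrFun (congrFun h2 i) j
  simp only [Matrix.mul_apply, Fin.sum_univ_two, Matrix.smul_apply, smul_eq_mul] at a b
  ext i j
  fin_cases i <;> fin_cases j <;> simp
  · linear_combination a 0 0 - b 1 1 + (A 1 1 - l) * ht
  · linear_combination a 0 1 + b 0 1 - A 0 1 * ht
  · linear_combination a 1 0 + b 1 0 - A 1 0 * ht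
  · linear_combination a 1 1 - b 0 0 + (A 0 0 - l) * ht

theorem two_idem {e : Matrix (Fin 2) (Fin 2) ℂ} (h : e * e = e) (h0 : e 0 0 ≠ 0) :
    e = 1 ∨ e 0 0 + e 1 1 = 1 := by
  have a := fun i j => congrFun (congrFun h i) j
  simp only [Matrix.mul_apply, Fin.sum_univ_two] at a
  refine or_iff_not_imp_right.2 fun ht => ?_
  have ht' := sub_ne_zero.2 ht
  have h1 : e 0 1 = 0 := (mul_eq_zero.1 (by linear_combination a 0 1)).resolve_right ht'
  have h2 : e 1 0 = 0 := (mul_eq_zero.1 (by linear_combination a 1 0)).resolve_right ht'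
  have h3 : e 0 0 = 1 := mul_left_cancel₀ h0 (by linear_combination a 0 0 - e 1 0 * h1)
  have h4 : e 0 0 - e 1 1 = 0 :=
    (mul_eq_zero.1 (by linear_combination a 0 0 - a 1 1)).resolve_right ht'
  ext i j
  fin_cases i <;> fin_cases j <;> simp [h1, h2, h3, ← sub_eq_zero.1 h4]

variable {G Ω : Type*} [Group G] [MulAction G Ω] [Fintype Ω] [DecidableEq Ω]

/-- invariant matrices -/
def MInv (G : Type*) [Group G] [MulAction G Ω] (A : Matrix Ω Ω ℚ) : Prop :=
  ∀ (g : G) a b, A (g • a) (g • b) = A a b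

omit [DecidableEq Ω] in
theorem MInv.mul {A B : Matrix Ω Ω ℚ} (hA : MInv G A) (hB : MInv G B) : MInv G (A * B) := by
  intro g a b
  rw [Matrix.mul_apply, Matrix.mul_apply, ← Equiv.sum_comp (MulAction.toPerm g)]
  exact Finset.sum_congr rfl fun c _ => congrArg₂ (· * ·) (hA g a c) (hB g c b)

omit [Fintype Ω] [DecidableEq Ω] in
theorem MInv.transpose {A : Matrix Ω Ω ℚ} (hA : MInv G A) : MInv G Aᵀ := fun g a b => hA g b a

omit [DecidableEq Ω] in
theorem MInv.row [IsPretransitive G Ω] {A : Matrix Ω Ω ℚ} (hA : MInv G A) (a a' : Ω) :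
    ∑ b, A a b = ∑ b, A a' b := by
  obtain ⟨g, rfl⟩ := exists_smul_eq G a a'
  rw [← Equiv.sum_comp (MulAction.toPerm g) (A (g • a))]
  exact Finset.sum_congr rfl fun c _ => (hA g a c).symm

omit [Fintype Ω] [DecidableEq Ω] in
theorem MInv.diag [IsPretransitive G Ω] {A : Matrix Ω Ω ℚ} (hA : MInv G A) (a a' : Ω) :
    A a a = A a' a' := by
  obtain ⟨g, rfl⟩ := exists_smul_eq G a a'
  exact (hA g a a).symm

/-- coordinates in which `x` is a translation -/
structure Crd (x : G) (c : Fin 2 × ZMod p ≃ Ω) : Prop where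
  smul : ∀ i k, x • c (i, k) = c (i, k + 1)

/-- blocks of a matrix -/
def blk (c : Fin 2 × ZMod p ≃ Ω) (A : Matrix Ω Ω ℚ) (i i' : Fin 2) (h : ZMod p) : ℚ :=
  A (c (i, 0)) (c (i', h))

/-- Fourier transform of a matrix -/
noncomputable def Phi (c : Fin 2 × ZMod p ≃ Ω) (j : ZMod p) (A : Matrix Ω Ω ℚ) :
    Matrix (Fin 2) (Fin 2) ℂ := fun i i' => hat j (blk c A i i')

/-- the eigenvalue on the sign vector -/
noncomputable def lam (c : Fin 2 × ZMod p ≃ Ω) (A : Matrix Ω Ω ℚ) : ℚ :=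
  ∑ h, blk c A 0 0 h - ∑ h, blk c A 0 1 h

/-- the sign vector -/
def sg (c : Fin 2 × ZMod p ≃ Ω) (a : Ω) : ℚ := if (c.symm a).1 = 0 then 1 else -1

variable {x : G} {c : Fin 2 × ZMod p ≃ Ω} {A B : Matrix Ω Ω ℚ}

omit [DecidableEq Ω] in
theorem sum_crd {M : Type*} [AddCommMonoid M] (c : Fin 2 × ZMod p ≃ Ω) (f : Ω → M) :
    ∑ b, f b = ∑ k, f (c (0, k)) + ∑ k, f (c (1, k)) := by
  rw [← c.sum_comp, Fintype.sum_prod_type, Fin.sum_univ_two]

omit [Fintype Ω] [DecidableEq Ω] in
theorem Crd.pow (h : Crd x c) (n : ℕ) (i : Fin 2) (k : ZMod p) :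
    x ^ n • c (i, k) = c (i, k + n) := by
  induction n with
  | zero => simp
  | succ n ih => rw [pow_succ', mul_smul, ih, h.smul]; simp [add_assoc]

omit [Fintype Ω] [DecidableEq Ω] in
theorem Crd.apply (h : Crd x c) (hA : MInv G A) (i i' : Fin 2) (k l : ZMod p) :
    A (c (i, k)) (c (i', l)) = blk c A i i' (l - k) := by
  rw [blk, ← hA (x ^ k.val) (c (i, 0)), h.pow, h.pow]; simp

omit [DecidableEq Ω] in
theorem Crd.Phi_mul (h : Crd x c) (j : ZMod p) (hB : MInv G B) :
    Phi c j (A * B) = Phi c j A * Phi c j B := by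
  ext i i'
  have : ∀ k, blk c (A * B) i i' k = ∑ l, blk c A i 0 l * blk c B 0 i' (k - l) +
      ∑ l, blk c A i 1 l * blk c B 1 i' (k - l) := fun k => by
    rw [blk, Matrix.mul_apply, sum_crd c]
    simp only [h.apply hB]; rfl
  simp only [Matrix.mul_apply, Fin.sum_univ_two, Phi, hat, this]
  push_cast
  simp only [Finset.sum_mul_sum]
  simp only [add_mul, Finset.sum_add_distrib, Finset.sum_mul]
  congr 1 <;> rw [Finset.sum_comm] <;> refine Finset.sum_congr rfl fun k _ => ?_ <;>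
    rw [← Equiv.sum_comp (Equiv.addRight k)] <;> refine Finset.sum_congr rfl fun l _ => ?_ <;>
    simp only [Equiv.coe_addRight, add_sub_cancel_right, mul_add, AddChar.map_add_eq_mul] <;> ring

omit [Fintype Ω] [DecidableEq Ω] in
theorem Crd.blk_transpose (h : Crd x c) (hA : MInv G A) (i i' : Fin 2) (k : ZMod p) :
    blk c Aᵀ i i' k = blk c A i' i (-k) := by
  rw [blk, Matrix.transpose_apply, h.apply hA, zero_sub]

omit [Fintype Ω] [DecidableEq Ω] in
theorem Crd.Phi_transpose (h : Crd x c) (j : ZMod p) (hA : MInv G A) (i i' : Fin 2) :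
    Phi c j Aᵀ i i' = conj (Phi c j A i' i) := by
  simp only [Phi, hat, h.blk_transpose hA, map_sum, map_mul, conj_ψp, map_ratCast]
  rw [← Equiv.sum_comp (Equiv.neg _)]
  simp

omit [Fintype Ω] [DecidableEq Ω] in
theorem Crd.sum_transpose (h : Crd x c) (hA : MInv G A) (i i' : Fin 2) :
    ∑ k, blk c Aᵀ i i' k = ∑ k, blk c A i' i k := by
  simp only [h.blk_transpose hA]
  exact Equiv.sum_comp (Equiv.neg (ZMod p)) _

omit [DecidableEq Ω] in
theorem row_eq (c : Fin 2 × ZMod p ≃ Ω) (A : Matrix Ω Ω ℚ) (i : Fin 2) :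
    ∑ b, A (c (i, 0)) b = ∑ k, blk c A i 0 k + ∑ k, blk c A i 1 k := sum_crd c _

variable [IsPretransitive G Ω]

omit [DecidableEq Ω] in
theorem Crd.sums (h : Crd x c) (hA : MInv G A) :
    ∑ k, blk c A 1 1 k = ∑ k, blk c A 0 0 k ∧ ∑ k, blk c A 1 0 k = ∑ k, blk c A 0 1 k := by
  have h1 := hA.row (c (0, 0)) (c (1, 0))
  have h2 := hA.transpose.row (c (0, 0)) (c (1, 0))
  rw [row_eq, row_eq] at h1 h2
  simp only [h.sum_transpose hA] at h2
  constructor <;> linarith

omit [DecidableEq Ω] in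
theorem Crd.mul_sg (h : Crd x c) (hA : MInv G A) (g : G) (a : Ω) :
    ∑ b, A a b * sg c (g • b) = lam c A * sg c (g • a) := by
  rw [← Finset.sum_congr rfl fun b _ => congrArg (· * sg c (g • b)) (hA g a b)]
  refine (Equiv.sum_comp (MulAction.toPerm g) fun b => A (g • a) b * sg c b).trans ?_
  obtain ⟨⟨i, k⟩, e⟩ := c.surjective (g • a)
  rw [← e, sum_crd c]
  simp only [h.apply hA, sg, Equiv.symm_apply_apply, lam]
  have := h.sums hA
  have h1 := fun i' => Equiv.sum_comp (Equiv.subRight k) (blk c A i i')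
  simp only [Equiv.subRight_apply] at h1
  fin_cases i <;> simp at h1 ⊢ <;> simp only [h1, this] <;> ring

theorem Crd.scalar (h : Crd x c) (hA : MInv G A) {j : ZMod p} (hj : j ≠ 0)
    (h1 : Phi c j A = (lam c A : ℂ) • 1) {a b : Ω} (hab : a ≠ b) : A a b = A a a - lam c A := by
  have h2 : ∀ i k, k ≠ 0 → blk c A i i k = A a a - lam c A := fun i k hk => by
    have := const_of_hat hj (f := fun h => blk c A i i h - if h = 0 then lam c A else 0) (by
      rw [hat_sub, hat_ite, sub_eq_zero]; simpa [Phi] using congrFun (congrFun h1 i) i) k 0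
    simp only [hk, if_false, if_true, sub_zero] at this
    rw [this, blk, hA.diag a]
  have h3 : ∀ i i', i ≠ i' → ∀ k, blk c A i i' k = blk c A i i' 0 := fun i i' e k =>
    const_of_hat hj (by simpa [e, Phi] using congrFun (congrFun h1 i) i') k 0
  have h4 : ∑ k, blk c A 0 0 k = lam c A + p * (A a a - lam c A) := by
    rw [Finset.sum_congr rfl (g := fun k => (if k = 0 then lam c A else 0) + (A a a - lam c A))
      fun k _ => by
        split_ifs with e
        · rw [e, blk, hA.diag a]; ring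
        · rw [h2 _ _ e, zero_add]]
    simp [Finset.sum_add_distrib]; ring
  have h5 : ∀ i i', i ≠ i' → ∑ k, blk c A i i' k = p * blk c A i i' 0 := fun i i' e => by
    simp [h3 i i' e]
  have h6 : (p : ℚ) ≠ 0 := Nat.cast_ne_zero.2 hp.out.ne_zero
  have h7 : blk c A 0 1 0 = A a a - lam c A := mul_left_cancel₀ h6 (by
    rw [← h5 0 1 (by simp)]; have := lam.eq_1 c A; linarith)
  have h8 : blk c A 1 0 0 = A a a - lam c A := mul_left_cancel₀ h6 (by
    rw [← h5 1 0 (by simp), (h.sums hA).2, h5 0 1 (by simp), h7])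
  generalize A a a = d at *
  obtain ⟨⟨i, k⟩, rfl⟩ := c.surjective a
  obtain ⟨⟨i', l⟩, rfl⟩ := c.surjective b
  rw [h.apply hA]
  by_cases e : i = i'
  · subst e
    exact h2 _ _ fun e => hab (by rw [sub_eq_zero.1 e])
  · rw [h3 _ _ e]
    fin_cases i <;> fin_cases i' <;> simp_all

omit [DecidableEq Ω] [IsPretransitive G Ω] [Fintype Ω] in
theorem Crd.lam_transpose' (h : Crd x c) (hA : MInv G A)
    (h1 : ∑ k, blk c A 1 0 k = ∑ k, blk c A 0 1 k) : lam c Aᵀ = lam c A := by
  rw [lam, lam, h.sum_transpose hA, h.sum_transpose hA, h1]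

omit [DecidableEq Ω] [IsPretransitive G Ω] [Fintype Ω] in
theorem sg_cases (c : Fin 2 × ZMod p ≃ Ω) (a : Ω) : sg c a = 1 ∨ sg c a = -1 := by
  unfold sg; split_ifs <;> simp

omit [DecidableEq Ω] [IsPretransitive G Ω] [Fintype Ω] in
theorem sg_eq_iff (c : Fin 2 × ZMod p ≃ Ω) (i i' : Fin 2) (k l : ZMod p) :
    sg c (c (i, k)) = sg c (c (i', l)) ↔ i = i' := by
  fin_cases i <;> fin_cases i' <;> simp [sg] <;> norm_num

omit [DecidableEq Ω] [IsPretransitive G Ω] [Fintype Ω] in
theorem sg_sep [IsPreprimitive G Ω] (c : Fin 2 × ZMod p ≃ Ω) {a b : Ω} (hab : a ≠ b) :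
    ¬ (∀ g : G, sg c (g • a) = sg c (g • b)) ∧ ¬ ∀ g : G, sg c (g • a) = -sg c (g • b) := by
  have h1 : ∀ a b : Ω, (∀ g : G, sg c (g • a) = sg c (g • b)) → a = b := fun a b h => by
    rcases prim_block (G := G) {b | ∀ g : G, sg c (g • a) = sg c (g • b)} (fun g y hy hy' z hz k => by
      rw [hy' k, ← mul_smul, ← mul_smul, ← hy, hz]) with e | e
    · exact e (fun _ => rfl) h
    · have h2 := Set.eq_univ_iff_forall.1 e
      exact absurd ((sg_eq_iff c 0 1 0 0).1 (by
        simpa using (h2 (c (0, 0)) 1).symm.trans (h2 (c (1, 0)) 1))) (by simp)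
  refine ⟨fun h => hab (h1 a b h), fun h => ?_⟩
  rcases prim_block (G := G) {b | ∃ s : ℚ, (s = 1 ∨ s = -1) ∧ ∀ g : G, sg c (g • a) = s * sg c (g • b)}
    (by
      rintro g y ⟨s, hs, hy⟩ ⟨t, ht, hy'⟩ z ⟨u, hu, hz⟩
      refine ⟨t * s * u, by rcases hs with rfl | rfl <;> rcases ht with rfl | rfl <;>
        rcases hu with rfl | rfl <;> simp, fun k => ?_⟩
      have := hy (k * g)
      rw [hy' k, ← mul_smul, ← mul_smul, mul_assoc, mul_assoc, ← hz, this]
      rcases hs with rfl | rfl <;> simp) with e | e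
  · exact hab (e ⟨1, Or.inl rfl, by simp⟩ ⟨-1, Or.inr rfl, by simpa using h⟩)
  · have h2 := Set.eq_univ_iff_forall.1 e
    have h3 : ∀ y z : Ω, sg c y = sg c z → y = z := fun y z h => by
      obtain ⟨s, hs, hy⟩ := h2 y
      obtain ⟨t, ht, hz⟩ := h2 z
      have h4 : s = t := by
        have := (hy 1).symm.trans (hz 1)
        rw [one_smul, one_smul, h] at this
        exact mul_right_cancel₀ (by rcases sg_cases c z with e | e <;> simp [e]) this
      subst h4
      exact h1 y z fun g => mul_left_cancel₀ (a := s) (by rcases ht with e | e <;> simp [e])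
        ((hy g).symm.trans (hz g))
    simpa using h3 _ _ ((sg_eq_iff c 0 0 0 1).2 rfl)

omit [IsPretransitive G Ω] in
theorem Crd.exists_E [Fintype G] [IsPreprimitive G Ω] (h : Crd x c) : ∃ E : Matrix Ω Ω ℚ, MInv G E ∧
    Eᵀ = E ∧ (∀ A, MInv G A → A * E = lam c A • E ∧ E * A = lam c A • E) ∧ lam c E = 1 ∧
    (∀ a, ∑ b, E a b = 0) ∧ ∀ j, j ≠ 0 → Phi c j E 0 0 ≠ 0 := by
  obtain ⟨T, eT⟩ : ∃ T : Matrix Ω Ω ℚ, ∀ a b, T a b = ∑ g : G, sg c (g • a) * sg c (g • b) :=
    ⟨_, fun _ _ => rfl⟩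
  have hT : MInv G T := fun g a b => by
    simp only [eT, ← mul_smul]
    exact Equiv.sum_comp (Equiv.mulRight g) fun k => sg c (k • a) * sg c (k • b)
  have hT' : Tᵀ = T := by ext a b; simp [eT, mul_comm]
  have h1 : ∀ A, MInv G A → A * T = lam c A • T := fun A hA => by
    ext a b
    simp only [Matrix.mul_apply, eT, Finset.mul_sum, Matrix.smul_apply, smul_eq_mul]
    rw [Finset.sum_comm]
    refine Finset.sum_congr rfl fun g _ => ?_
    rw [← mul_assoc, ← h.mul_sg hA, Finset.sum_mul]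
    simp only [mul_assoc]
  have h2 : ∀ A, MInv G A → T * A = lam c A • T := fun A hA => by
    have := congrArg Matrix.transpose (h1 _ hA.transpose)
    rwa [Matrix.transpose_mul, Matrix.transpose_smul, hT', Matrix.transpose_transpose,
      h.lam_transpose' hA (h.sums hA).2] at this
  have h3 : ∀ a, T a a = Fintype.card G := fun a => by
    rw [eT, ← Finset.card_univ, Finset.card_eq_sum_ones]
    push_cast
    exact Finset.sum_congr rfl fun g _ => by rcases sg_cases c (g • a) with e | e <;> simp [e]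
  have h4 : lam c T ≠ 0 := fun e => by
    have := congrFun (congrFun (h1 T hT) (c (0, 0))) (c (0, 0))
    rw [e, zero_smul, Matrix.mul_apply, Matrix.zero_apply, Finset.sum_eq_zero_iff_of_nonneg
      fun b _ => by rw [← congrFun (congrFun hT' b)]; exact mul_self_nonneg _] at this
    have := this _ (Finset.mem_univ (c (0, 0)))
    simp [h3] at this
  have h5 : ∀ i i' k, blk c ((lam c T)⁻¹ • T) i i' k = (lam c T)⁻¹ * blk c T i i' k := fun _ _ _ => rfl
  refine ⟨(lam c T)⁻¹ • T, fun g a b => by simp [hT g a b], by rw [Matrix.transpose_smul, hT'],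
    fun A hA => ⟨by rw [Matrix.mul_smul, h1 A hA, smul_comm], by
      rw [Matrix.smul_mul, h2 A hA, smul_comm]⟩, ?_, fun a => ?_, fun j hj e => ?_⟩
  · rw [lam]
    simp only [h5, ← Finset.mul_sum]
    rw [← mul_sub]; exact inv_mul_cancel₀ h4
  · simp only [Matrix.smul_apply, smul_eq_mul, ← Finset.mul_sum, eT]
    rw [Finset.sum_comm, Finset.sum_eq_zero, mul_zero]
    intro g _
    rw [← Finset.mul_sum, show ∑ i, sg c (g • i) = ∑ i, sg c i from Equiv.sum_comp (MulAction.toPerm g) (sg c), sum_crd c]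
    simp [sg]
  · have h6 := const_of_hat hj e 1 0
    rw [h5, h5, mul_right_inj' (inv_ne_zero h4), blk, blk, h3, eT, ← Finset.card_univ,
      Finset.card_eq_sum_ones, Nat.cast_sum] at h6
    refine (sg_sep (G := G) c (a := c (0, 0)) (b := c (0, 1)) (by simp)).1 fun g => ?_
    have := (Finset.sum_eq_sum_iff_of_le fun g _ => by
      rcases sg_cases c (g • c (0, 0)) with e | e <;> rcases sg_cases c (g • c (0, 1)) with e' | e' <;>
        simp [e, e']).1 h6 g (Finset.mem_univ _)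
    rcases sg_cases c (g • c (0, 0)) with e | e <;> rcases sg_cases c (g • c (0, 1)) with e' | e' <;>
      simp_all <;> norm_num at this

omit [DecidableEq Ω] [IsPretransitive G Ω] [Fintype Ω] in
theorem Phi_smul (j : ZMod p) (l : ℚ) (A : Matrix Ω Ω ℚ) : Phi c j (l • A) = (l : ℂ) • Phi c j A := by
  ext i i'
  simp [Phi, hat, blk, Finset.mul_sum, mul_assoc]

/-- orbital matrix -/
noncomputable def orb (G : Type*) [Group G] [MulAction G Ω] (a b : Ω) : Matrix Ω Ω ℚ :=
  open Classical in fun u v => if ∃ g : G, g • a = u ∧ g • b = v then 1 else 0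

omit [DecidableEq Ω] [IsPretransitive G Ω] [Fintype Ω] in
theorem orb_inv (a b : Ω) : MInv G (orb G a b) := fun g u v => by
  unfold orb
  congr 1
  refine propext ⟨fun ⟨k, h1, h2⟩ => ⟨g⁻¹ * k, ?_, ?_⟩, fun ⟨k, h1, h2⟩ => ⟨g * k, ?_, ?_⟩⟩ <;>
    simp [mul_smul, h1, h2]

omit [IsPretransitive G Ω] in
theorem Crd.exists_E' [Fintype G] [IsPreprimitive G Ω] (h : Crd x c)
    (h2 : ¬ IsMultiplyPretransitive G Ω 2) : ∃ E : Matrix Ω Ω ℚ, MInv G E ∧ Eᵀ = E ∧
    (∀ A, MInv G A → ∀ j, Phi c j A = (lam c A : ℂ) • Phi c j E +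
      (Phi c j A 0 0 + Phi c j A 1 1 - lam c A) • (1 - Phi c j E)) ∧ E * E = E ∧
    (∀ a, ∑ b, E a b = 0) ∧ (∀ k, blk c E 0 0 k + blk c E 1 1 k = if k = 0 then 1 else 0) ∧
    (∀ a, E a a = 1 / 2) ∧ ∃ κ, ∀ a b, a ≠ b → E a b ^ 2 = κ := by
  obtain ⟨E, hE, hE', h3, h4, h5, h6⟩ := h.exists_E
  have h7 : E * E = E := by rw [(h3 E hE).1, h4, one_smul]
  have h8 : ∀ A, MInv G A → ∀ j, Phi c j A * Phi c j E = (lam c A : ℂ) • Phi c j E ∧
      Phi c j E * Phi c j A = (lam c A : ℂ) • Phi c j E := fun A hA j => by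
    rw [← h.Phi_mul j hE, ← h.Phi_mul j hA, (h3 A hA).1, (h3 A hA).2, Phi_smul]; simp
  have h9 : Phi c 1 E 0 0 + Phi c 1 E 1 1 = 1 := by
    refine (two_idem (by rw [← h.Phi_mul 1 hE, h7]) (h6 1 one_ne_zero)).resolve_left fun e => h2 ?_
    refine is_two_pretransitive_iff.2 fun {a b u v} hab huv => ?_
    have h9 := (h8 _ (orb_inv a b) 1).1
    rw [e, mul_one] at h9
    have h10 := h.scalar (orb_inv a b) one_ne_zero h9 hab
    have h11 := h.scalar (orb_inv a b) one_ne_zero h9 huv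
    rw [(orb_inv (G := G) a b).diag u a, ← h10] at h11
    by_contra e
    rw [orb, orb, if_neg e, if_pos ⟨1, by simp⟩] at h11
    exact zero_ne_one h11
  have hs : ∑ k, blk c E 0 0 k = 1 / 2 ∧ ∑ k, blk c E 0 1 k = -1 / 2 := by
    have := h5 (c (0, 0))
    rw [row_eq] at this
    rw [lam] at h4
    constructor <;> linarith
  have h10 : ∀ k, blk c E 0 0 k + blk c E 1 1 k = if k = 0 then 1 else 0 := fun k => by
    have h10 := const_of_hat one_ne_zero
      (f := fun k => blk c E 0 0 k + blk c E 1 1 k - if k = 0 then 1 else 0) (by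
        rw [hat_sub, hat_add, hat_ite, sub_eq_zero]; exact_mod_cast h9)
    have h11 : ∑ l : ZMod p, (blk c E 0 0 l + blk c E 1 1 l - if l = 0 then 1 else 0) = 0 := by
      simp [Finset.sum_add_distrib, (h.sums hE).1, hs]; norm_num
    rw [Finset.sum_congr rfl fun l _ => h10 l k] at h11
    rw [Finset.sum_const, nsmul_eq_mul, mul_eq_zero, sub_eq_zero] at h11
    exact h11.resolve_left (by simp [hp.out.ne_zero])
  have h11 : ∀ A, MInv G A → ∀ j, Phi c j A = (lam c A : ℂ) • Phi c j E +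
      (Phi c j A 0 0 + Phi c j A 1 1 - lam c A) • (1 - Phi c j E) := fun A hA j =>
    two_dec (by rw [Phi, Phi, ← hat_add]; simp only [h10, hat_ite]; simp) (h8 A hA j).1 (h8 A hA j).2
  have h12 : ∀ a, E a a = 1 / 2 := fun a => by
    have := h10 0
    rw [blk, blk, hE.diag _ a, hE.diag (c (1, 0)) a, if_pos rfl] at this
    linarith
  refine ⟨E, hE, hE', h11, h7, h5, h10, h12, ?_⟩
  have h13 : Phi c 1 E 0 0 - Phi c 1 E 1 1 ≠ 0 := fun e => by
    have h13 := fun k => const_of_hat one_ne_zero (f := fun k => blk c E 0 0 k - blk c E 1 1 k) (by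
      rw [hat_sub]; exact e) k 0
    have h14 : ∀ i k l, k ≠ l → E (c (i, k)) (c (i, l)) = 0 := fun i k l e => by
      have a := h13 (l - k)
      have b := h10 (l - k)
      rw [if_neg (sub_ne_zero.2 e.symm)] at b
      rw [blk.eq_1 c E 0 0 0, blk.eq_1 c E 1 1 0, h12, h12] at a
      rw [h.apply hE]
      fin_cases i <;> simp <;> linarith
    obtain ⟨k, -, hk⟩ := Finset.exists_ne_zero_of_sum_ne_zero (by rw [hs.2]; norm_num :
      ∑ k, blk c E 0 1 k ≠ 0)
    refine (sg_sep (G := G) c (a := c (0, 0)) (b := c (1, k)) (by simp)).2 fun g => ?_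
    rw [blk, ← hE g] at hk
    have h15 : g • c (0, 0) ≠ g • c (1, k) := by simp
    obtain ⟨⟨i, u⟩, e1⟩ := c.surjective (g • c (0, 0))
    obtain ⟨⟨i', v⟩, e2⟩ := c.surjective (g • c (1, k))
    rw [← e1, ← e2] at hk h15 ⊢
    have h16 : i ≠ i' := by
      rintro rfl
      exact hk (h14 _ _ _ fun e => h15 (by rw [e]))
    clear e1 e2 hk h15
    fin_cases i <;> fin_cases i' <;> simp [sg] at h16 ⊢
  obtain ⟨N, eN⟩ : ∃ N : Matrix Ω Ω ℚ, ∀ a b, N a b = E a b ^ 2 := ⟨_, fun _ _ => rfl⟩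
  have hN : MInv G N := fun g a b => by simp [eN, hE g a b]
  have h14 : Phi c 1 N 0 0 = Phi c 1 N 1 1 := by
    rw [Phi, Phi]
    congr 1
    ext k
    rw [blk, blk, eN, eN]
    change blk c E 0 0 k ^ 2 = blk c E 1 1 k ^ 2
    have := h10 k
    split_ifs at this with e
    · rw [e, blk, blk, h12, h12]
    · rw [eq_neg_of_add_eq_zero_left this, neg_sq]
  have h15 := h11 N hN 1
  have h16 : Phi c 1 N 0 0 + Phi c 1 N 1 1 - lam c N = lam c N := by
    have a := congrFun (congrFun h15 0) 0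
    have b := congrFun (congrFun h15 1) 1
    simp only [Matrix.add_apply, Matrix.smul_apply, Matrix.sub_apply, Matrix.one_apply_eq,
      smul_eq_mul] at a b
    exact mul_right_cancel₀ h13 (by linear_combination a - b - h14)
  rw [h16, ← smul_add, add_sub_cancel] at h15
  exact ⟨1 / 4 - lam c N, fun a b hab => (eN a b).symm.trans ((h.scalar hN one_ne_zero h15 hab).trans (by
    simp only [eN, h12]; norm_num))⟩

theorem Crd.valency (h : Crd x c) {E : Matrix Ω Ω ℚ} (hE : MInv G E) (hE' : Eᵀ = E)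
    (h1 : ∀ A, MInv G A → ∀ j, Phi c j A = (lam c A : ℂ) • Phi c j E +
      (Phi c j A 0 0 + Phi c j A 1 1 - lam c A) • (1 - Phi c j E)) (h2 : E * E = E)
    (h3 : ∀ k, blk c E 0 0 k + blk c E 1 1 k = if k = 0 then 1 else 0) {v : ℚ} (hv : v ≠ 0)
    (hA : MInv G A) (h4 : ∀ a b, A a b = 0 ∨ (A a b = 1 ∧ a ≠ b ∧ E a b = v)) :
    ∑ k, blk c A 0 1 k = lam c A ^ 2 := by
  have h5 : ∀ j, Phi c j (A * Aᵀ) 0 0 + Phi c j (A * Aᵀ) 1 1 = (lam c A : ℂ) ^ 2 +
      hat j (fun k => blk c A 0 0 k + blk c A 1 1 k - if k = 0 then lam c A else 0) *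
      conj (hat j (fun k => blk c A 0 0 k + blk c A 1 1 k - if k = 0 then lam c A else 0)) := by
    intro j
    have a := h1 _ hA.transpose j
    have b : Phi c j E * Phi c j E = Phi c j E := by rw [← h.Phi_mul j hE, h2]
    have d : Phi c j E 0 0 + Phi c j E 1 1 = 1 := by
      rw [Phi, Phi, ← hat_add]; simp only [h3, hat_ite]; simp
    rw [h.lam_transpose' hA (h.sums hA).2, h.Phi_transpose j hA, h.Phi_transpose j hA] at a
    have key : ∀ (X Y e : Matrix (Fin 2) (Fin 2) ℂ) (l m m' : ℂ), X = l • e + m • (1 - e) →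
        Y = l • e + m' • (1 - e) → e * e = e → e 0 0 + e 1 1 = 1 →
        (X * Y) 0 0 + (X * Y) 1 1 = l ^ 2 + m * m' := by
      rintro _ _ e l m m' rfl rfl b d
      simp only [add_mul, mul_add, Matrix.smul_mul, Matrix.mul_smul, sub_mul, mul_sub, b, one_mul,
        mul_one, sub_self, smul_zero, add_zero, zero_add, sub_zero, Matrix.add_apply, Matrix.smul_apply,
        Matrix.sub_apply, Matrix.one_apply_eq, smul_eq_mul]
      linear_combination (l ^ 2 - m * m') * d
    rw [h.Phi_mul j hA.transpose, key _ _ _ _ _ _ (h1 _ hA j) a b d, hat_sub, hat_add, hat_ite,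
      map_sub, map_add, map_ratCast]
    rfl
  have h6 := Finset.sum_congr rfl fun j (_ : j ∈ univ) => h5 j
  have h7 : ∀ i, blk c (A * Aᵀ) i i 0 = ∑ k, blk c A i 0 k + ∑ k, blk c A i 1 k := fun i => by
    rw [blk, Matrix.mul_apply, ← row_eq]
    exact Finset.sum_congr rfl fun b _ => by rcases h4 (c (i, 0)) b with e | e <;> simp [e]
  have h8 : ∀ k, (blk c A 0 0 k + blk c A 1 1 k - if k = 0 then lam c A else 0) ^ 2 =
      blk c A 0 0 k + blk c A 1 1 k + if k = 0 then lam c A ^ 2 else 0 := fun k => by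
    have a := h3 k
    unfold blk at a ⊢
    rcases h4 (c (0, 0)) (c (0, k)) with e | ⟨e, e1, e2⟩ <;>
      rcases h4 (c (1, 0)) (c (1, k)) with f | ⟨f, f1, f2⟩ <;> rw [e, f] <;> split_ifs at a ⊢ with g
    all_goals first | (norm_num; done) | (subst g; contradiction) | (exfalso; apply hv; linarith)
  simp only [Phi, Finset.sum_add_distrib, sum_hat, parseval, h7, h8, h.sums hA, Finset.sum_const,
    Finset.card_univ, ZMod.card, nsmul_eq_mul, Finset.sum_ite_eq', Finset.mem_univ, if_true] at h6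
  have h9 : (∑ k, blk c A 0 1 k : ℚ) = ((lam c A ^ 2 : ℚ) : ℂ) := mul_left_cancel₀
    (mul_ne_zero two_ne_zero p_ne_zero) (by push_cast at h6 ⊢; linear_combination h6)
  exact_mod_cast h9

omit [IsPretransitive G Ω] in
theorem Crd.main [Fintype G] [IsPreprimitive G Ω] (h : Crd x c)
    (h2 : ¬ IsMultiplyPretransitive G Ω 2) : ∃ n : ℕ, 0 < n ∧ p = 2 * n ^ 2 + 2 * n + 1 ∧
    ∃ σ : Ω → Ω → Bool, (∀ a b u v, a ≠ b → u ≠ v → ((∃ g : G, g • a = u ∧ g • b = v) ↔ σ a b = σ u v)) ∧
      ∀ a, (univ.filter fun b => b ≠ a ∧ σ a b = true).card = n * (2 * n + 1) ∧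
        (univ.filter fun b => b ≠ a ∧ σ a b = false).card = (n + 1) * (2 * n + 1) := by
  obtain ⟨E, hE, hE', h1, h3, h4, h5, h6, κ, h7⟩ := h.exists_E' h2
  have hc : Fintype.card Ω = 2 * p := by rw [← Fintype.card_congr c]; simp
  have h8 : (2 * p - 1 : ℚ) * κ = 1 / 4 := by
    have := congrFun (congrFun h3 (c (0, 0))) (c (0, 0))
    rw [Matrix.mul_apply, ← Finset.add_sum_erase _ _ (Finset.mem_univ (c (0, 0))), h6,
      Finset.sum_congr rfl (g := fun _ => κ) fun b hb => by
        rw [← congrFun (congrFun hE' b), Matrix.transpose_apply, ← sq,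
          h7 _ _ (Finset.ne_of_mem_erase hb).symm], Finset.sum_const,
      Finset.card_erase_of_mem (Finset.mem_univ _), Finset.card_univ, hc, nsmul_eq_mul,
      Nat.cast_sub (by have := hp.out.pos; omega)] at this
    push_cast at this
    linarith
  have hκ : κ ≠ 0 := by rintro rfl; norm_num at h8
  obtain ⟨s, hs⟩ : IsSquare (2 * p - 1) := by
    rw [← Rat.isSquare_natCast_iff, Nat.cast_sub (by have := hp.out.pos; omega)]
    have := h7 (c (0, 0)) (c (0, 1)) (by simp)
    have h9 : E (c (0, 0)) (c (0, 1)) ≠ 0 := fun e => hκ (by rw [← this, e]; simp)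
    refine ⟨(2 * E (c (0, 0)) (c (0, 1)))⁻¹, ?_⟩
    push_cast
    field_simp
    rw [this]; linarith
  have hp1 := hp.out.one_lt
  obtain ⟨n, rfl⟩ : Odd s := by
    rw [← Nat.not_even_iff_odd]
    rintro ⟨m, rfl⟩
    have : (m + m) * (m + m) = 2 * (2 * m * m) := by ring
    omega
  have hn : p = 2 * n ^ 2 + 2 * n + 1 := by
    have : (2 * n + 1) * (2 * n + 1) = 2 * (2 * n ^ 2 + 2 * n) + 1 := by ring
    omega
  have hs0 : (2 * n + 1 : ℚ) ≠ 0 := by positivity
  have h9 : ∀ a b, a ≠ b → E a b = if 0 < E a b then (2 * (2 * n + 1) : ℚ)⁻¹ else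
      -(2 * (2 * n + 1) : ℚ)⁻¹ := fun a b hab => by
    have : E a b ^ 2 = ((2 * (2 * n + 1) : ℚ)⁻¹) ^ 2 := by
      rw [h7 a b hab]
      rw [hn] at h8
      push_cast at h8
      field_simp
      linarith
    have h10 : (0 : ℚ) < (2 * (2 * n + 1) : ℚ)⁻¹ := by positivity
    rcases sq_eq_sq_iff_eq_or_eq_neg.1 this with e | e <;> split_ifs <;> linarith
  refine ⟨n, Nat.pos_of_ne_zero (by rintro rfl; omega), hn, fun a b => decide (0 < E a b),
    fun a b u v hab huv => ⟨?_, fun e => ?_⟩, fun a => ?_⟩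
  · rintro ⟨g, rfl, rfl⟩; simp only [hE g a b]
  · have h10 : E u v = E a b := by rw [h9 a b hab, h9 u v huv]; simp only [decide_eq_decide.1 e]
    have hv : E a b ≠ 0 := fun e => hκ (by rw [← h7 a b hab, e]; simp)
    obtain ⟨L, eL⟩ : ∃ L : Matrix Ω Ω ℚ, ∀ y z, L y z = if y ≠ z ∧ E y z = E a b then 1 else 0 :=
      ⟨_, fun _ _ => rfl⟩
    have hL : MInv G L := fun g y z => by simp [eL, hE g y z]
    have hO := orb_inv (G := G) a b
    have hO' : ∀ y z, orb G a b y z = 0 ∨ (orb G a b y z = 1 ∧ y ≠ z ∧ E y z = E a b) := fun y z => by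
      unfold orb
      split_ifs with e
      · obtain ⟨g, rfl, rfl⟩ := e
        exact Or.inr ⟨rfl, by simpa using hab, hE g a b⟩
      · exact Or.inl rfl
    have hD : MInv G (L - orb G a b) := fun g y z => by simp [hL g y z, hO g y z]
    have hD' : ∀ y z, (L - orb G a b) y z = 0 ∨ ((L - orb G a b) y z = 1 ∧ y ≠ z ∧ E y z = E a b) :=
      fun y z => by
        rw [Matrix.sub_apply, eL]
        rcases hO' y z with e | e <;> split_ifs with f <;> simp [e, f]
        exact (f e.2).elim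
    have a1 := h.valency hE hE' h1 h3 h5 hv hO hO'
    have a2 := h.valency hE hE' h1 h3 h5 hv hD hD'
    have a3 := h.valency hE hE' h1 h3 h5 hv hL fun y z => by rw [eL]; split_ifs with f <;> simp [f]
    have a4 : ∀ i i', ∑ k, blk c (L - orb G a b) i i' k =
        ∑ k, blk c L i i' k - ∑ k, blk c (orb G a b) i i' k := fun i i' => by
      simp [blk, Finset.sum_sub_distrib]
    have a5 : lam c (L - orb G a b) = lam c L - lam c (orb G a b) := by
      simp only [lam, a4]; ring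
    have a6 : ∀ A : Matrix Ω Ω ℚ, MInv G A → (∀ y z, A y z = 0 ∨ (A y z = 1 ∧ y ≠ z ∧ E y z = E a b)) →
        lam c A = 0 → ∀ y z, A y z = 0 := fun A hA hA' e y z => by
      have b1 := h.valency hE hE' h1 h3 h5 hv hA hA'
      have b2 := hA.row y (c (0, 0))
      rw [row_eq, b1, show ∑ k, blk c A 0 0 k = lam c A + ∑ k, blk c A 0 1 k by rw [lam]; ring, b1, e,
        zero_pow two_ne_zero, add_zero, add_zero, Finset.sum_eq_zero_iff_of_nonneg fun z _ => by
          rcases hA' y z with e | e <;> simp [e]] at b2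
      exact b2 z (Finset.mem_univ _)
    have a7 : lam c (orb G a b) ≠ 0 := fun e => by
      have := a6 _ hO hO' e a b
      rw [orb, if_pos ⟨1, by simp⟩] at this
      exact one_ne_zero this
    have a8 := a6 _ hD hD' (mul_left_cancel₀ (mul_ne_zero two_ne_zero a7) (by
      rw [a4, a5, a1, a3] at a2; rw [a5]; linear_combination a2)) u v
    rw [Matrix.sub_apply, eL, if_pos ⟨huv, h10⟩, orb] at a8
    by_contra e
    rw [if_neg e] at a8
    norm_num at a8
  · have a1 := Finset.card_filter_add_card_filter_not (s := univ.erase a) fun b => 0 < E a b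
    have a2 := h4 a
    rw [← Finset.add_sum_erase _ _ (Finset.mem_univ a), h6, Finset.sum_congr rfl fun b hb =>
      h9 a b (Finset.ne_of_mem_erase hb).symm, Finset.sum_ite, Finset.sum_const, Finset.sum_const,
      nsmul_eq_mul, nsmul_eq_mul] at a2
    rw [Finset.card_erase_of_mem (Finset.mem_univ _), Finset.card_univ, hc, hs] at a1
    rw [show (univ.filter fun b => b ≠ a ∧ decide (0 < E a b) = true) =
      (univ.erase a).filter fun b => 0 < E a b by ext; simp,
      show (univ.filter fun b => b ≠ a ∧ decide (0 < E a b) = false) =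
      (univ.erase a).filter fun b => ¬ 0 < E a b by ext; simp]
    generalize ((univ.erase a).filter fun b => 0 < E a b).card = y at *
    generalize ((univ.erase a).filter fun b => ¬ 0 < E a b).card = z at *
    field_simp at a2
    have a3 : 2 * n + 1 + y = z := by
      have : (2 * n + 1 + y : ℚ) = z := by linarith
      exact_mod_cast this
    constructor <;> nlinarith

omit [IsPretransitive G Ω] [DecidableEq Ω] in
theorem exists_crd [IsPreprimitive G Ω] [FaithfulSMul G Ω] (hc : Fintype.card Ω = 2 * p)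
    (h2 : ¬ IsMultiplyPretransitive G Ω 2) {x : G} (hx : orderOf x = p) :
    ∃ c : Fin 2 × ZMod p ≃ Ω, Crd x c := by
  classical
  have h1 : ∀ a : Ω, x • a ≠ a → ∀ k l : ZMod p, x ^ k.val • a = x ^ l.val • a → k = l := by
    intro a ha k l e
    by_contra hkl
    have h3 : (x ^ l.val)⁻¹ * x ^ k.val ≠ 1 := fun e => hkl (by
      rw [inv_mul_eq_one, pow_eq_pow_iff_modEq, hx, ← ZMod.natCast_eq_natCast_iff] at e
      simpa using e.symm)
    have h4 := eq_zpowers_of_card_prime hp.out (by rw [Nat.card_zpowers, hx])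
      (mul_mem (inv_mem (Subgroup.npow_mem_zpowers x l.val)) (Subgroup.npow_mem_zpowers x k.val)) h3
    refine ha ((Subgroup.zpowers_le (H := stabilizer G a)).2 ?_ (h4.ge (Subgroup.mem_zpowers x)))
    rw [mem_stabilizer_iff, mul_smul, e, inv_smul_smul]
  have h3 : ∀ (a : Ω) (k : ZMod p), x • x ^ k.val • a = x ^ (k + 1).val • a := fun a k => by
    rw [← mul_smul, ← pow_succ']
    congr 1
    rw [pow_eq_pow_iff_modEq, hx, ← ZMod.natCast_eq_natCast_iff]; simp
  obtain ⟨a, ha⟩ : ∃ a : Ω, x • a ≠ a := by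
    by_contra! h
    exact hp.out.one_lt.ne (by rw [← hx, show x = 1 from eq_of_smul_eq_smul (α := Ω) (by simpa using h),
      orderOf_one])
  by_cases h4 : ∃ b : Ω, x • b ≠ b ∧ ∀ k : ZMod p, x ^ k.val • a ≠ b
  · obtain ⟨b, hb, hb'⟩ := h4
    have h5 : ∀ k l : ZMod p, x ^ k.val • a ≠ x ^ l.val • b := fun k l e => hb' (k - l) (by
      rw [← smul_left_cancel_iff (x ^ l.val), ← e, ← mul_smul, ← pow_add]
      congr 1
      rw [pow_eq_pow_iff_modEq, hx, ← ZMod.natCast_eq_natCast_iff]; simp)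
    refine ⟨Equiv.ofBijective (fun z => x ^ z.2.val • if z.1 = 0 then a else b)
      ((Fintype.bijective_iff_injective_and_card _).2 ⟨?_, by simp [hc]⟩), ⟨fun i k => h3 _ k⟩⟩
    rintro ⟨i, k⟩ ⟨i', l⟩ e
    fin_cases i <;> fin_cases i' <;> simp at e ⊢
    exacts [h1 a ha _ _ e, h5 _ _ e, h5 _ _ e.symm, h1 b hb _ _ e]
  · push Not at h4
    have h5 : (Set.range fun k : ZMod p => x ^ k.val • a).ncard = p := by
      rw [Set.ncard_range_of_injective fun k l => h1 a ha k l, Nat.card_zmod]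
    have h6 := Set.ncard_add_ncard_compl (Set.range fun k : ZMod p => x ^ k.val • a)
    have hp2 := hp.out.two_le
    rw [Nat.card_eq_fintype_card] at h6
    refine absurd (IsPreprimitive.is_two_pretransitive ‹_› (n := p - 1)
      (s := (Set.range fun k : ZMod p => x ^ k.val • a)ᶜ) (by omega)
      (by rw [Nat.card_eq_fintype_card]; omega) ((fix_trans_iff _).2 ?_)) h2
    simp only [Set.mem_compl_iff, not_not]
    rintro _ _ ⟨k, rfl⟩ ⟨l, rfl⟩
    have h7 : ∀ y, y ∉ (Set.range fun k : ZMod p => x ^ k.val • a) → x ∈ stabilizer G y :=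
      fun y hy => by_contra fun e => hy (h4 y e)
    exact ⟨x ^ l.val * (x ^ k.val)⁻¹, fun y hy => mul_mem (pow_mem (h7 y hy) _)
      (inv_mem (pow_mem (h7 y hy) _)), by simp [mul_smul]⟩

omit [IsPretransitive G Ω] in
/-- Wielandt's theorem -/
theorem wielandt [Finite G] [IsPreprimitive G Ω] [FaithfulSMul G Ω] (hc : Fintype.card Ω = 2 * p)
    (h2 : ¬ IsMultiplyPretransitive G Ω 2) : ∃ n : ℕ, 0 < n ∧ p = 2 * n ^ 2 + 2 * n + 1 ∧
    ∃ σ : Ω → Ω → Bool, (∀ a b u v, a ≠ b → u ≠ v → ((∃ g : G, g • a = u ∧ g • b = v) ↔ σ a b = σ u v)) ∧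
      ∀ a, (univ.filter fun b => b ≠ a ∧ σ a b = true).card = n * (2 * n + 1) ∧
        (univ.filter fun b => b ≠ a ∧ σ a b = false).card = (n + 1) * (2 * n + 1) := by
  letI := Fintype.ofFinite G
  obtain ⟨a⟩ : Nonempty Ω := Fintype.card_pos_iff.1 (by have := hp.out.pos; omega)
  obtain ⟨x, hx⟩ := exists_prime_orderOf_dvd_card' (G := G) p (by
    rw [card_eq_card_mul_card_stabilizer (G := G) a, Nat.card_eq_fintype_card, hc]
    exact (dvd_mul_left _ _).mul_right _)
  obtain ⟨c, h⟩ := exists_crd hc h2 hx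
  exact h.main h2

theorem card_quot_eq {α β : Type*} (r : Setoid α) (f : α → β) (hf : Function.Surjective f)
    (h : ∀ a b, r a b ↔ f a = f b) : Nat.card (Quotient r) = Nat.card β := by
  obtain rfl : r = Setoid.ker f := Setoid.ext h
  exact Nat.card_congr (Setoid.quotientKerEquivOfSurjective f hf)

end Cfsg.Agent.H7
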